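import Cfsg.Agent.Spec53.IsometryEigen
import Mathlib

/-!
Orthogonal torus pieces with their discriminant and spinor classes.
-/

set_option autoImplicit false

namespace CfsgLib.OrthSpectrum99

open Module

variable (F : Type*) [Field F] [Fintype F] [DecidableEq F]

/-- A fixed point free isometry of order `N` of a space of dimension `d`, with discriminant class `δ` and
spinor class `c`. -/
def Piece (d N : ℕ) (δ c : ℤ) : Prop :=
  ∃ G M : Matrix (Fin d) (Fin d) F, G.transpose = G ∧ G.det ≠ 0 ∧ M.transpose * G * M = G ∧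
    (1 - M).det ≠ 0 ∧ orderOf M = N ∧ quadraticChar F G.det = δ ∧ quadraticChar F ((1 - M).det * G.det) = c

variable {F}

theorem Piece.of_matrix {ι : Type*} [Fintype ι] [DecidableEq ι] {d N : ℕ} (e : ι ≃ Fin d) {δ c : ℤ}
    (G M : Matrix ι ι F) (h1 : G.transpose = G) (h2 : G.det ≠ 0) (h3 : M.transpose * G * M = G)
    (h4 : (1 - M).det ≠ 0) (h5 : orderOf M = N) (h6 : quadraticChar F G.det = δ)
    (h7 : quadraticChar F ((1 - M).det * G.det) = c) : Piece F d N δ c := by
  let φ := Matrix.reindexAlgEquiv F F e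
  have hd : ∀ A, (φ A).det = A.det := fun A => Matrix.det_reindexAlgEquiv F F e A
  have h4' : (1 - φ M).det = (1 - M).det := by rw [← hd (1 - M), map_sub, map_one]
  refine ⟨φ G, φ M, ?_, by rwa [hd], ?_, by rwa [h4'], ?_, by rwa [hd], by rwa [h4', hd]⟩
  · conv_rhs => rw [← h1]
    rfl
  · rw [show (φ M).transpose = φ M.transpose from rfl, ← map_mul, ← map_mul, h3]
  · rw [← h5]
    exact orderOf_injective φ.toAlgHom.toMonoidHom φ.injective M

theorem Piece.prod {d N d' N' : ℕ} {δ c δ' c' : ℤ} (h : Piece F d N δ c) (h' : Piece F d' N' δ' c') :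
    Piece F (d + d') (Nat.lcm N N') (δ * δ') (c * c') := by
  obtain ⟨G, M, a1, a2, a3, a4, rfl, rfl, rfl⟩ := h
  obtain ⟨G', M', b1, b2, b3, b4, rfl, rfl, rfl⟩ := h'
  let f : Matrix (Fin d) (Fin d) F × Matrix (Fin d') (Fin d') F →* Matrix (Fin d ⊕ Fin d') (Fin d ⊕ Fin d') F :=
    { toFun := fun p => Matrix.fromBlocks p.1 0 0 p.2
      map_one' := Matrix.fromBlocks_one
      map_mul' := fun p q => by simp [Matrix.fromBlocks_multiply] }
  have hf : Function.Injective f := fun p q e => by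
    obtain ⟨e1, -, -, e2⟩ := Matrix.fromBlocks_inj.1 (show Matrix.fromBlocks p.1 0 0 p.2 = Matrix.fromBlocks q.1 0 0 q.2 from e)
    exact Prod.ext e1 e2
  have h1m : (1 : Matrix (Fin d ⊕ Fin d') (Fin d ⊕ Fin d') F) - Matrix.fromBlocks M 0 0 M' =
      Matrix.fromBlocks (1 - M) 0 0 (1 - M') := by
    rw [← Matrix.fromBlocks_one]
    ext i j
    rcases i with i | i <;> rcases j with j | j <;> simp [Matrix.one_apply]
  refine Piece.of_matrix finSumFinEquiv (Matrix.fromBlocks G 0 0 G') (Matrix.fromBlocks M 0 0 M') ?_ ?_ ?_ ?_ ?_ ?_ ?_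
  · rw [Matrix.fromBlocks_transpose, a1, b1, Matrix.transpose_zero, Matrix.transpose_zero]
  · rw [Matrix.det_fromBlocks_zero₂₁]; exact mul_ne_zero a2 b2
  · rw [Matrix.fromBlocks_transpose, Matrix.fromBlocks_multiply, Matrix.fromBlocks_multiply]
    simp [a3, b3]
  · rw [h1m, Matrix.det_fromBlocks_zero₂₁]; exact mul_ne_zero a4 b4
  · rw [show Matrix.fromBlocks M 0 0 M' = f (M, M') from rfl, orderOf_injective f hf, Prod.orderOf]
  · rw [Matrix.det_fromBlocks_zero₂₁, map_mul]
  · rw [h1m, Matrix.det_fromBlocks_zero₂₁, Matrix.det_fromBlocks_zero₂₁,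
      show (1 - M).det * (1 - M').det * (G.det * G'.det) = (1 - M).det * G.det * ((1 - M').det * G'.det) by ring,
      map_mul]

theorem ringChar_ne_two (h : Odd (Fintype.card F)) : ringChar F ≠ 2 := fun h2 => by
  have := FiniteField.even_card_of_char_two h2
  rw [Nat.odd_iff] at h
  omega

theorem quadraticChar_neg_one_pow (h : Odd (Fintype.card F)) (r : ℕ) :
    quadraticChar F ((-1 : F) ^ r) = (-1 : ℤ) ^ (r * (Fintype.card F / 2)) := by
  rw [map_pow, quadraticChar_neg_one (ringChar_ne_two h),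
    ZMod.χ₄_eq_neg_one_pow (Nat.odd_iff.1 h), ← pow_mul, mul_comm]

/-- The quadratic character of a norm. -/
theorem quadraticChar_norm {K : Type*} [Field K] [Fintype K] [Algebra F K] (hodd : Odd (Fintype.card F))
    {z : K} (hz : z ≠ 0) {ε : ℤ} (hε : ε = 1 ∨ ε = -1) (h : z ^ ((Fintype.card K - 1) / 2) = (ε : K)) :
    quadraticChar F (Algebra.norm F z) = ε := by
  have hF := ringChar_ne_two hodd
  have hN : Algebra.norm F z ≠ 0 := Algebra.norm_ne_zero_iff.2 hz
  have hpow : algebraMap F K (Algebra.norm F z ^ (Fintype.card F / 2)) = (ε : K) := by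
    rw [map_pow, FiniteField.algebraMap_norm_eq_pow, ← pow_mul, ← h]
    congr 1
    rw [Nat.card_eq_fintype_card, Nat.card_eq_fintype_card]
    obtain ⟨k, hk⟩ := hodd
    obtain ⟨n, hn⟩ : (Fintype.card F - 1) ∣ (Fintype.card K - 1) := by
      rw [Module.card_eq_pow_finrank (K := F) (V := K)]
      exact Nat.sub_one_dvd_pow_sub_one _ _
    rw [hn, hk, show 2 * k + 1 - 1 = 2 * k by omega, show (2 * k + 1) / 2 = k by omega,
      Nat.mul_div_cancel_left _ (by have := Fintype.one_lt_card (α := F); omega)]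
    rw [show 2 * k * n = 2 * (k * n) by ring, Nat.mul_div_cancel_left _ two_pos, mul_comm]
  have h2 := quadraticChar_eq_pow_of_char_ne_two hF hN
  rw [← map_intCast (algebraMap F K)] at hpow
  have h3 := (algebraMap F K).injective hpow
  rcases hε with rfl | rfl
  · rw [h2, if_pos (by simpa using h3)]
  · rw [h2, if_neg]
    rw [h3]
    simpa using Ring.neg_one_ne_one_of_char_ne_two hF

theorem orderOf_leftMulMatrix {K : Type*} [Field K] [Algebra F K] {n : ℕ} (b : Basis (Fin n) F K) (l : K) :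
    orderOf (Algebra.leftMulMatrix b l) = orderOf l :=
  orderOf_injective (Algebra.leftMulMatrix b).toRingHom.toMonoidHom (Algebra.leftMulMatrix_injective b) l

/-- Split torus piece: multiplication by `z` and its dual. -/
theorem piece_plus {K : Type*} [Field K] [Fintype K] [Algebra F K] (hodd : Odd (Fintype.card F)) {r : ℕ}
    (hr : finrank F K = r) {z : K} (hz0 : z ≠ 0) (hz1 : z ≠ 1) {ε : ℤ} (hε : ε = 1 ∨ ε = -1)
    (hh : z ^ ((Fintype.card K - 1) / 2) = (ε : K)) :
    Piece F (r + r) (orderOf z) ((-1 : ℤ) ^ (r * (Fintype.card F / 2))) ε := by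
  let b : Basis (Fin r) F K := finBasisOfFinrankEq F K hr
  set A := Algebra.leftMulMatrix b z with hA
  set B := Algebra.leftMulMatrix b z⁻¹ with hB
  have hAB : A * B = 1 := by rw [hA, hB, ← map_mul, mul_inv_cancel₀ hz0, map_one]
  have hdA : ∀ y : K, (Algebra.leftMulMatrix b y).det = Algebra.norm F y := fun y =>
    (Algebra.norm_eq_matrix_det b y).symm
  let f : Kˣ →* Matrix (Fin r ⊕ Fin r) (Fin r ⊕ Fin r) F :=
    { toFun := fun y => Matrix.fromBlocks (Algebra.leftMulMatrix b (y : K)) 0 0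
        (Algebra.leftMulMatrix b ((y⁻¹ : Kˣ) : K)).transpose
      map_one' := by simp [Matrix.fromBlocks_one]
      map_mul' := fun y w => by
        simp [Matrix.fromBlocks_multiply, ← Matrix.transpose_mul, ← map_mul, mul_comm] }
  have hf : Function.Injective f := fun y w e => by
    have e' : Matrix.fromBlocks (Algebra.leftMulMatrix b (y : K)) 0 0
        (Algebra.leftMulMatrix b ((y⁻¹ : Kˣ) : K)).transpose = Matrix.fromBlocks (Algebra.leftMulMatrix b (w : K)) 0 0
        (Algebra.leftMulMatrix b ((w⁻¹ : Kˣ) : K)).transpose := e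
    exact Units.ext (Algebra.leftMulMatrix_injective b (Matrix.fromBlocks_inj.1 e').1)
  have hG : (Matrix.fromBlocks 0 1 1 0 : Matrix (Fin r ⊕ Fin r) (Fin r ⊕ Fin r) F).det = (-1) ^ r := by
    rw [CfsgLib.LinAlg.Witt.det_antidiag]
  have h1m : (1 : Matrix (Fin r ⊕ Fin r) (Fin r ⊕ Fin r) F) - Matrix.fromBlocks A 0 0 B.transpose =
      Matrix.fromBlocks (Algebra.leftMulMatrix b (1 - z)) 0 0 (Algebra.leftMulMatrix b (1 - z⁻¹)).transpose := by
    rw [map_sub, map_sub, map_one, Matrix.transpose_sub, Matrix.transpose_one, ← hA, ← hB, ← Matrix.fromBlocks_one]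
    ext i j
    rcases i with i | i <;> rcases j with j | j <;> simp [Matrix.one_apply]
  have hdet : ((1 : Matrix (Fin r ⊕ Fin r) (Fin r ⊕ Fin r) F) - Matrix.fromBlocks A 0 0 B.transpose).det =
      Algebra.norm F (1 - z) * Algebra.norm F (1 - z⁻¹) := by
    rw [h1m, Matrix.det_fromBlocks_zero₂₁, Matrix.det_transpose, hdA, hdA]
  have hn0 : Algebra.norm F (1 - z) ≠ 0 := Algebra.norm_ne_zero_iff.2 (sub_ne_zero.2 hz1.symm)
  refine Piece.of_matrix finSumFinEquiv (Matrix.fromBlocks 0 1 1 0) (Matrix.fromBlocks A 0 0 B.transpose)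
    ?_ ?_ ?_ ?_ ?_ ?_ ?_
  · rw [Matrix.fromBlocks_transpose]; simp
  · rw [hG]; exact pow_ne_zero _ (neg_ne_zero.2 one_ne_zero)
  · rw [Matrix.fromBlocks_transpose, Matrix.fromBlocks_multiply, Matrix.fromBlocks_multiply]
    simp [← Matrix.transpose_mul, hAB, mul_eq_one_comm.1 hAB]
  · rw [hdet]
    exact mul_ne_zero hn0 (Algebra.norm_ne_zero_iff.2 (sub_ne_zero.2 (fun e => hz1 (inv_eq_one.1 e.symm))))
  · have : Matrix.fromBlocks A 0 0 B.transpose = f (Units.mk0 z hz0) := by simp [f, A, B]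
    rw [this, orderOf_injective f hf, ← orderOf_units, Units.val_mk0]
  · rw [hG, quadraticChar_neg_one_pow hodd]
  · have hfac : Algebra.norm F (1 - z⁻¹) = (-1) ^ r * Algebra.norm F z⁻¹ * Algebra.norm F (1 - z) := by
      rw [show (1 - z⁻¹) = algebraMap F K (-1) * z⁻¹ * (1 - z) by rw [map_neg, map_one]; field_simp; ring,
        map_mul, map_mul, Algebra.norm_algebraMap, hr]
    rw [hdet, hG, hfac,
      show Algebra.norm F (1 - z) * ((-1) ^ r * Algebra.norm F z⁻¹ * Algebra.norm F (1 - z)) * (-1) ^ r =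
        Algebra.norm F z⁻¹ * (Algebra.norm F (1 - z) * (-1) ^ r) ^ 2 by ring,
      map_mul, quadraticChar_sq_one' (mul_ne_zero hn0 (pow_ne_zero _ (neg_ne_zero.2 one_ne_zero))), mul_one]
    refine quadraticChar_norm hodd (inv_ne_zero hz0) hε ?_
    rw [inv_pow, hh]
    rcases hε with rfl | rfl <;> simp

/-- Non-split torus piece: multiplication by `z` with `z ^ (q ^ r + 1) = 1` on the field of degree `2r`. -/
theorem piece_minus {K : Type*} [Field K] [Fintype K] [Algebra F K] (hodd : Odd (Fintype.card F)) {r : ℕ}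
    (hr : finrank F K = r + r) {z : K} (hz : z ^ (Fintype.card F ^ r + 1) = 1) (hz1 : z ≠ 1) {ε : ℤ}
    (hε : ε = 1 ∨ ε = -1) (hh : z ^ ((Fintype.card F ^ r + 1) / 2) = (ε : K)) :
    Piece F (r + r) (orderOf z) ((-1 : ℤ) ^ ((Fintype.card F ^ r + 1) / 2)) ε := by
  classical
  set q := Fintype.card F with hq
  set σ : K →ₐ[F] K := (FiniteField.frobeniusAlgHom F K) ^ r with hσ
  have hσx : ∀ x : K, σ x = x ^ q ^ r := fun x => by
    rw [hσ]
    clear hσ hz hh hr
    induction r generalizing x with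
    | zero => simp
    | succ n ih =>
      rw [pow_succ', AlgHom.mul_apply, FiniteField.coe_frobeniusAlgHom, ih]
      show (x ^ q ^ n) ^ q = _
      rw [← pow_mul, pow_succ]
  have hcK : Fintype.card K = q ^ (r + r) := by rw [Module.card_eq_pow_finrank (K := F) (V := K), hr]
  have hσσ : ∀ x, σ (σ x) = x := fun x => by
    rw [hσx, hσx, ← pow_mul, ← pow_add, ← hcK, FiniteField.pow_card]
  have htr : ∀ x, Algebra.trace F K (σ x) = Algebra.trace F K x := fun x =>
    Algebra.trace_eq_of_algEquiv (AlgEquiv.ofBijective σ σ.bijective) x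
  let b : Basis (Fin (r + r)) F K := finBasisOfFinrankEq F K hr
  let T : LinearMap.BilinForm F K := (Algebra.traceForm F K).compl₂ σ.toLinearMap
  have hT : ∀ x y, T x y = Algebra.trace F K (x * σ y) := fun x y => rfl
  set G := LinearMap.BilinForm.toMatrix b T with hG
  have hGs : G.transpose = G := by
    ext i j
    rw [Matrix.transpose_apply, hG, LinearMap.BilinForm.toMatrix_apply, LinearMap.BilinForm.toMatrix_apply, hT, hT,
      ← htr, map_mul σ, hσσ, mul_comm]
  have hTn : T.Nondegenerate := by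
    have h1 : ∀ x, (∀ y, T x y = 0) → x = 0 := fun x hx =>
      (traceForm_nondegenerate F K).1 x fun y => by
        rw [Algebra.traceForm_apply, ← hσσ y]
        exact hx (σ y)
    refine ⟨h1, fun y hy => h1 y fun x => ?_⟩
    rw [hT, ← htr, map_mul σ, hσσ, mul_comm]
    exact hy x
  have hG0 : G.det ≠ 0 := by
    rwa [hG, ← LinearMap.BilinForm.nondegenerate_iff_det_ne_zero]
  have hT' : ∀ (y : K) (x w : K), T (y * x) w = T x (σ y * w) := fun y x w => by
    rw [hT, hT, map_mul σ, hσσ]; ring_nf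
  have hmul : ∀ y : K, LinearMap.toMatrix b b (Algebra.lmul F K y) = Algebra.leftMulMatrix b y := fun y => rfl
  have hzσ : σ z * z = 1 := by rw [hσx, ← pow_succ]; exact hz
  have hiso : (Algebra.leftMulMatrix b z).transpose * G * Algebra.leftMulMatrix b z = G := by
    rw [← hmul, hG, ← LinearMap.BilinForm.toMatrix_comp]
    congr 1
    refine LinearMap.ext₂ fun x w => ?_
    show T (z * x) (z * w) = T x w
    rw [hT', ← mul_assoc, hzσ, one_mul]
  -- the discriminant through a skew unit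
  obtain ⟨g, hg⟩ := IsCyclic.exists_ofOrder_eq_natCard (α := Kˣ)
  rw [Nat.card_units, Nat.card_eq_fintype_card, hcK] at hg
  have hq3 : 3 ≤ q := by
    have := Fintype.one_lt_card (α := F); obtain ⟨k, hk⟩ := hodd; omega
  obtain ⟨hh2, hQ⟩ : ∃ n, q ^ r = 2 * n + 1 := (hodd.pow : Odd (q ^ r))
  set h := (q ^ r + 1) / 2 with hhdef
  have hh' : h = hh2 + 1 := by omega
  set μ : K := ((g ^ h : Kˣ) : K) with hμ
  have hQQ : q ^ (r + r) - 1 = 2 * (2 * hh2 * h) := by
    rw [pow_add, hQ, hh', show (2 * hh2 + 1) * (2 * hh2 + 1) = 2 * (2 * hh2 * (hh2 + 1)) + 1 by ring]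
    omega
  have hμσ : σ μ = -μ := by
    have hr0 : 0 < hh2 := by
      rcases Nat.eq_zero_or_pos r with rfl | hr0
      · have := Module.finrank_pos (R := F) (M := K); omega
      · have := Nat.le_self_pow hr0.ne' q; omega
    have h1 : ((g : K) ^ h) ^ (2 * hh2) = -1 := by
      rw [← pow_mul]
      have h2 : ((g : K) ^ (h * (2 * hh2))) ^ 2 = 1 := by
        rw [← pow_mul, show h * (2 * hh2) * 2 = q ^ (r + r) - 1 by rw [hQQ]; ring, ← Units.val_pow_eq_pow_val,
          ← hg, pow_orderOf_eq_one, Units.val_one]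
      refine (sq_eq_one_iff.1 h2).resolve_left fun h3 => ?_
      have h4 : g ^ (h * (2 * hh2)) = 1 := Units.ext (by simpa using h3)
      have h5 := Nat.le_of_dvd (Nat.mul_pos (by omega) (by omega)) (hg ▸ orderOf_dvd_of_pow_eq_one h4)
      rw [hQQ] at h5
      have : 0 < 2 * hh2 * h := Nat.mul_pos (by omega) (by omega)
      nlinarith
    rw [hσx, hμ, Units.val_pow_eq_pow_val, hQ, pow_succ, h1, neg_one_mul]
  have hμ0 : μ ≠ 0 := Units.ne_zero _
  have halt : ((Algebra.leftMulMatrix b μ).transpose * G).transpose = -((Algebra.leftMulMatrix b μ).transpose * G) := by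
    have e : (Algebra.leftMulMatrix b μ).transpose * G = LinearMap.BilinForm.toMatrix b (T.compLeft (Algebra.lmul F K μ)) := by
      rw [LinearMap.BilinForm.toMatrix_compLeft, hmul]
    rw [e]
    ext i j
    simp only [Matrix.transpose_apply, Matrix.neg_apply, LinearMap.BilinForm.toMatrix_apply]
    show T (μ * b j) (b i) = -T (μ * b i) (b j)
    rw [hT', hμσ, neg_mul, map_neg, hT, hT, ← htr (b j * σ (μ * b i)), map_mul σ, hσσ, mul_comm]
  have hsq := CfsgLib.Spec53.isSquare_det_alternating (Ring.two_ne_zero (ringChar_ne_two hodd)) _ halt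
  rw [Matrix.det_mul, Matrix.det_transpose, ← Algebra.norm_eq_matrix_det] at hsq
  have hN0 : Algebra.norm F μ ≠ 0 := Algebra.norm_ne_zero_iff.2 hμ0
  have hδ : quadraticChar F G.det = quadraticChar F (Algebra.norm F μ) := by
    have h1 := (quadraticChar_one_iff_isSquare (mul_ne_zero hN0 hG0)).2 hsq
    rw [map_mul] at h1
    rcases quadraticChar_dichotomy hN0 with h2 | h2 <;> rw [h2] at h1 ⊢ <;> linarith
  have hNμ : quadraticChar F (Algebra.norm F μ) = (-1 : ℤ) ^ h := by
    refine quadraticChar_norm hodd hμ0 (neg_one_pow_eq_or ℤ h) ?_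
    have h1 : μ ^ (2 * hh2) = -1 := by
      have := hμσ
      rw [hσx, hQ, pow_succ] at this
      exact mul_right_cancel₀ hμ0 (by rw [this, neg_one_mul])
    rw [hcK, hQQ, Nat.mul_div_cancel_left _ two_pos, pow_mul, h1]
    simp
  have h1z : (1 : K) - z ≠ 0 := sub_ne_zero.2 hz1.symm
  refine Piece.of_matrix (Equiv.refl _) G (Algebra.leftMulMatrix b z) hGs hG0 hiso ?_ (orderOf_leftMulMatrix b z)
    (hδ.trans hNμ) ?_
  · rw [← map_one (Algebra.leftMulMatrix b), ← map_sub, ← Algebra.norm_eq_matrix_det]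
    exact Algebra.norm_ne_zero_iff.2 h1z
  · rw [← map_one (Algebra.leftMulMatrix b), ← map_sub, ← Algebra.norm_eq_matrix_det, map_mul, hδ, hNμ]
    have hz0 : z ≠ 0 := fun e => by simp [e] at hz
    have hch : quadraticChar F (Algebra.norm F (1 - z)) = (-1 : ℤ) ^ h * ε := by
      refine quadraticChar_norm hodd h1z (by rcases neg_one_pow_eq_or ℤ h with e | e <;> rcases hε with rfl | rfl <;> simp [e]) ?_
      have h1 : (1 - z) ^ (2 * hh2) = -z⁻¹ := by
        have e : σ (1 - z) = 1 - z⁻¹ := by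
          rw [map_sub, map_one, eq_inv_of_mul_eq_one_left hzσ]
        rw [hσx, hQ, pow_succ] at e
        refine mul_right_cancel₀ h1z (e.trans ?_)
        field_simp
        ring
      rw [hcK, hQQ, Nat.mul_div_cancel_left _ two_pos, pow_mul, h1, neg_pow, inv_pow, hh]
      rcases hε with rfl | rfl <;> simp
    rw [hch, mul_right_comm, ← mul_pow]
    simp

end CfsgLib.OrthSpectrum99
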