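import Cfsg.Agent.OrthSpectrum99.Place
import Cfsg.Agent.OrthSpectrum99.Pieces
import Cfsg.Agent.Spec53.AffineSpectrum

/-!
Witnesses for element orders of the natural semidirect product `V ⋊ Omega`.
-/

set_option autoImplicit false
set_option linter.unusedSectionVars false
set_option synthInstance.maxHeartbeats 200000

namespace CfsgLib.OrthSpectrum99

open Module CfsgLib.OrthGeo Cfsg.Geo CfsgLib.LinAlg.Witt CfsgLib.Spec53
open scoped Matrix MatrixGroups

variable {ι : Type} [Fintype ι] [DecidableEq ι] {F : Type*} [Field F]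

/-- The natural action of `Omega` on the vectors. -/
instance (priority := high) omegaAction (Q : (ι → F) → F) : DistribMulAction ↥(Cfsg.Omega F Q) (ι → F) where
  smul g v := ((((g : Cfsg.isometryGroup F Q) : GL ι F)) : Matrix ι ι F) *ᵥ v
  one_smul v := by
    show ((((1 : Cfsg.Omega F Q) : Cfsg.isometryGroup F Q) : GL ι F) : Matrix ι ι F) *ᵥ v = v
    simp
  mul_smul g h v := by
    show ((((g * h : Cfsg.Omega F Q) : Cfsg.isometryGroup F Q) : GL ι F) : Matrix ι ι F) *ᵥ v = _
    rw [Subgroup.coe_mul, Subgroup.coe_mul, Units.val_mul, ← Matrix.mulVec_mulVec]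
    rfl
  smul_zero g := Matrix.mulVec_zero _
  smul_add g v w := Matrix.mulVec_add _ _ _

theorem omega_smul_def {Q : (ι → F) → F} (g : Cfsg.Omega F Q) (v : ι → F) :
    g • v = ((((g : Cfsg.isometryGroup F Q) : GL ι F)) : Matrix ι ι F) *ᵥ v := rfl

/-- `N` divides an element order of `V ⋊ Omega(Q)`. -/
def InA (Q : (ι → F) → F) (N : ℕ) : Prop :=
  ∃ y : Aff (↥(Cfsg.Omega F Q)) (ι → F), N ∣ orderOf y

variable {Q : (ι → F) → F} {hQ : IsNondegenerateQuadraticForm Q}

theorem InA.mono {N M : ℕ} (h : InA Q N) (hd : M ∣ N) : InA Q M := by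
  obtain ⟨y, hy⟩ := h
  exact ⟨y, hd.trans hy⟩

theorem inA_orderOf (g : Cfsg.Omega F Q) : InA Q (orderOf g) :=
  ⟨affMk 0 g, by rw [orderOf_affMk_zero]⟩

/-- An extra factor `p` from a translation with non-vanishing orbit sum. -/
theorem inA_mul_p {p : ℕ} [hp : Fact p.Prime] [CharP F p] [Finite F] (x : Cfsg.Omega F Q) (v : ι → F)
    (hw : ∑ i ∈ Finset.range (orderOf x), x ^ i • v ≠ 0) : InA Q (orderOf x * p) := by
  refine ⟨affMk v x, ?_⟩
  set o := orderOf x
  set y : Aff (↥(Cfsg.Omega F Q)) (ι → F) := affMk v x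
  have hpv : ∀ w : ι → F, p • w = 0 := fun w => by
    funext i
    rw [Pi.smul_apply, nsmul_eq_mul, CharP.cast_eq_zero, zero_mul, Pi.zero_apply]
  have hyp : orderOf y ∣ o * p :=
    orderOf_dvd_of_kills (kills_mul_of_pow hpv (pow_orderOf_eq_one x)) v
  have hoy : o ∣ orderOf y := by
    have h := pow_orderOf_eq_one y
    rw [affMk_pow, affMk_eq_one] at h
    exact orderOf_dvd_of_pow_eq_one h.2
  obtain ⟨c, hc⟩ := hoy
  rw [hc] at hyp
  have ho : 0 < o := orderOf_pos x
  rcases (Nat.dvd_prime hp.out).1 (Nat.dvd_of_mul_dvd_mul_left ho hyp) with rfl | rfl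
  · exfalso
    have h := pow_orderOf_eq_one y
    rw [hc, mul_one, affMk_pow, affMk_eq_one] at h
    exact hw h.1
  · rw [hc]

/-- A semisimple element with fixed space and a unipotent element on it. -/
theorem inA_fixed [Fintype F] (hQ : IsNondegenerateQuadraticForm Q) {p : ℕ} [hp : Fact p.Prime] [CharP F p]
    (hp2 : p ≠ 2) (hexc : ¬ (Nat.card F = 2 ∧ Fintype.card ι = 4))
    (s : Cfsg.Omega F Q) (hco : Nat.Coprime p (orderOf s)) {k e : ℕ} (hk : p ^ e ≤ k)
    {T' : LinearMap.BilinForm F (Fin k → F)} (hS : ∀ x y, T' x y = T' y x)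
    {L' : (Fin k → F) →ₗ[F] ι → F} (hL : Emb hQ T' L')
    (hfix : ∀ v, s • L' v = L' v) : InA Q (orderOf s * p ^ (e + 1)) := by
  classical
  have h2 : (2 : F) ≠ 0 := fun h => hp2 ((Nat.prime_dvd_prime_iff_eq hp.out Nat.prime_two).1
    ((CharP.cast_eq_zero_iff F p 2).1 (by exact_mod_cast h)))
  obtain ⟨u, v, hu, hup, hv⟩ := exists_unipotent hp2 hk T' hS hL.left
  obtain ⟨h, hh⟩ := exists_ext h2 hL hu
  have hhp : h ^ p ^ e = 1 := ((hh.pow hL _).eq_one_iff hL).2 hup
  let uI : Cfsg.isometryGroup F Q := ⟨h, hh.iso⟩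
  have huO : uI ∈ Cfsg.Omega F Q := mem_omega_of_odd hexc hQ ((hp.out.odd_of_ne_two hp2).pow (n := e))
    (Subtype.ext (by rw [Subgroup.coe_pow]; exact hhp))
  let us : Cfsg.Omega F Q := ⟨uI, huO⟩
  have hcomm : Commute s us := Subtype.ext (Subtype.ext
    (hh.commute hL ((s : Cfsg.isometryGroup F Q)).2 hfix))
  have hou : orderOf u = p ^ e := by
    rcases Nat.eq_zero_or_pos e with rfl | he
    · rw [pow_zero] at hup ⊢
      exact orderOf_eq_one_iff.2 (by simpa using hup)
    · obtain ⟨e', rfl⟩ := Nat.exists_eq_succ_of_ne_zero he.ne'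
      refine orderOf_eq_prime_pow (fun hu' => hv ?_) hup
      have h3 := congrArg (Polynomial.aeval (R := F) u)
        (sub_pow_char_pow (R := Polynomial F) (p := p) (n := e') (Polynomial.X : Polynomial F) 1)
      simp only [map_pow, map_sub, Polynomial.aeval_X, map_one, one_pow, hu', sub_self] at h3
      have hle : p ^ e' ≤ p ^ (e' + 1) - 1 := by
        have h4 : p ^ e' * 2 ≤ p ^ (e' + 1) := by rw [pow_succ]; exact Nat.mul_le_mul_left _ hp.out.two_le
        have := Nat.one_le_pow e' p hp.out.pos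
        omega
      rw [pow_eq_zero_of_le hle h3, LinearMap.zero_apply]
  have hous : orderOf us = p ^ e := by
    rw [← Subgroup.orderOf_coe us, ← Subgroup.orderOf_coe (us : Cfsg.isometryGroup F Q)]
    exact (hh.orderOf_eq hL).trans hou
  have hox : orderOf (s * us) = orderOf s * p ^ e := by
    rw [hcomm.orderOf_mul_eq_mul_orderOf_of_coprime, hous]
    rw [hous]; exact (Nat.Coprime.pow_left e hco).symm
  have hact : ∀ (i : ℕ) (w : Fin k → F), (s * us) ^ i • L' w = L' ((u ^ i) w) := by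
    intro i
    induction i with
    | zero => intro w; simp
    | succ i ih =>
      intro w
      rw [pow_succ, mul_smul, mul_smul, show us • L' w = L' (u w) from hh.map w, hfix, ih, pow_succ,
        Module.End.mul_apply]
  have key := inA_mul_p (p := p) (s * us) (L' v) ?_
  · rw [hox, mul_assoc, ← pow_succ] at key
    exact key
  rw [hox, Finset.sum_congr rfl fun i _ => hact i v, ← map_sum]
  intro h0
  have h1 := hL.injective (h0.trans (map_zero L').symm)
  rw [← LinearMap.sum_apply] at h1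
  have hsum : ∑ i ∈ Finset.range (orderOf s * p ^ e), u ^ i = (orderOf s) • (u - 1) ^ (p ^ e - 1) := by
    have hpoly : (∑ i ∈ Finset.range (p ^ e), (Polynomial.X : Polynomial F) ^ i) = (Polynomial.X - 1) ^ (p ^ e - 1) := by
      refine mul_right_cancel₀ (Polynomial.X_sub_C_ne_zero (1 : F)) ?_
      rw [map_one, geom_sum_mul, ← pow_succ, Nat.sub_add_cancel (Nat.one_le_pow e p hp.out.pos),
        sub_pow_char_pow (R := Polynomial F) (p := p), one_pow]
    have e1 := congrArg (Polynomial.aeval (R := F) u) hpoly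
    simp only [map_sum, map_pow, map_sub, Polynomial.aeval_X, map_one] at e1
    rw [← e1]
    suffices key : ∀ c, ∑ i ∈ Finset.range (c * p ^ e), u ^ i = c • ∑ i ∈ Finset.range (p ^ e), u ^ i from key _
    intro c
    induction c with
    | zero => simp
    | succ c ih =>
      rw [Nat.succ_mul, Finset.sum_range_add, ih, succ_nsmul]
      congr 1
      exact Finset.sum_congr rfl fun i _ => by rw [pow_add, mul_comm c, pow_mul, hup, one_pow, one_mul]
  rw [hsum, LinearMap.smul_apply, ← Nat.cast_smul_eq_nsmul F, smul_eq_zero] at h1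
  rcases h1 with h1 | h1
  · exact hp.out.coprime_iff_not_dvd.1 hco ((CharP.cast_eq_zero_iff F p _).1 h1)
  · exact hv h1

/-- A piece placed in the space, with a unipotent element on the perpendicular. -/
theorem inA_of_piece [Fintype F] [DecidableEq F] (hQ : IsNondegenerateQuadraticForm Q) {p : ℕ} [hp : Fact p.Prime]
    [CharP F p] (hp2 : p ≠ 2) (hexc : ¬ (Nat.card F = 2 ∧ Fintype.card ι = 4)) {d k N : ℕ} {δ : ℤ}
    (hP : Piece F d N δ 1) (hd : Even d) (hdk : d + k = Fintype.card ι)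
    (hδ : 0 < k ∨ quadraticChar F (gram (bform hQ) (Pi.basisFun F ι)).det = δ) :
    InA Q N ∧ ∀ e, Nat.Coprime p N → p ^ e ≤ k → InA Q (N * p ^ (e + 1)) := by
  classical
  have h2 : (2 : F) ≠ 0 := fun h => hp2 ((Nat.prime_dvd_prime_iff_eq hp.out Nat.prime_two).1
    ((CharP.cast_eq_zero_iff F p 2).1 (by exact_mod_cast h)))
  obtain ⟨G, M, hGs, hG, hiso, hfree, hord, hGδ, hc⟩ := hP
  set D := (gram (bform hQ) (Pi.basisFun F ι)).det
  have hD : D ≠ 0 := gram_det_ne_zero _ _ ((Submodule.eq_bot_iff _).2 fun x hx =>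
    (b_nondeg hQ).1 x fun y => LinearMap.congr_fun (LinearMap.mem_ker.1 hx) y)
  have hδ' : 0 < k ∨ IsSquare (G.det * D) := hδ.imp id fun e => by
    rw [← quadraticChar_one_iff_isSquare (mul_ne_zero hG hD), map_mul, e, hGδ]
    rcases quadraticChar_dichotomy hG with h | h <;> rw [hGδ] at h <;> rw [h] <;> norm_num
  obtain ⟨T', L, L', hS, hL, hL', horth⟩ := exists_split h2 G hGs hG hdk hδ'
  have hg : ∀ x y, Matrix.toBilin' G (Matrix.toLin' M x) (Matrix.toLin' M y) = Matrix.toBilin' G x y := by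
    intro x y
    have := Matrix.toBilin'_comp G M M
    rw [hiso] at this
    exact LinearMap.congr_fun₂ this x y
  obtain ⟨h, hh⟩ := exists_ext h2 hL hg
  have key : (1 - Matrix.toLin' M : Module.End F (Fin d → F)) = Matrix.toLin' (1 - M) := by
    rw [map_sub, Matrix.toLin'_one]; rfl
  have hdet : LinearMap.det (1 - Matrix.toLin' M : Module.End F (Fin d → F)) = (1 - M).det := by
    rw [key, LinearMap.det_toLin']
  obtain ⟨hres, hspin⟩ := hh.spinor_free hL (by rw [hdet]; exact hfree) (Pi.basisFun F (Fin d))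
  have hgr : gram (Matrix.toBilin' G) (Pi.basisFun F (Fin d)) = G := by
    ext i j; simp [gram_apply, Matrix.toBilin'_single]
  have hO : (⟨h, hh.iso⟩ : Cfsg.isometryGroup F Q) ∈ Cfsg.Omega F Q := by
    rw [Classical.Orth.mem_omega_iff hQ hexc]
    refine ⟨by rw [hres]; simpa using hd, hspin.isSquare_iff.2 ?_⟩
    rw [hdet, hgr, ← quadraticChar_one_iff_isSquare (mul_ne_zero hfree hG)]
    exact hc
  set s : Cfsg.Omega F Q := ⟨⟨h, hh.iso⟩, hO⟩
  have hos : orderOf s = N := by
    rw [← Subgroup.orderOf_coe s, ← Subgroup.orderOf_coe (s : Cfsg.isometryGroup F Q)]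
    refine (hh.orderOf_eq hL).trans ?_
    rw [← hord]
    exact orderOf_injective (Matrix.toLinAlgEquiv' : Matrix (Fin d) (Fin d) F ≃ₐ[F] _).toAlgHom.toMonoidHom
      Matrix.toLinAlgEquiv'.injective M
  refine ⟨hos ▸ inA_orderOf s, fun e hco hek => ?_⟩
  rw [← hos] at hco ⊢
  exact inA_fixed hQ hp2 hexc s hco hek hS hL' fun v => hh.fix _ fun w => horth w v

end CfsgLib.OrthSpectrum99
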