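import Cfsg.Agent.OrthSpectrum99.Combin

/-!
The exponent supplied by the eigenvalue constraints, case by case.
-/

set_option autoImplicit false

namespace CfsgLib.OrthSpectrum99

variable {L : Type*} [Field L] [DecidableEq L] {S : Multiset L} {q : ℕ}

theorem tgt_half_dvd {q : ℕ} (hq : Odd q) : q ^ 2 - 1 ∣ (q ^ 4 - 1) / 2 ∧ q ^ 2 + 1 ∣ (q ^ 4 - 1) / 2 ∧
    q - 1 ∣ q ^ 2 - 1 ∧ q + 1 ∣ q ^ 2 - 1 := by
  obtain ⟨k, rfl⟩ := hq
  have e2 : (2 * k + 1) ^ 2 = 4 * k * k + 4 * k + 1 := by ring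
  have e4 : (2 * k + 1) ^ 4 - 1 = 2 * ((2 * k * k + 2 * k) * ((2 * k + 1) ^ 2 + 1)) := by
    rw [show (2 * k + 1) ^ 4 = 2 * ((2 * k * k + 2 * k) * ((2 * k + 1) ^ 2 + 1)) + 1 by ring, Nat.add_sub_cancel]
  rw [e4, Nat.mul_div_cancel_left _ two_pos, e2, Nat.add_sub_cancel, Nat.add_sub_cancel]
  refine ⟨⟨2 * k * k + 2 * k + 1, by ring⟩, Dvd.intro_left _ rfl, ⟨2 * k + 2, by ring⟩, ⟨2 * k, by ring⟩⟩

/-- The conclusion: an exponent `M`, a `p`-power `p ^ b` and a target. -/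
def Concl (S : Multiset L) (p q : ℕ) : Prop :=
  ∃ M b N, (∀ x ∈ others S, x ^ M = 1 ∧ S.count x ≤ p ^ b) ∧ S.count (-1) ≤ p ^ b + 1 ∧
    (S.count (-1) = 0 ∨ Even M) ∧ 0 < M ∧ Tgt p q N ∧ M * p ^ b ∣ N

theorem RootsData.concl (h : RootsData S q) {p : ℕ} (hp : p.Prime) (hp2 : p ≠ 2) (hq : Odd q) (hq3 : 3 ≤ q)
    (hsq : S.count (-1) = 0 → ((S.map fun a => 1 + a).prod * (2 : L) ^ 9) ^ ((q - 1) / 2) = 1)
    (htwo : (2 : L) ^ (q - 1) = 1) (hadd : ∀ x : L, (1 + x) ^ q = 1 + x ^ q) : Concl S p q := by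
  classical
  have hp3 : 3 ≤ p := by have := hp.two_le; omega
  have ha := h.even_neg
  set a := S.count (-1) with hadef
  obtain ⟨hq2m, hq2p, hq1m, hq1p⟩ := tgt_half_dvd hq
  have hev : ∀ r, Even (q ^ r - 1) ∧ Even (q ^ r + 1) := fun r => by
    obtain ⟨m, hm⟩ : Odd (q ^ r) := hq.pow
    exact ⟨⟨m, by omega⟩, ⟨m + 1, by omega⟩⟩
  have hev1 : Even (q - 1) ∧ Even (q + 1) := by simpa using hev 1
  have hpos : ∀ r, 0 < r → 0 < q ^ r - 1 := fun r hr => by
    have := Nat.le_self_pow hr.ne' q; omega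
  have cpos : ∀ x ∈ others S, 1 ≤ S.count x := fun x hx => Multiset.one_le_count_iff_mem.2 (mem_others.1 hx).1
  -- budgets
  have bud1 : ∀ {l : L} {d : ℕ}, IsDeg S q l d → 2 * d * S.count l + a ≤ 8 := fun {l d} hD => by
    have := h.sum_le _ hD.sub
    rwa [hD.sum_eq] at this
  have bud2 : ∀ {l m : L} {d e : ℕ}, IsDeg S q l d → IsDeg S q m e → m ∉ fam q l d →
      2 * d * S.count l + 2 * e * S.count m + a ≤ 8 := fun {l m d e} hD hE hm => by
    have := h.sum_le (fam q m e ∪ fam q l d) (Finset.union_subset hE.sub hD.sub)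
    rw [Finset.sum_union (hD.disjoint h.inj hm), hD.sum_eq, hE.sum_eq] at this
    omega
  have bud3 : ∀ {l m n : L} {d e f : ℕ}, IsDeg S q l d → IsDeg S q m e → IsDeg S q n f → m ∉ fam q l d →
      n ∉ fam q l d → n ∉ fam q m e →
      2 * d * S.count l + 2 * e * S.count m + 2 * f * S.count n + a ≤ 8 := fun {l m n d e f} hD hE hK h1 h2 h3 => by
    have := h.sum_le (fam q n f ∪ (fam q m e ∪ fam q l d))
      (Finset.union_subset hK.sub (Finset.union_subset hE.sub hD.sub))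
    rw [Finset.sum_union (Finset.disjoint_union_right.2 ⟨hE.disjoint h.inj h3, hD.disjoint h.inj h2⟩),
      Finset.sum_union (hD.disjoint h.inj h1), hD.sum_eq, hE.sum_eq, hK.sum_eq] at this
    omega
  have hexp1 : ∀ {l : L} {d : ℕ}, IsDeg S q l d → d = 1 → l ^ (q - 1) = 1 ∨ l ^ (q + 1) = 1 := fun {l d} hD e => by
    subst e
    simpa using hD.exponent h (by omega)
  -- degree four
  by_cases h4 : ∃ l d, IsDeg S q l d ∧ 4 ≤ d
  · obtain ⟨l, d, hD, hd⟩ := h4
    have hb := bud1 hD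
    have hc1 := cpos l (hD.sub hD.self_mem)
    have hd4 : d = 4 := by nlinarith
    subst hd4
    have hc : S.count l = 1 := by omega
    have ha0 : a = 0 := by omega
    have hall : ∀ x ∈ others S, x ∈ fam q l 4 := fun x hx => by
      by_contra hm
      obtain ⟨e, hE⟩ := h.exists_deg hq hx
      have h1 := bud2 hD hE hm
      have h2 : 0 < 2 * e * S.count x := by have := hE.pos; have := cpos x hx; positivity
      omega
    have hl0 : l ≠ 0 := fun e => h.zero (e ▸ (mem_others.1 (hD.sub hD.self_mem)).1)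
    have hSeq : S = 1 ::ₘ (fam q l 4).val := by
      refine (Multiset.ext.2 fun x => ?_)
      rw [Multiset.count_cons]
      by_cases hx1 : x = 1
      · subst hx1
        rw [h.one, if_pos rfl, Multiset.count_eq_zero_of_notMem (fun e => (mem_others.1 (hD.sub e)).2.1 rfl)]
      · rw [if_neg hx1, add_zero]
        by_cases hxf : x ∈ fam q l 4
        · rw [hD.count x hxf, hc, Multiset.count_eq_one_of_mem (fam q l 4).nodup hxf]
        · rw [Multiset.count_eq_zero_of_notMem (s := (fam q l 4).val) hxf]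
          by_contra hne
          have hxS : x ∈ S := Multiset.count_ne_zero.1 hne
          by_cases hxm : x = -1
          · subst hxm; exact hne ha0
          · exact hxf (hall x (mem_others.2 ⟨hxS, hx1, hxm⟩))
    set P := ∏ x ∈ fam q l 4, (1 + x) with hP
    have hPsq : P ^ ((q - 1) / 2) = 1 := by
      have h1 := hsq ha0
      rw [hSeq, Multiset.map_cons, Multiset.prod_cons, ← Finset.prod_eq_multiset_prod, ← hP] at h1
      have e : (1 + 1 : L) * P * 2 ^ 9 = (2 ^ 2) ^ 5 * P := by ring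
      rw [e, mul_pow] at h1
      have e2 : (((2 : L) ^ 2) ^ 5) ^ ((q - 1) / 2) = 1 := by
        obtain ⟨m, hm⟩ := hev1.1
        rw [← pow_mul, ← pow_mul, show 2 * (5 * ((q - 1) / 2)) = (q - 1) * 5 by omega, pow_mul, htwo, one_pow]
      rwa [e2, one_mul] at h1
    have h1l : (1 : L) + l ≠ 0 := fun e => (mem_others.1 (hD.sub hD.self_mem)).2.2 (eq_neg_of_add_eq_zero_right e)
    have hiterf : ∀ (z : L) (i : ℕ), (1 + z) ^ q ^ i = 1 + z ^ q ^ i := by
      intro z i
      induction i with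
      | zero => simp
      | succ i ih => rw [pow_succ, pow_mul, ih, pow_mul]; exact hadd _
    obtain ⟨n, hn⟩ : Odd (q ^ 4) := hq.pow
    have hcd := hD.card
    have hu := Finset.card_union_le ((Finset.range 4).image fun i => l ^ q ^ i) ((Finset.range 4).image fun i => (l ^ q ^ i)⁻¹)
    have hA := Finset.card_image_le (s := Finset.range 4) (f := fun i => l ^ q ^ i)
    have hB := Finset.card_image_le (s := Finset.range 4) (f := fun i => (l ^ q ^ i)⁻¹)
    rw [fam] at hcd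
    rw [Finset.card_range] at hA hB
    have hPw : P = ((1 + l) * (1 + l⁻¹)) ^ (∑ i ∈ Finset.range 4, q ^ i) := by
      rw [hP, fam, Finset.prod_union (Finset.card_union_eq_card_add_card.1 (by omega)),
        Finset.prod_image (Finset.card_image_iff.1 (by rw [Finset.card_range]; omega)),
        Finset.prod_image (Finset.card_image_iff.1 (by rw [Finset.card_range]; omega)),
        ← Finset.prod_mul_distrib, ← Finset.prod_pow_eq_pow_sum]
      refine Finset.prod_congr rfl fun i _ => ?_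
      rw [mul_pow, hiterf, hiterf, inv_pow]
    have hexp : (∑ i ∈ Finset.range 4, q ^ i) * ((q - 1) / 2) = n := by
      obtain ⟨m, rfl⟩ := hq
      rw [show (2 * m + 1 - 1) / 2 = m by omega]
      simp only [Finset.sum_range_succ, Finset.sum_range_zero]
      have : 2 * n + 1 = 2 * ((0 + (2 * m + 1) ^ 0 + (2 * m + 1) ^ 1 + (2 * m + 1) ^ 2 + (2 * m + 1) ^ 3) * m) + 1 := by
        rw [← hn]; ring
      omega
    rw [hPw, ← pow_mul, hexp, show (1 + l) * (1 + l⁻¹) = (1 + l) ^ 2 * l⁻¹ by field_simp; ring, mul_pow,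
      ← pow_mul] at hPsq
    have hfin : ∀ M, 0 < M → l ^ M = 1 → Tgt p q M → Concl S p q := fun M hM hlM hT =>
      ⟨M, 0, M, fun x hx => ⟨IsDeg.pow_eq_one hlM x (hall x hx), by
        rw [hD.count x (hall x hx), hc, pow_zero]⟩, by rw [← hadef, ha0]; exact Nat.zero_le _, Or.inl ha0, hM, hT,
        by rw [pow_zero, mul_one]⟩
    rcases hD.closes with hcl | hcl
    · have e : (1 + l) ^ (2 * n) = 1 := by
        refine mul_right_cancel₀ h1l ?_
        rw [← pow_succ, ← hn, hiterf, hcl, one_mul]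
      rw [e, one_mul, inv_pow, inv_eq_one] at hPsq
      exact hfin n (by have := hpos 4 (by norm_num); omega) hPsq (Or.inr (Or.inl (by omega)))
    · have e : (1 + l) ^ (2 * n) = l⁻¹ := by
        refine mul_right_cancel₀ h1l ?_
        rw [← pow_succ, ← hn, hiterf, hcl, mul_add, mul_one, inv_mul_cancel₀ hl0, add_comm]
      rw [e, ← pow_succ', inv_pow, inv_eq_one] at hPsq
      exact hfin (n + 1) (by omega) hPsq (Or.inl (by omega))
  push Not at h4
  -- degree three
  by_cases h3 : ∃ l d, IsDeg S q l d ∧ d = 3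
  · obtain ⟨l, _, hD, rfl⟩ := h3
    have hb := bud1 hD
    have hc1 := cpos l (hD.sub hD.self_mem)
    have hc : S.count l = 1 := by omega
    have hrest : ∀ x ∈ others S, x ∉ fam q l 3 → ∃ e, IsDeg S q x e ∧ e = 1 ∧ S.count x = 1 ∧ a = 0 := by
      intro x hx hm
      obtain ⟨e, hE⟩ := h.exists_deg hq hx
      have := bud2 hD hE hm
      have := hE.pos
      have := cpos x hx
      have : e * S.count x ≤ 1 := by nlinarith
      have : 1 ≤ e * S.count x := Nat.mul_pos hE.pos (cpos x hx)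
      have he : e = 1 := by nlinarith
      subst he
      exact ⟨1, hE, rfl, by omega, by omega⟩
    obtain ⟨M1, hM1, hM1'⟩ : ∃ M1, (M1 = q - 1 ∨ M1 = q + 1) ∧ ∀ x ∈ others S, x ∉ fam q l 3 → x ^ M1 = 1 := by
      by_cases hex : ∃ x ∈ others S, x ∉ fam q l 3
      · obtain ⟨m, hm, hml⟩ := hex
        obtain ⟨e, hE, he, hcm, ha0⟩ := hrest m hm hml
        subst he
        have : ∀ x ∈ others S, x ∉ fam q l 3 → x ∈ fam q m 1 := fun x hx hxl => by
          by_contra hxm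
          obtain ⟨e', hE', he', hcx, -⟩ := hrest x hx hxl
          have := bud3 hD hE hE' hml hxl hxm
          rw [hc, hcm, he', hcx] at this
          omega
        rcases hexp1 hE rfl with hm1 | hm1
        · exact ⟨_, Or.inl rfl, fun x hx hxl => IsDeg.pow_eq_one hm1 x (this x hx hxl)⟩
        · exact ⟨_, Or.inr rfl, fun x hx hxl => IsDeg.pow_eq_one hm1 x (this x hx hxl)⟩
      · exact ⟨q - 1, Or.inl rfl, fun x hx hxl => (hex ⟨x, hx, hxl⟩).elim⟩
    have hcount : ∀ x ∈ others S, S.count x ≤ p ^ 0 := fun x hx => by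
      rw [pow_zero]
      by_cases hxl : x ∈ fam q l 3
      · rw [hD.count x hxl, hc]
      · obtain ⟨_, -, -, hcx, -⟩ := hrest x hx hxl; omega
    have hfin : ∀ M N, 0 < M → Even M → l ^ M = 1 → M1 ∣ M → Tgt p q N → M ∣ N → Concl S p q :=
      fun M N hM hMe hlM hd1 hT hdN => ⟨M, 0, N, fun x hx => ⟨by
        by_cases hxl : x ∈ fam q l 3
        · exact IsDeg.pow_eq_one hlM x hxl
        · obtain ⟨c, rfl⟩ := hd1
          rw [pow_mul, hM1' x hx hxl, one_pow], hcount x hx⟩,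
        by rw [← hadef, pow_zero]; omega, Or.inr hMe, hM, hT, by rwa [pow_zero, mul_one]⟩
    obtain ⟨k, hk⟩ := hq
    have hT3 : Tgt p q ((q ^ 3 + 1) * k) := Or.inr (Or.inr (Or.inl (by
      rw [hk, show (2 * k + 1 - 1) = k * 2 by omega, ← Nat.mul_assoc, Nat.mul_div_cancel _ two_pos])))
    have hT4 : Tgt p q ((q ^ 3 - 1) * (k + 1)) := Or.inr (Or.inr (Or.inr (Or.inl (by
      rw [hk, show (2 * k + 1 + 1) = (k + 1) * 2 by omega, ← Nat.mul_assoc, Nat.mul_div_cancel _ two_pos]))))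
    rcases hD.exponent h (by omega) with hl1 | hl1
    · rcases hM1 with rfl | rfl
      · refine hfin (q ^ 3 - 1) _ (hpos 3 (by norm_num)) (hev 3).1 hl1 ?_ hT4 (Dvd.intro _ rfl)
        simpa using Nat.sub_dvd_pow_sub_pow q 1 3
      · refine hfin ((q ^ 3 - 1) * (k + 1)) _ (Nat.mul_pos (hpos 3 (by norm_num)) (by omega)) ((hev 3).1.mul_right _)
          (by rw [pow_mul, hl1, one_pow]) ?_ hT4 dvd_rfl
        obtain ⟨j, hj⟩ := (hev 3).1
        exact ⟨j, by rw [hj, hk]; ring⟩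
    · rcases hM1 with rfl | rfl
      · refine hfin ((q ^ 3 + 1) * k) _ (Nat.mul_pos (Nat.succ_pos _) (by omega)) ((hev 3).2.mul_right _)
          (by rw [pow_mul, hl1, one_pow]) ?_ hT3 dvd_rfl
        obtain ⟨j, hj⟩ := (hev 3).2
        exact ⟨j, by rw [hj, hk, Nat.add_sub_cancel]; ring⟩
      · refine hfin (q ^ 3 + 1) _ (Nat.succ_pos _) (hev 3).2 hl1 ⟨4 * k * k + 2 * k + 1, by rw [hk]; ring⟩ hT3
          (Dvd.intro _ rfl)
  push Not at h3
  have hdle : ∀ {l : L} {d : ℕ}, IsDeg S q l d → d = 1 ∨ d = 2 := fun {l d} hD => by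
    have := hD.pos
    have := h4 l d hD
    have := h3 l d hD
    omega
  have h24 : ∀ x ∈ others S, x ^ ((q ^ 4 - 1) / 2) = 1 := fun x hx => by
    obtain ⟨e, hE⟩ := h.exists_deg hq hx
    have aux : ∀ M, x ^ M = 1 → M ∣ (q ^ 4 - 1) / 2 → x ^ ((q ^ 4 - 1) / 2) = 1 := by
      rintro M hM ⟨c, hc⟩; rw [hc, pow_mul, hM, one_pow]
    rcases hdle hE with rfl | rfl
    · rcases hE.exponent h (by omega) with e1 | e1
      · exact aux _ e1 (by simpa using hq1m.trans hq2m)
      · exact aux _ e1 (by simpa using hq1p.trans hq2m)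
    · rcases hE.exponent h (by omega) with e1 | e1
      · exact aux _ e1 hq2m
      · exact aux _ e1 hq2p
  by_cases hplain : (∀ x ∈ others S, S.count x = 1) ∧ a ≤ 2
  · refine ⟨(q ^ 4 - 1) / 2, 0, _, fun x hx => ⟨h24 x hx, by rw [hplain.1 x hx, pow_zero]⟩,
      by rw [← hadef, pow_zero]; exact hplain.2, Or.inr ?_, ?_, Or.inr (Or.inl rfl), by rw [pow_zero, mul_one]⟩
    · obtain ⟨c, hc⟩ := hq2p
      rw [hc]
      exact (hev 2).2.mul_right _
    · have h1 := hpos 4 (by norm_num)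
      obtain ⟨j, hj⟩ := (hev 4).1
      omega
  have hspec : a ≥ 4 ∨ ∃ l ∈ others S, 2 ≤ S.count l := by
    by_contra hc
    push Not at hc
    exact hplain ⟨fun x hx => le_antisymm (by have := hc.2 x hx; omega) (cpos x hx), by
      obtain ⟨j, hj⟩ := ha; omega⟩
  -- targets with one factor `p`
  obtain ⟨k, hk⟩ := hq
  have hT5 : Tgt p q ((q ^ 2 + 1) * (k + 1) * p) := Or.inr (Or.inr (Or.inr (Or.inr (Or.inl (by
    rw [hk, show (2 * k + 1 + 1) = (k + 1) * 2 by omega, ← Nat.mul_assoc, Nat.mul_div_cancel _ two_pos])))))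
  have hT6 : Tgt p q ((q ^ 2 + 1) * k * p) := Or.inr (Or.inr (Or.inr (Or.inr (Or.inr (Or.inl (by
    rw [hk, show (2 * k + 1 - 1) = k * 2 by omega, ← Nat.mul_assoc, Nat.mul_div_cancel _ two_pos]))))))
  have hT7 : Tgt p q ((q ^ 2 - 1) * p) := Or.inr (Or.inr (Or.inr (Or.inr (Or.inr (Or.inr (Or.inl rfl))))))
  have finish1 : ∀ M N, 0 < M → Even M → (∀ x ∈ others S, x ^ M = 1 ∧ S.count x ≤ p) → a ≤ p + 1 → Tgt p q N →
      M * p ∣ N → Concl S p q := fun M N hM hMe hx ha' hT hd =>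
    ⟨M, 1, N, fun x hxs => ⟨(hx x hxs).1, by rw [pow_one]; exact (hx x hxs).2⟩,
      by rw [← hadef, pow_one]; exact ha', Or.inr hMe, hM, hT, by rwa [pow_one]⟩
  by_cases h2d : ∃ m d, IsDeg S q m d ∧ d = 2
  · obtain ⟨m, _, hE, rfl⟩ := h2d
    have hbm := bud1 hE
    have hcm := cpos m (hE.sub hE.self_mem)
    obtain ⟨M1, hM1, hcases⟩ : ∃ M1, (M1 = q - 1 ∨ M1 = q + 1) ∧
        ∀ x ∈ others S, x ∈ fam q m 2 ∨ (x ^ M1 = 1 ∧ S.count x ≤ 2) := by
      by_cases hex : ∃ x ∈ others S, x ∉ fam q m 2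
      · -- the special eigenvalue has degree one and fills the space
        obtain ⟨l, hl, hlm, hlc⟩ : ∃ l ∈ others S, l ∉ fam q m 2 ∧ 2 ≤ S.count l := by
          obtain ⟨x, hx, hxm⟩ := hex
          obtain ⟨e, hX⟩ := h.exists_deg ⟨k, hk⟩ hx
          have h1 := bud2 hE hX hxm
          have : 1 ≤ e * S.count x := Nat.mul_pos hX.pos (cpos x hx)
          rcases hspec with h4a | ⟨l, hl, hlc⟩
          · exfalso
            nlinarith
          · refine ⟨l, hl, fun hlf => ?_, hlc⟩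
            rw [hE.count l hlf] at hlc
            nlinarith
        obtain ⟨d, hD⟩ := h.exists_deg ⟨k, hk⟩ hl
        have h1 := bud2 hE hD hlm
        have hdp := hD.pos
        have hd1 : d = 1 := by nlinarith
        subst hd1
        have hall : ∀ x ∈ others S, x ∈ fam q m 2 ∨ x ∈ fam q l 1 := fun x hx => by
          by_contra hxn
          push Not at hxn
          obtain ⟨f, hX⟩ := h.exists_deg ⟨k, hk⟩ hx
          have := bud3 hE hD hX hlm hxn.1 hxn.2
          have : 1 ≤ f * S.count x := Nat.mul_pos hX.pos (cpos x hx)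
          nlinarith
        have hlc2 : S.count l ≤ 2 := by nlinarith
        rcases hexp1 hD rfl with hl1 | hl1
        · exact ⟨_, Or.inl rfl, fun x hx => (hall x hx).imp id fun hxl =>
            ⟨IsDeg.pow_eq_one hl1 x hxl, by rw [hD.count x hxl]; exact hlc2⟩⟩
        · exact ⟨_, Or.inr rfl, fun x hx => (hall x hx).imp id fun hxl =>
            ⟨IsDeg.pow_eq_one hl1 x hxl, by rw [hD.count x hxl]; exact hlc2⟩⟩
      · exact ⟨q - 1, Or.inl rfl, fun x hx => Or.inl (by by_contra hn; exact hex ⟨x, hx, hn⟩)⟩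
    have hfin : ∀ M N, 0 < M → Even M → m ^ M = 1 → M1 ∣ M → Tgt p q N → M * p ∣ N → Concl S p q :=
      fun M N hM hMe hmM hd1 hT hd => finish1 M N hM hMe (fun x hx => by
        rcases hcases x hx with hxm | ⟨hx1, hxc⟩
        · exact ⟨IsDeg.pow_eq_one hmM x hxm, by rw [hE.count x hxm]; omega⟩
        · obtain ⟨c, rfl⟩ := hd1
          exact ⟨by rw [pow_mul, hx1, one_pow], by omega⟩) (by omega) hT hd
    rcases hE.exponent h (by omega) with hm1 | hm1
    · refine hfin (q ^ 2 - 1) _ (hpos 2 two_pos) (hev 2).1 hm1 ?_ hT7 dvd_rfl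
      rcases hM1 with rfl | rfl
      exacts [hq1m, hq1p]
    · obtain ⟨j, hj⟩ := (hev 2).2
      rcases hM1 with rfl | rfl
      · exact hfin ((q ^ 2 + 1) * k) _ (Nat.mul_pos (Nat.succ_pos _) (by omega)) ((hev 2).2.mul_right _)
          (by rw [pow_mul, hm1, one_pow]) ⟨j, by rw [hj, hk, Nat.add_sub_cancel]; ring⟩ hT6 dvd_rfl
      · exact hfin ((q ^ 2 + 1) * (k + 1)) _ (Nat.mul_pos (Nat.succ_pos _) (by omega)) ((hev 2).2.mul_right _)
          (by rw [pow_mul, hm1, one_pow]) ⟨j, by rw [hj, hk]; ring⟩ hT5 dvd_rfl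
  push Not at h2d
  have hd1 : ∀ {l : L} {d : ℕ}, IsDeg S q l d → d = 1 := fun {l d} hD => (hdle hD).resolve_right (h2d l d hD)
  have h21 : ∀ x ∈ others S, x ^ (q ^ 2 - 1) = 1 := fun x hx => by
    obtain ⟨e, hX⟩ := h.exists_deg ⟨k, hk⟩ hx
    rcases hexp1 hX (hd1 hX) with e1 | e1
    · obtain ⟨c, hc⟩ := hq1m; rw [hc, pow_mul, e1, one_pow]
    · obtain ⟨c, hc⟩ := hq1p; rw [hc, pow_mul, e1, one_pow]
  by_cases hsmall : (∀ x ∈ others S, S.count x ≤ p) ∧ a ≤ p + 1
  · exact finish1 _ _ (hpos 2 two_pos) (hev 2).1 (fun x hx => ⟨h21 x hx, hsmall.1 x hx⟩) hsmall.2 hT7 dvd_rfl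
  -- small characteristic
  have hp2' : 9 ≤ p ^ 2 := by nlinarith
  have hle8 : ∀ x ∈ others S, S.count x ≤ p ^ 2 := fun x hx => by
    obtain ⟨e, hX⟩ := h.exists_deg ⟨k, hk⟩ hx
    have := bud1 hX
    rw [hd1 hX] at this
    omega
  have ha8 : a ≤ p ^ 2 + 1 := by
    have := h.sum_le ∅ (Finset.empty_subset _)
    simp at this
    omega
  have finish2 : ∀ M N, 0 < M → Even M → (∀ x ∈ others S, x ^ M = 1) → Tgt p q N → M * p ^ 2 ∣ N → Concl S p q :=
    fun M N hM hMe hx hT hd => ⟨M, 2, N, fun x hxs => ⟨hx x hxs, hle8 x hxs⟩, ha8, Or.inr hMe, hM, hT, hd⟩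
  by_cases hex : ∃ x, x ∈ others S
  · -- one eigenvalue of degree one besides a large one
    obtain ⟨l, hl, hbig⟩ : ∃ l ∈ others S, p < S.count l ∨ p + 1 < a := by
      by_cases hc : ∀ x ∈ others S, S.count x ≤ p
      · obtain ⟨x, hx⟩ := hex
        exact ⟨x, hx, Or.inr (by by_contra hn; exact hsmall ⟨hc, by omega⟩)⟩
      · push Not at hc
        obtain ⟨x, hx, hxp⟩ := hc
        exact ⟨x, hx, Or.inl hxp⟩
    obtain ⟨d, hD⟩ := h.exists_deg ⟨k, hk⟩ hl
    obtain rfl := hd1 hD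
    have hb := bud1 hD
    have hcl := cpos l hl
    obtain ⟨j, hj⟩ := ha
    have hp' : p = 3 := by
      by_contra hne
      have : 5 ≤ p := by
        rcases hp.eq_two_or_odd' with rfl | ⟨i, hi⟩ <;> omega
      omega
    have hall : ∀ x ∈ others S, x ∈ fam q l 1 := fun x hx => by
      by_contra hxn
      obtain ⟨e, hX⟩ := h.exists_deg ⟨k, hk⟩ hx
      obtain rfl := hd1 hX
      have := bud2 hD hX hxn
      have := cpos x hx
      omega
    subst hp'
    rcases hexp1 hD rfl with hl1 | hl1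
    · exact finish2 _ _ (by omega) hev1.1 (fun x hx => IsDeg.pow_eq_one hl1 x (hall x hx))
        (Or.inr (Or.inr (Or.inr (Or.inr (Or.inr (Or.inr (Or.inr (Or.inl ⟨rfl, Or.inl rfl⟩))))))))
        (dvd_of_eq (by norm_num))
    · exact finish2 _ _ (by omega) hev1.2 (fun x hx => IsDeg.pow_eq_one hl1 x (hall x hx))
        (Or.inr (Or.inr (Or.inr (Or.inr (Or.inr (Or.inr (Or.inr (Or.inl ⟨rfl, Or.inr rfl⟩))))))))
        (dvd_of_eq (by norm_num))
  · have hap : p + 1 < a := by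
      by_contra hn
      exact hsmall ⟨fun x hx => (hex ⟨x, hx⟩).elim, by omega⟩
    have ha8' : a ≤ 8 := by
      have := h.sum_le ∅ (Finset.empty_subset _)
      simpa using this
    have hp' : p = 3 ∨ p = 5 := by
      rcases hp.eq_two_or_odd' with rfl | ⟨i, hi⟩ <;> omega
    rcases hp' with rfl | rfl
    · exact finish2 _ _ (by omega) hev1.1 (fun x hx => (hex ⟨x, hx⟩).elim)
        (Or.inr (Or.inr (Or.inr (Or.inr (Or.inr (Or.inr (Or.inr (Or.inl ⟨rfl, Or.inl rfl⟩))))))))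
        (dvd_of_eq (by norm_num))
    · exact finish2 2 50 two_pos even_two (fun x hx => (hex ⟨x, hx⟩).elim)
        (Or.inr (Or.inr (Or.inr (Or.inr (Or.inr (Or.inr (Or.inr (Or.inr ⟨rfl, rfl⟩))))))))
        (dvd_of_eq (by norm_num))

end CfsgLib.OrthSpectrum99
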