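import Cfsg.Agent.OrthSpectrum99.Roots
import Cfsg.Agent.OrthSpectrum99.Exponent
import Cfsg.Agent.OrthSpectrum99.Affine

/-!
Element orders of `Omega` in dimension nine, for elements with a simple eigenvalue one.
-/

set_option autoImplicit false
set_option linter.unusedSectionVars false
set_option synthInstance.maxHeartbeats 200000

namespace CfsgLib.OrthSpectrum99

open Module Polynomial CfsgLib.OrthGeo Cfsg.Geo CfsgLib.LinAlg.Witt
open scoped Matrix MatrixGroups

section Chain

variable {F V : Type*} [Field F] [AddCommGroup V] [Module F V] [FiniteDimensional F V]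

theorem finrank_ker_chain (N : Module.End F V) : ∀ (i : ℕ) (z : V), (N ^ i) z ≠ 0 → (N ^ (i + 1)) z = 0 →
    finrank F (LinearMap.ker N) + i ≤ finrank F (LinearMap.ker (N ^ (i + 1)))
  | 0, z, _, _ => by rw [add_zero, zero_add, pow_one]
  | i + 1, z, h1, h2 => by
    have ih := finrank_ker_chain N i (N z) (by rwa [← Module.End.mul_apply, ← pow_succ])
      (by rwa [← Module.End.mul_apply, ← pow_succ])
    have hlt : LinearMap.ker (N ^ (i + 1)) < LinearMap.ker (N ^ (i + 1 + 1)) := by
      refine lt_of_le_of_ne (fun x hx => ?_) fun e => h1 ?_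
      · rw [LinearMap.mem_ker] at hx ⊢
        rw [pow_succ', Module.End.mul_apply, hx, map_zero]
      · rw [← LinearMap.mem_ker, e, LinearMap.mem_ker]; exact h2
    have := Submodule.finrank_lt_finrank_of_lt hlt
    omega

/-- No Jordan chain fills an even dimensional generalised eigenspace of an isometry. -/
theorem pow_vanish (h2 : (2 : F) ≠ 0) (B : LinearMap.BilinForm F V) (hS : ∀ x y, B x y = B y x)
    (hn : ∀ x, (∀ y, B x y = 0) → x = 0) {u : Module.End F V} (hu : ∀ x y, B (u x) (u y) = B x y) {m : ℕ}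
    (hm : Odd m) (hb : ∀ k, finrank F (LinearMap.ker ((1 - u) ^ k)) ≤ m + 1) {x : V}
    (hx : ((1 - u) ^ (m + 1)) x = 0) : ((1 - u) ^ m) x = 0 := by
  set N : Module.End F V := 1 - u with hN
  by_contra hw
  set w := (N ^ m) x
  have hNw : N w = 0 := by rw [← Module.End.mul_apply, ← pow_succ']; exact hx
  have huw : u w = w := (sub_eq_zero.1 (by simpa [hN] using hNw)).symm
  have hperp : ∀ z, B (N z) w = 0 := fun z => by
    rw [hN, LinearMap.sub_apply, Module.End.one_apply, map_sub, LinearMap.sub_apply]
    conv_lhs => arg 2; rw [← huw, hu]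
    rw [sub_self]
  have hadj : ∀ (i : ℕ) (a b : V), B ((N ^ i) a) ((u ^ i) b) = (-1) ^ i * B a ((N ^ i) b) := by
    intro i
    induction i with
    | zero => intro a b; simp
    | succ i ih =>
      intro a b
      have h1 : ∀ c d, B (N c) (u d) = -B c (N d) := fun c d => by
        simp only [hN, LinearMap.sub_apply, Module.End.one_apply, map_sub, LinearMap.sub_apply, hu]
        ring
      have hc : Commute N (u ^ i) := ((Commute.one_left u).sub_left (Commute.refl u)).pow_right i
      rw [pow_succ' N, Module.End.mul_apply, pow_succ' u, Module.End.mul_apply, h1, ← Module.End.mul_apply N (u ^ i),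
        hc.eq, Module.End.mul_apply, ih, pow_succ, Module.End.mul_apply]
      rw [show N ((N ^ i) b) = (N ^ i) (N b) by
        rw [← Module.End.mul_apply, ← Module.End.mul_apply, ← pow_succ', ← pow_succ]]
      ring
  have hwx : B w x = 0 := by
    have hd : (u ^ m) x - x = N (-((∑ j ∈ Finset.range m, u ^ j) x)) := by
      rw [map_neg, ← Module.End.mul_apply, hN, sub_mul, ← LinearMap.neg_apply, neg_sub, ← sub_mul, mul_geom_sum]
      simp
    have h3 : B w ((u ^ m) x) = B w x := by
      rw [← sub_eq_zero, ← map_sub, hd, hS, hperp]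
    have h4 := hadj m x x
    rw [hm.neg_one_pow, h3, hS x] at h4
    have h5 : 2 * B w x = 0 := by linear_combination h4
    exact (mul_eq_zero.1 h5).resolve_left h2
  have hk1 : finrank F (LinearMap.ker N) ≤ 1 := by
    have := finrank_ker_chain N m x hw hx
    have := hb (m + 1)
    omega
  have hk0 : 0 < finrank F (LinearMap.ker N) :=
    Module.finrank_pos_iff.2 ⟨⟨w, hNw⟩, 0, fun e => hw (congrArg Subtype.val e)⟩
  have hxN : x ∉ LinearMap.range N := by
    rintro ⟨z, rfl⟩
    have := finrank_ker_chain N (m + 1) z (by rw [pow_succ, Module.End.mul_apply]; exact hw)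
      (by rw [pow_succ, Module.End.mul_apply]; exact hx)
    have := hb (m + 1 + 1)
    omega
  have htop : LinearMap.range N ⊔ Submodule.span F {x} = ⊤ := by
    refine Submodule.eq_top_of_finrank_eq ?_
    have hlt : LinearMap.range N < LinearMap.range N ⊔ Submodule.span F {x} :=
      lt_of_le_of_ne le_sup_left fun e => hxN (e ▸ Submodule.mem_sup_right (Submodule.mem_span_singleton_self x))
    have := Submodule.finrank_lt_finrank_of_lt hlt
    have := Submodule.finrank_le (LinearMap.range N ⊔ Submodule.span F {x})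
    have := LinearMap.finrank_range_add_finrank_ker N
    omega
  refine hw (hn w fun y => ?_)
  obtain ⟨_, ⟨z, rfl⟩, _, hb', rfl⟩ := Submodule.mem_sup.1 (htop ▸ Submodule.mem_top :
    y ∈ LinearMap.range N ⊔ Submodule.span F {x})
  obtain ⟨c, rfl⟩ := Submodule.mem_span_singleton.1 hb'
  rw [map_add, map_smul, hS w (N z), hperp, hwx, smul_zero, add_zero]

end Chain

variable {F : Type*} [Field F] [Fintype F] {p : ℕ} [hp : Fact p.Prime] [CharP F p]
variable {ι : Type} [Fintype ι] [DecidableEq ι] {Q : (ι → F) → F}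

/-- The eigenvalue data. -/
theorem rootsData {L : Type*} [Field L] [IsAlgClosed L] [Algebra F L] [DecidableEq L] [CharP L p]
    (hQ : IsNondegenerateQuadraticForm Q) (hp2 : p ≠ 2) (h9 : Fintype.card ι = 9) (g : Cfsg.Omega F Q)
    (h1 : rootMultiplicity 1 (((g : Cfsg.isometryGroup F Q) : GL ι F) : Matrix ι ι F).charpoly = 1) :
    RootsData (croots L (((g : Cfsg.isometryGroup F Q) : GL ι F) : Matrix ι ι F)) (Fintype.card F) := by
  have hexc : ¬ (Nat.card F = 2 ∧ Fintype.card ι = 4) := fun h => by omega
  have h2 : (2 : L) ≠ 0 := fun h => hp2 ((Nat.prime_dvd_prime_iff_eq hp.out Nat.prime_two).1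
    ((CharP.cast_eq_zero_iff L p 2).1 (by exact_mod_cast h)))
  obtain ⟨f, -, hf⟩ := FiniteField.card F p
  set G : GL ι F := ((g : Cfsg.isometryGroup F Q) : GL ι F) with hG
  have hmem := ((Classical.Orth.mem_omega_iff hQ hexc (g : Cfsg.isometryGroup F Q)).1 g.2).1
  have hd : (G : Matrix ι ι F).det = 1 := by
    rw [Classical.Orth.det_eq_neg_one_pow hQ hexc (g : Cfsg.isometryGroup F Q).2]
    exact hmem.neg_one_pow
  refine ⟨(card_croots _).trans h9, zero_notMem_croots (by rw [hd]; exact one_ne_zero),
    croots_inv hQ (g : Cfsg.isometryGroup F Q).2, croots_frob hf _, ?_, ?_, ?_, h2⟩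
  · rw [hf]
    exact (iterateFrobenius L p f).injective
  · rw [croots, count_roots, ← map_one (algebraMap F L), ← eq_rootMultiplicity_map (algebraMap F L).injective]
    exact h1
  · have h := congrArg (algebraMap F L) hd
    rw [map_one, RingHom.map_det, Matrix.det_eq_prod_roots_charpoly, RingHom.mapMatrix_apply,
      Matrix.charpoly_map] at h
    exact h

/-- An element with a simple eigenvalue one. -/
theorem inA_of_simple_one [DecidableEq F] {κ : Type} [Fintype κ] [DecidableEq κ] {R : (κ → F) → F}
    (hR : IsNondegenerateQuadraticForm R) (h8 : Fintype.card κ = 8)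
    (hD : quadraticChar F (gram (bform hR) (Pi.basisFun F κ)).det = -1)
    (hQ : IsNondegenerateQuadraticForm Q) (hp2 : p ≠ 2) (h9 : Fintype.card ι = 9) (g : Cfsg.Omega F Q)
    (h1 : rootMultiplicity 1 (((g : Cfsg.isometryGroup F Q) : GL ι F) : Matrix ι ι F).charpoly = 1) :
    InA R (orderOf g) := by
  classical
  let L := AlgebraicClosure F
  haveI : CharP L p := charP_of_injective_algebraMap (algebraMap F L).injective p
  have hexc : ¬ (Nat.card F = 2 ∧ Fintype.card ι = 4) := fun h => by omega
  have h2 : (2 : F) ≠ 0 := fun h => hp2 ((Nat.prime_dvd_prime_iff_eq hp.out Nat.prime_two).1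
    ((CharP.cast_eq_zero_iff F p 2).1 (by exact_mod_cast h)))
  obtain ⟨f, -, hf⟩ := FiniteField.card F p
  set G : GL ι F := ((g : Cfsg.isometryGroup F Q) : GL ι F) with hG
  have hiso : G ∈ Cfsg.isometryGroup F Q := (g : Cfsg.isometryGroup F Q).2
  set A : Matrix ι ι F := (G : Matrix ι ι F) with hA
  set q := Fintype.card F with hq
  have hqo : Odd q := hf ▸ (hp.out.odd_of_ne_two hp2).pow
  have hq3 : 3 ≤ q := by
    have : 1 < q := Fintype.one_lt_card
    obtain ⟨k, hk⟩ := hqo
    omega
  have hS : RootsData (croots L A) q := rootsData hQ hp2 h9 g h1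
  set S := croots L A with hSdef
  have hsq : S.count (-1) = 0 → ((S.map fun a => 1 + a).prod * (2 : L) ^ 9) ^ ((q - 1) / 2) = 1 := by
    intro h0
    have hprod : ((S.map fun a => 1 + a).prod : L) ≠ 0 := by
      refine Multiset.prod_ne_zero fun hm => ?_
      obtain ⟨a, ha, e⟩ := Multiset.mem_map.1 hm
      rw [← eq_neg_iff_add_eq_zero] at e
      have e' : a = -1 := by rw [e, neg_neg]
      exact Multiset.count_ne_zero.2 ha (e' ▸ h0)
    rw [← algebraMap_det_one_add A (by rw [h9]; decide)] at hprod ⊢
    have hdet : ((1 : Matrix ι ι F) + A).det ≠ 0 := fun e => hprod (by rw [e, map_zero])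
    have hs := ((Classical.Orth.mem_omega_iff hQ hexc (g : Cfsg.isometryGroup F Q)).1 g.2).2
    rw [(spinor_of_no_neg_one h2 hiso hdet).isSquare_iff, h9] at hs
    obtain ⟨r, hr⟩ := hs
    have hr0 : r ≠ 0 := by
      rintro rfl
      rw [mul_zero] at hr
      exact mul_ne_zero hdet (pow_ne_zero 9 h2) hr
    rw [show (2 : L) = algebraMap F L 2 from (map_ofNat _ 2).symm, ← map_pow, ← map_mul, hr, ← map_pow, ← pow_two,
      ← pow_mul, Nat.mul_div_cancel' (by obtain ⟨k, hk⟩ := hqo; omega), hq,
      FiniteField.pow_card_sub_one_eq_one r hr0, map_one]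
  obtain ⟨M, b, N, hx, ha, hMe, hM, hT, hMN⟩ := hS.concl hp.out hp2 hqo hq3 hsq
    (by rw [show (2 : L) = algebraMap F L 2 from (map_ofNat _ 2).symm, ← map_pow, hq,
      FiniteField.pow_card_sub_one_eq_one (2 : F) h2, map_one])
    (fun x => by rw [hf, add_pow_char_pow, one_pow])
  refine (inA_of_tgt hR hp2 h8 hD hT).mono (dvd_trans ?_ hMN)
  -- the exponent kills `g`
  suffices key : A ^ (M * p ^ b) = 1 by
    refine orderOf_dvd_of_pow_eq_one (Subtype.ext (Subtype.ext (Units.ext ?_)))
    simpa using key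
  set a := S.count (-1) with hadef
  have hmR : A.charpoly.rootMultiplicity (-1) = a := by
    rw [hadef, hSdef, croots, count_roots, eq_rootMultiplicity_map (algebraMap F L).injective, map_neg, map_one]
  obtain ⟨R', hR'⟩ := A.charpoly.pow_rootMultiplicity_dvd (-1)
  rw [hmR] at hR'
  set P : F[X] := (X ^ M - 1) ^ p ^ b
  have hP : P = X ^ (M * p ^ b) - 1 := by
    rw [show P = (X ^ M - 1) ^ p ^ b from rfl, sub_pow_char_pow, ← pow_mul, one_pow]
  have hRP : R' ∣ P := by
    rw [← map_dvd_map' (algebraMap F L)]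
    have hmap := congrArg (Polynomial.map (algebraMap F L)) hR'
    rw [map_charpoly_eq_prod, Polynomial.map_mul, Polynomial.map_pow, Polynomial.map_sub, map_X, map_C, map_neg,
      map_one, ← hSdef] at hmap
    have hR0 : R'.map (algebraMap F L) ≠ 0 := by
      refine (Polynomial.map_ne_zero_iff (algebraMap F L).injective).2 ?_
      rintro rfl
      exact A.charpoly_monic.ne_zero (by rw [hR', mul_zero])
    have hsplit : R'.map (algebraMap F L) = ((S.filter (· ≠ -1)).map fun x => X - C x).prod := by
      have hfl : S.filter (· = -1) = Multiset.replicate a (-1) := Multiset.filter_eq' S (-1)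
      rw [← Multiset.filter_add_not (· = (-1 : L)) S, hfl, Multiset.map_add, Multiset.prod_add, Multiset.map_replicate,
        Multiset.prod_replicate] at hmap
      exact (mul_left_cancel₀ (pow_ne_zero _ (X_sub_C_ne_zero _)) hmap).symm
    rw [hsplit, show P.map (algebraMap F L) = (X ^ M - 1) ^ p ^ b by simp [P]]
    rw [Finset.prod_multiset_map_count]
    refine Finset.prod_dvd_of_coprime (fun x _ y _ hxy => ((isCoprime_X_sub_C_of_isUnit_sub
      (sub_ne_zero.2 hxy).isUnit).pow)) fun x hx' => ?_
    rw [Multiset.mem_toFinset, Multiset.mem_filter] at hx'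
    rw [Multiset.count_filter_of_pos (p := fun z => z ≠ -1) hx'.2]
    have hroot : x ^ M = 1 ∧ S.count x ≤ p ^ b := by
      by_cases h : x = 1
      · subst h; exact ⟨one_pow _, hS.one.le.trans (Nat.one_le_pow _ _ hp.out.pos)⟩
      · exact hx x (mem_others.2 ⟨hx'.1, h, hx'.2⟩)
    exact (pow_dvd_pow_of_dvd (dvd_iff_isRoot.2 (by simp [hroot.1])) _).trans
      (pow_dvd_pow _ hroot.2)
  -- reduce to `(X + 1) ^ c * R'` with `c ≤ p ^ b`
  have hcop : IsCoprime ((X - C (-1 : F)) ^ min a (p ^ b)) R' := by
    refine IsCoprime.pow_left ((irreducible_X_sub_C _).coprime_iff_not_dvd.2 fun hdv => ?_)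
    have hle : (X - C (-1 : F)) ^ (a + 1) ∣ A.charpoly := hR' ▸ pow_succ (X - C (-1 : F)) a ▸ mul_dvd_mul_left _ hdv
    have := (le_rootMultiplicity_iff A.charpoly_monic.ne_zero).2 hle
    omega
  have hkill : Polynomial.aeval A ((X - C (-1 : F)) ^ min a (p ^ b) * R') = 0 := by
    rcases le_or_gt a (p ^ b) with hle | hgt
    · rw [min_eq_left hle, ← hR', Matrix.aeval_self_charpoly]
    · have hae : a = p ^ b + 1 := by omega
      rw [min_eq_right hgt.le]
      refine Matrix.toLin'.injective ?_
      rw [map_zero]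
      set T : Module.End F (ι → F) := Matrix.toLin' A
      have hTA : ∀ r : F[X], Matrix.toLin' (Polynomial.aeval A r) = Polynomial.aeval T r := fun r =>
        (Polynomial.aeval_algHom_apply (Matrix.toLinAlgEquiv' : Matrix ι ι F ≃ₐ[F] _).toAlgHom A r).symm
      rw [hTA, map_mul, map_pow]
      have hT1 : Polynomial.aeval T (X - C (-1 : F)) = 1 - -T := by
        simp [sub_neg_eq_add, add_comm]
      refine LinearMap.ext fun v => ?_
      rw [hT1, Module.End.mul_apply, LinearMap.zero_apply]
      refine pow_vanish h2 (bform hQ) (b_symm hQ) (b_nondeg hQ).1 (fun x y => ?_)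
        ((hp.out.odd_of_ne_two hp2).pow (n := b)) (fun k => ?_) ?_
      · rw [LinearMap.neg_apply, LinearMap.neg_apply, map_neg, map_neg, LinearMap.neg_apply, neg_neg]
        exact isometry_b hQ hiso x y
      · refine le_trans (le_of_eq ?_) ((LinearMap.finrank_genEigenspace_le T (-1) k).trans
          (le_of_eq ((congrArg _ (Matrix.charpoly_toLin' A)).trans (hmR.trans hae))))
        rw [Module.End.genEigenspace_nat,
          show T - (-1 : F) • (1 : Module.End F (ι → F)) = 1 - -T from LinearMap.ext fun v => by simp [add_comm]]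
      · rw [← Module.End.mul_apply, ← hT1, ← map_pow, ← map_mul, ← hae, ← hR', ← hTA,
          Matrix.aeval_self_charpoly, map_zero, LinearMap.zero_apply]
  have hdv : (X - C (-1 : F)) ^ min a (p ^ b) * R' ∣ P := by
    refine hcop.mul_dvd ?_ hRP
    rcases hMe with h0 | hev
    · rw [h0, Nat.zero_min, pow_zero]; exact one_dvd _
    · exact (pow_dvd_pow _ (min_le_right _ _)).trans (pow_dvd_pow_of_dvd (dvd_iff_isRoot.2
        (by simp [hev.neg_one_pow])) _)
  obtain ⟨c, hc⟩ := hdv
  have h := congrArg (Polynomial.aeval A) hc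
  rw [map_mul, hkill, zero_mul, hP, map_sub, map_pow, aeval_X, map_one, sub_eq_zero] at h
  exact h

end CfsgLib.OrthSpectrum99
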