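import Cfsg.Agent.OrthSpectrum99.Targets

/-!
Exponents for a symmetric configuration of nine eigenvalues with a single eigenvalue one.
-/

set_option autoImplicit false

namespace CfsgLib.OrthSpectrum99

variable {L : Type*} [Field L] [DecidableEq L]

/-- The constraints on the eigenvalues. -/
structure RootsData (S : Multiset L) (q : ℕ) : Prop where
  card : Multiset.card S = 9
  zero : (0 : L) ∉ S
  inv : S.map (·⁻¹) = S
  frob : S.map (fun x => x ^ q) = S
  inj : Function.Injective fun x : L => x ^ q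
  one : S.count 1 = 1
  prod : S.prod = 1
  two : (2 : L) ≠ 0

variable {S : Multiset L} {q : ℕ}

/-- The eigenvalues other than `±1`. -/
def others (S : Multiset L) : Finset L := S.toFinset \ {1, -1}

theorem mem_others {x : L} : x ∈ others S ↔ x ∈ S ∧ x ≠ 1 ∧ x ≠ -1 := by
  simp [others, and_assoc]

theorem RootsData.inv_ne (h : RootsData S q) {x : L} (hx : x ∈ others S) : x⁻¹ ≠ x := by
  obtain ⟨hS, h1, h2⟩ := mem_others.1 hx
  have h0 : x ≠ 0 := fun e => h.zero (e ▸ hS)
  intro e
  have h3 : x * x = 1 := by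
    conv_lhs => arg 2; rw [← e]
    exact mul_inv_cancel₀ h0
  rcases mul_self_eq_one_iff.1 h3 with e' | e'
  · exact h1 e'
  · exact h2 e'

theorem RootsData.count_inv (h : RootsData S q) (x : L) : S.count x⁻¹ = S.count x := by
  conv_lhs => rw [← h.inv]
  exact Multiset.count_map_eq_count' _ _ inv_injective x

theorem RootsData.count_frob (h : RootsData S q) (x : L) : S.count (x ^ q) = S.count x := by
  conv_lhs => rw [← h.frob]
  exact Multiset.count_map_eq_count' _ _ h.inj x

theorem RootsData.inv_mem (h : RootsData S q) {x : L} (hx : x ∈ others S) : x⁻¹ ∈ others S := by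
  obtain ⟨hS, h1, h2⟩ := mem_others.1 hx
  refine mem_others.2 ⟨by rw [← Multiset.one_le_count_iff_mem, h.count_inv]; exact Multiset.one_le_count_iff_mem.2 hS,
    fun e => h1 (by rw [← inv_inv x, e, inv_one]), fun e => h2 (by rw [← inv_inv x, e, inv_neg, inv_one])⟩

theorem RootsData.frob_mem (h : RootsData S q) (hq : Odd q) {x : L} (hx : x ∈ others S) : x ^ q ∈ others S := by
  obtain ⟨hS, h1, h2⟩ := mem_others.1 hx
  refine mem_others.2 ⟨by rw [← Multiset.one_le_count_iff_mem, h.count_frob]; exact Multiset.one_le_count_iff_mem.2 hS,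
    fun e => h1 (h.inj (by simpa using e)), fun e => h2 (h.inj (by simpa [hq.neg_one_pow] using e))⟩

theorem RootsData.iter_inj (h : RootsData S q) : ∀ i, Function.Injective fun x : L => x ^ q ^ i
  | 0 => fun x y e => by simpa using e
  | i + 1 => fun x y e => h.inj (h.iter_inj i (by simpa [← pow_mul, pow_succ'] using e))

/-- Even multiplicity of `-1`. -/
theorem RootsData.even_neg (h : RootsData S q) : Even (S.count (-1)) := by
  have hne : (1 : L) ≠ -1 := fun e => h.two (by linear_combination e)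
  have h1 : (1 : L) ∈ S := Multiset.one_le_count_iff_mem.1 h.one.ge
  have hrest : ∏ x ∈ others S, x ^ S.count x = 1 := by
    refine Finset.prod_involution (fun x _ => x⁻¹) (fun x hx => ?_) (fun x hx _ => h.inv_ne hx)
      (fun x hx => h.inv_mem hx) (fun x _ => inv_inv x)
    rw [h.count_inv, ← mul_pow, mul_inv_cancel₀ (fun e => h.zero (e ▸ (mem_others.1 hx).1)), one_pow]
  have hp := h.prod
  rw [Finset.prod_multiset_count] at hp
  have hsplit : ∏ x ∈ S.toFinset, x ^ S.count x = (-1 : L) ^ S.count (-1) := by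
    rw [← Finset.prod_sdiff (s₁ := S.toFinset ∩ {1, -1}) Finset.inter_subset_left, Finset.sdiff_inter_self_left]
    rw [show S.toFinset \ {1, -1} = others S from rfl, hrest, one_mul]
    by_cases hm : (-1 : L) ∈ S
    · rw [Finset.inter_eq_right.2 (by simp [Finset.insert_subset_iff, h1, hm]), Finset.prod_pair hne, one_pow, one_mul]
    · rw [show S.toFinset ∩ {1, -1} = {1} by ext x; simp; constructor <;> aesop,
        Finset.prod_singleton, one_pow, Multiset.count_eq_zero_of_notMem hm, pow_zero]
  rw [hsplit] at hp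
  by_contra hodd
  rw [(Nat.not_even_iff_odd.1 hodd).neg_one_pow] at hp
  exact hne hp.symm

/-- The budget. -/
theorem RootsData.sum_le (h : RootsData S q) (T : Finset L) (hT : T ⊆ others S) :
    ∑ x ∈ T, S.count x + S.count (-1) ≤ 8 := by
  have hne : (1 : L) ≠ -1 := fun e => h.two (by linear_combination e)
  have h1 : (1 : L) ∉ insert (-1 : L) T := by
    simp only [Finset.mem_insert, not_or]
    exact ⟨hne, fun e => (mem_others.1 (hT e)).2.1 rfl⟩
  have h2 : (-1 : L) ∉ T := fun e => (mem_others.1 (hT e)).2.2 rfl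
  have h3 : ∑ x ∈ insert 1 (insert (-1 : L) T), S.count x ≤ Multiset.card S := by
    rw [← Multiset.toFinset_sum_count_eq S]
    refine Finset.sum_le_sum_of_ne_zero fun x _ hx => ?_
    exact Multiset.mem_toFinset.2 (Multiset.count_ne_zero.1 hx)
  rw [Finset.sum_insert h1, Finset.sum_insert h2, h.one, h.card] at h3
  omega

/-- The orbit of `l` under inversion and Frobenius, given its degree. -/
def fam (q : ℕ) (l : L) (d : ℕ) : Finset L :=
  (Finset.range d).image (fun i => l ^ q ^ i) ∪ (Finset.range d).image (fun i => (l ^ q ^ i)⁻¹)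

/-- `d` is the degree of `l`. -/
structure IsDeg (S : Multiset L) (q : ℕ) (l : L) (d : ℕ) : Prop where
  pos : 0 < d
  closes : l ^ q ^ d = l ∨ l ^ q ^ d = l⁻¹
  card : (fam q l d).card = 2 * d
  sub : fam q l d ⊆ others S
  count : ∀ x ∈ fam q l d, S.count x = S.count l
  frob : ∀ x, x ∈ fam q l d → x ^ q ∈ fam q l d
  inv : ∀ x, x ∈ fam q l d → x⁻¹ ∈ fam q l d

theorem RootsData.exists_deg (h : RootsData S q) (hq : Odd q) {l : L} (hl : l ∈ others S) :
    ∃ d, IsDeg S q l d := by
  classical
  have hiter : ∀ i, l ^ q ^ i ∈ others S := by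
    intro i
    induction i with
    | zero => simpa using hl
    | succ i ih => rw [pow_succ, pow_mul]; exact h.frob_mem hq ih
  have hci : ∀ i, S.count (l ^ q ^ i) = S.count l := by
    intro i
    induction i with
    | zero => simp
    | succ i ih => rw [pow_succ, pow_mul, h.count_frob, ih]
  have hex : ∃ d, 0 < d ∧ (l ^ q ^ d = l ∨ l ^ q ^ d = l⁻¹) := by
    obtain ⟨i, _, j, _, hij, he⟩ := Finset.exists_ne_map_eq_of_card_lt_of_maps_to
      (s := Finset.range ((others S).card + 1)) (t := others S) (by simp) (fun i _ => hiter i)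
    rcases lt_or_gt_of_ne hij with hlt | hlt
    · refine ⟨j - i, by omega, Or.inl (h.iter_inj i ?_)⟩
      simp only [← pow_mul, ← pow_add, show j - i + i = j by omega]; exact he.symm
    · refine ⟨i - j, by omega, Or.inl (h.iter_inj j ?_)⟩
      simp only [← pow_mul, ← pow_add, show i - j + j = i by omega]; exact he
  obtain ⟨hd, hcl⟩ := Nat.find_spec hex
  set d := Nat.find hex with hddef
  have hmin : ∀ k, 0 < k → k < d → l ^ q ^ k ≠ l ∧ l ^ q ^ k ≠ l⁻¹ := fun k hk hkd =>
    ⟨fun e => Nat.find_min hex hkd ⟨hk, Or.inl e⟩, fun e => Nat.find_min hex hkd ⟨hk, Or.inr e⟩⟩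
  have hshift : ∀ i j, i ≤ j → l ^ q ^ j = (l ^ q ^ (j - i)) ^ q ^ i := fun i j hij => by
    rw [← pow_mul, ← pow_add, Nat.sub_add_cancel hij]
  have hneq : ∀ i j, i < d → j < d → i < j → l ^ q ^ i ≠ l ^ q ^ j ∧ (l ^ q ^ i)⁻¹ ≠ l ^ q ^ j := by
    intro i j _ hj hij
    refine ⟨fun e => (hmin (j - i) (by omega) (by omega)).1 ?_, fun e => (hmin (j - i) (by omega) (by omega)).2 ?_⟩
    · rw [hshift i j hij.le] at e
      exact (h.iter_inj i e).symm
    · rw [hshift i j hij.le, ← inv_pow] at e
      exact (h.iter_inj i e).symm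
  have hcard : (fam q l d).card = 2 * d := by
    rw [fam, Finset.card_union_of_disjoint, Finset.card_image_of_injOn, Finset.card_image_of_injOn, Finset.card_range]
    · ring
    · intro i hi j hj e
      simp only [Finset.coe_range, Set.mem_Iio] at hi hj
      rcases lt_trichotomy i j with hlt | rfl | hlt
      · exact absurd (inv_injective e) (hneq i j hi hj hlt).1
      · rfl
      · exact absurd (inv_injective e).symm (hneq j i hj hi hlt).1
    · intro i hi j hj e
      simp only [Finset.coe_range, Set.mem_Iio] at hi hj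
      rcases lt_trichotomy i j with hlt | rfl | hlt
      · exact absurd e (hneq i j hi hj hlt).1
      · rfl
      · exact absurd e.symm (hneq j i hj hi hlt).1
    · rw [Finset.disjoint_left]
      simp only [Finset.mem_image, Finset.mem_range, not_exists, not_and]
      rintro _ ⟨i, hi, rfl⟩ j hj e
      rcases lt_trichotomy i j with hlt | rfl | hlt
      · exact (hneq i j hi hj hlt).2 (by rw [← e, inv_inv])
      · exact h.inv_ne (hiter i) e
      · exact (hneq j i hj hi hlt).2 e
  refine ⟨d, hd, hcl, hcard, ?_, ?_, ?_, ?_⟩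
  · intro x hx
    simp only [fam, Finset.mem_union, Finset.mem_image, Finset.mem_range] at hx
    rcases hx with ⟨i, -, rfl⟩ | ⟨i, -, rfl⟩
    exacts [hiter i, h.inv_mem (hiter i)]
  · intro x hx
    simp only [fam, Finset.mem_union, Finset.mem_image, Finset.mem_range] at hx
    rcases hx with ⟨i, -, rfl⟩ | ⟨i, -, rfl⟩
    exacts [hci i, (h.count_inv _).trans (hci i)]
  · intro x hx
    simp only [fam, Finset.mem_union, Finset.mem_image, Finset.mem_range] at hx ⊢
    rcases hx with ⟨i, hi, rfl⟩ | ⟨i, hi, rfl⟩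
    · rw [← pow_mul, ← pow_succ]
      rcases eq_or_lt_of_le (show i + 1 ≤ d from hi) with e | e
      · rcases hcl with hc | hc
        · exact Or.inl ⟨0, hd, by rw [e, hc, pow_zero, pow_one]⟩
        · exact Or.inr ⟨0, hd, by rw [e, hc, pow_zero, pow_one]⟩
      · exact Or.inl ⟨i + 1, e, rfl⟩
    · rw [inv_pow, ← pow_mul, ← pow_succ]
      rcases eq_or_lt_of_le (show i + 1 ≤ d from hi) with e | e
      · rcases hcl with hc | hc
        · exact Or.inr ⟨0, hd, by rw [e, hc, pow_zero, pow_one]⟩
        · exact Or.inl ⟨0, hd, by rw [e, hc, pow_zero, pow_one, inv_inv]⟩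
      · exact Or.inr ⟨i + 1, e, rfl⟩
  · intro x hx
    simp only [fam, Finset.mem_union, Finset.mem_image, Finset.mem_range] at hx ⊢
    rcases hx with ⟨i, hi, rfl⟩ | ⟨i, hi, rfl⟩
    exacts [Or.inr ⟨i, hi, rfl⟩, Or.inl ⟨i, hi, (inv_inv _).symm⟩]

theorem IsDeg.self_mem {l : L} {d : ℕ} (hD : IsDeg S q l d) : l ∈ fam q l d :=
  Finset.mem_union_left _ (Finset.mem_image.2 ⟨0, Finset.mem_range.2 hD.pos, by simp⟩)

theorem IsDeg.sum_eq {l : L} {d : ℕ} (hD : IsDeg S q l d) :
    ∑ x ∈ fam q l d, S.count x = 2 * d * S.count l := by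
  rw [Finset.sum_congr rfl hD.count, Finset.sum_const, hD.card, smul_eq_mul]

theorem IsDeg.pow_eq_one {l : L} {d M : ℕ} (h : l ^ M = 1) :
    ∀ x ∈ fam q l d, x ^ M = 1 := by
  intro x hx
  simp only [fam, Finset.mem_union, Finset.mem_image] at hx
  rcases hx with ⟨i, -, rfl⟩ | ⟨i, -, rfl⟩
  · rw [← pow_mul, mul_comm, pow_mul, h, one_pow]
  · rw [inv_pow, ← pow_mul, mul_comm, pow_mul, h, one_pow, inv_one]

theorem IsDeg.exponent (h : RootsData S q) (hq : 0 < q) {l : L} {d : ℕ} (hD : IsDeg S q l d) :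
    l ^ (q ^ d - 1) = 1 ∨ l ^ (q ^ d + 1) = 1 := by
  have h0 : l ≠ 0 := fun e => h.zero (e ▸ (mem_others.1 (hD.sub hD.self_mem)).1)
  have h1 : 1 ≤ q ^ d := Nat.one_le_pow _ _ hq
  rcases hD.closes with e | e
  · left
    refine mul_right_cancel₀ h0 ?_
    rw [← pow_succ, Nat.sub_add_cancel h1, one_mul]
    exact e
  · right
    rw [pow_succ, e, inv_mul_cancel₀ h0]

theorem IsDeg.disjoint {l m : L} {d e : ℕ} (hD : IsDeg S q l d)
    (hinj : Function.Injective fun x : L => x ^ q) (hm : m ∉ fam q l d) :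
    Disjoint (fam q m e) (fam q l d) := by
  have himg : (fam q l d).image (fun x => x ^ q) = fam q l d :=
    Finset.eq_of_subset_of_card_le (Finset.image_subset_iff.2 hD.frob)
      (Finset.card_image_of_injective _ hinj).ge
  have back : ∀ i x, x ^ q ^ i ∈ fam q l d → x ∈ fam q l d := by
    intro i
    induction i with
    | zero => intro x hx; simpa using hx
    | succ i ih =>
      intro x hx
      rw [pow_succ', pow_mul] at hx
      have h1 := ih _ hx
      rw [← himg, Finset.mem_image] at h1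
      obtain ⟨y, hy, hyx⟩ := h1
      exact hinj hyx ▸ hy
  rw [Finset.disjoint_left]
  intro x hx hxl
  simp only [fam, Finset.mem_union, Finset.mem_image] at hx
  rcases hx with ⟨i, -, rfl⟩ | ⟨i, -, rfl⟩
  · exact hm (back i _ hxl)
  · exact hm (back i _ (by simpa [fam] using hD.inv _ hxl))

end CfsgLib.OrthSpectrum99
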