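import Cfsg.Agent.OrthSpectrum99.Bound

/-!
Fixed spaces of semisimple isometries, extensions and restrictions.
-/

set_option autoImplicit false
set_option linter.unusedSectionVars false

namespace CfsgLib.OrthSpectrum99

open Module CfsgLib.OrthGeo Cfsg.Geo CfsgLib.LinAlg.Witt CfsgLib.Classical.Orth
open scoped Matrix MatrixGroups

variable {ι : Type} [Fintype ι] [DecidableEq ι] {F : Type*} [Field F] {Q : (ι → F) → F}

/-- The matrix of an element of `Omega`. -/
abbrev omGL (g : Cfsg.Omega F Q) : GL ι F := ((g : Cfsg.isometryGroup F Q) : GL ι F)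

/-- The linear map of a matrix. -/
abbrev glEnd (g : GL ι F) : Module.End F (ι → F) := Matrix.toLin' (g : Matrix ι ι F)

theorem orderOf_omGL (g : Cfsg.Omega F Q) : orderOf (omGL g) = orderOf g := by
  rw [omGL, Subgroup.orderOf_coe, Subgroup.orderOf_coe]

theorem omGL_pow (g : Cfsg.Omega F Q) (n : ℕ) : omGL (g ^ n) = omGL g ^ n := by
  simp [omGL]

theorem glEnd_pow (g : GL ι F) (n : ℕ) : glEnd (g ^ n) = glEnd g ^ n := by
  rw [glEnd, Units.val_pow_eq_pow_val, Matrix.toLin'_pow]

theorem glEnd_one : glEnd (1 : GL ι F) = 1 := by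
  rw [glEnd, Units.val_one, Matrix.toLin'_one]; rfl

theorem mem_fixedSpace_iff_sub {g : GL ι F} {x : ι → F} :
    x ∈ fixedSpace g ↔ x ∈ LinearMap.ker (glEnd g - 1) := by
  rw [mem_fixedSpace, LinearMap.mem_ker, LinearMap.sub_apply, Module.End.one_apply, sub_eq_zero,
    Matrix.toLin'_apply]

theorem fixedSpace_eq_ker (g : GL ι F) : fixedSpace g = LinearMap.ker (glEnd g - 1) :=
  Submodule.ext fun _ => mem_fixedSpace_iff_sub

theorem sub_one_pow_char {V : Type*} [AddCommGroup V] [Module F V] {p : ℕ} [Fact p.Prime] [CharP F p]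
    (T : Module.End F V) (c : ℕ) : (T - 1) ^ p ^ c = T ^ p ^ c - 1 := by
  have h := congrArg (Polynomial.aeval (R := F) T)
    (sub_pow_char_pow (R := Polynomial F) (p := p) (n := c) (Polynomial.X : Polynomial F) 1)
  simpa only [map_pow, map_sub, Polynomial.aeval_X, map_one, one_pow] using h

/-- A semisimple unipotent chain has length one. -/
theorem sub_one_eq_zero {V : Type*} [AddCommGroup V] [Module F V] {S : Module.End F V} {r : ℕ}
    (hS : S ^ r = 1) (hr : (r : F) ≠ 0) : ∀ (j : ℕ) {x : V}, ((S - 1) ^ j) x = 0 → (S - 1) x = 0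
  | 0, x, h => by rw [pow_zero, Module.End.one_apply] at h; rw [h, map_zero]
  | j + 1, x, h => by
    rw [pow_succ, Module.End.mul_apply] at h
    have h1 := sub_one_eq_zero hS hr j h
    set y := (S - 1) x with hy
    have hSy : S y = y := sub_eq_zero.1 (by simpa using h1)
    have hSx : S x = x + y := by rw [hy]; simp
    have hi : ∀ i : ℕ, (S ^ i) x = x + (i : F) • y := by
      intro i
      induction i with
      | zero => simp
      | succ i ih =>
        rw [pow_succ', Module.End.mul_apply, ih, map_add, map_smul, hSy, hSx, Nat.cast_succ, add_smul,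
          one_smul]
        abel
    have h2 := hi r
    rw [hS, Module.End.one_apply, left_eq_add] at h2
    exact (smul_eq_zero.1 h2).resolve_left hr

/-- The fixed space of an isometry of order prime to the characteristic is non-degenerate. -/
theorem fixed_nondeg (hQ : IsNondegenerateQuadraticForm Q) {s : GL ι F} (hs : s ∈ Cfsg.isometryGroup F Q) {r : ℕ}
    (hsr : s ^ r = 1) (hr : (r : F) ≠ 0) {x : ι → F} (hx : x ∈ fixedSpace s)
    (hp : ∀ y ∈ fixedSpace s, bform hQ x y = 0) : x = 0 := by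
  refine (b_nondeg hQ).1 x fun y => ?_
  set S := glEnd s with hS
  have hSr : S ^ r = 1 := by rw [hS, ← glEnd_pow, hsr, glEnd_one]
  set y' := (∑ i ∈ Finset.range r, S ^ i) y with hy'
  have hmem : y' ∈ fixedSpace s := by
    rw [mem_fixedSpace_iff_sub, LinearMap.mem_ker, hy', ← Module.End.mul_apply, mul_geom_sum, hSr, sub_self,
      LinearMap.zero_apply]
  have hSx : ∀ i, (S ^ i) x = x := by
    intro i
    induction i with
    | zero => simp
    | succ i ih =>
      rw [pow_succ, Module.End.mul_apply, hS, Matrix.toLin'_apply, mem_fixedSpace.1 hx, ← hS, ih]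
  have hi : ∀ i, bform hQ x ((S ^ i) y) = bform hQ x y := fun i => by
    conv_lhs => rw [← hSx i]
    rw [hS, ← glEnd_pow, Matrix.toLin'_apply, Matrix.toLin'_apply, isometry_b hQ (pow_mem hs i)]
  have h := hp y' hmem
  rw [hy', LinearMap.sum_apply, map_sum, Finset.sum_congr rfl fun i _ => hi i, Finset.sum_const, Finset.card_range,
    nsmul_eq_mul] at h
  exact (mul_eq_zero.1 h).resolve_left hr

/-- Coordinates on the fixed space. -/
theorem exists_fixed_emb (hQ : IsNondegenerateQuadraticForm Q) {s : GL ι F} (hs : s ∈ Cfsg.isometryGroup F Q)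
    {r : ℕ} (hsr : s ^ r = 1) (hr : (r : F) ≠ 0) {k : ℕ} (hk : finrank F (fixedSpace s) = k) :
    ∃ (T' : LinearMap.BilinForm F (Fin k → F)) (L' : (Fin k → F) →ₗ[F] ι → F),
      (∀ x y, T' x y = T' y x) ∧ Emb hQ T' L' ∧ LinearMap.range L' = fixedSpace s := by
  let b := Module.finBasisOfFinrankEq F (fixedSpace s) hk
  let L' : (Fin k → F) →ₗ[F] ι → F := (fixedSpace s).subtype ∘ₗ b.equivFun.symm.toLinearMap
  have hran : LinearMap.range L' = fixedSpace s := by
    rw [LinearMap.range_comp, LinearEquiv.range, Submodule.map_top, Submodule.range_subtype]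
  refine ⟨(bform hQ).comp L' L', L', fun x y => b_symm hQ _ _, ⟨fun x y => rfl, fun x hx => ?_⟩, hran⟩
  have h0 : L' x = 0 := fixed_nondeg hQ hs hsr hr (hran ▸ ⟨x, rfl⟩) fun y hy => by
    obtain ⟨y', rfl⟩ := hran.ge hy
    exact hx y'
  exact b.equivFun.symm.injective (Subtype.ext (h0.trans (map_zero L').symm))

/-- A map preserving the image of an embedding. -/
theorem exists_pullback {V W : Type*} [AddCommGroup V] [Module F V] [AddCommGroup W] [Module F W]
    {L : V →ₗ[F] W} (hL : Function.Injective L) (T : Module.End F W)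
    (h : ∀ v, T (L v) ∈ LinearMap.range L) : ∃ f : Module.End F V, ∀ v, L (f v) = T (L v) := by
  refine ⟨(LinearEquiv.ofInjective L hL).symm.toLinearMap ∘ₗ (T ∘ₗ L).codRestrict (LinearMap.range L) h,
    fun v => ?_⟩
  exact congrArg Subtype.val ((LinearEquiv.ofInjective L hL).apply_symm_apply _)

variable {κ : Type} [Fintype κ] [DecidableEq κ] {R : (κ → F) → F}

/-- The setting: a hyperplane with a complementary anisotropic vector. -/
structure Hyper (hQ : IsNondegenerateQuadraticForm Q) (hR : IsNondegenerateQuadraticForm R)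
    (L : (κ → F) →ₗ[F] ι → F) (e₀ : ι → F) : Prop where
  two : (2 : F) ≠ 0
  emb : Emb hQ (bform hR) L
  aniso : Q e₀ ≠ 0
  perp : ∀ v, bform hQ (L v) e₀ = 0
  span : ∀ z, ∃ v, ∃ t : F, z = L v + t • e₀
  exc : ¬ (Nat.card F = 2 ∧ Fintype.card ι = 4)
  exc' : ¬ (Nat.card F = 2 ∧ Fintype.card κ = 4)

variable {hQ : IsNondegenerateQuadraticForm Q} {hR : IsNondegenerateQuadraticForm R}
variable {L : (κ → F) →ₗ[F] ι → F} {e₀ : ι → F}

theorem Hyper.mem_range (H : Hyper hQ hR L e₀) {z : ι → F} (hz : bform hQ z e₀ = 0) :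
    z ∈ LinearMap.range L := by
  obtain ⟨v, t, rfl⟩ := H.span z
  rw [map_add, LinearMap.add_apply, H.perp, map_smul, LinearMap.smul_apply, b_self hQ, zero_add, smul_eq_mul,
    mul_eq_zero, mul_eq_zero] at hz
  rcases hz with rfl | h | h
  · exact ⟨v, by simp⟩
  · exact absurd h H.two
  · exact absurd h H.aniso

/-- An element of the small `Omega` extends. -/
theorem Hyper.lift [Finite F] (H : Hyper hQ hR L e₀) (x : Cfsg.Omega F R) :
    ∃ y : Cfsg.Omega F Q, Ext hQ L (glEnd (omGL x)) (omGL y) ∧ orderOf y = orderOf x ∧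
      (omGL y : Matrix ι ι F) *ᵥ e₀ = e₀ := by
  have hiso : omGL x ∈ Cfsg.isometryGroup F R := (x : Cfsg.isometryGroup F R).2
  obtain ⟨h, hh⟩ := exists_ext H.two H.emb (g := glEnd (omGL x)) fun a b => by
    rw [Matrix.toLin'_apply, Matrix.toLin'_apply, isometry_b hR hiso]
  have hmem := (hh.mem_omega_iff hR H.exc H.exc' H.emb (x : Cfsg.isometryGroup F R) ⟨h, hh.iso⟩).2 x.2
  refine ⟨⟨⟨h, hh.iso⟩, hmem⟩, hh, ?_, hh.fix _ H.perp⟩
  rw [← orderOf_omGL, ← orderOf_omGL]
  refine (hh.orderOf_eq H.emb).trans ?_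
  exact orderOf_injective ((Matrix.toLinAlgEquiv' : Matrix κ κ F ≃ₐ[F] _).toAlgHom.toMonoidHom.comp (Units.coeHom _))
    (Matrix.toLinAlgEquiv'.injective.comp Units.val_injective) (omGL x)

/-- An element of the big `Omega` fixing the vector restricts. -/
theorem Hyper.restrict [Finite F] (H : Hyper hQ hR L e₀) (y : Cfsg.Omega F Q)
    (hy : (omGL y : Matrix ι ι F) *ᵥ e₀ = e₀) :
    ∃ x : Cfsg.Omega F R, Ext hQ L (glEnd (omGL x)) (omGL y) ∧ orderOf x = orderOf y := by
  have hiso : omGL y ∈ Cfsg.isometryGroup F Q := (y : Cfsg.isometryGroup F Q).2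
  obtain ⟨f, hf⟩ := exists_pullback H.emb.injective (glEnd (omGL y)) fun v => H.mem_range (by
    rw [Matrix.toLin'_apply, ← hy, isometry_b hQ hiso]; exact H.perp v)
  have hfi : ∀ a b, bform hR (f a) (f b) = bform hR a b := fun a b => by
    rw [← H.emb.form, ← H.emb.form, hf, hf, Matrix.toLin'_apply, Matrix.toLin'_apply, isometry_b hQ hiso]
  have hinj : Function.Injective f := fun a b e => H.emb.injective (by
    have := congrArg L e
    rw [hf, hf, Matrix.toLin'_apply, Matrix.toLin'_apply] at this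
    exact Matrix.mulVec_injective_iff_isUnit.2 (omGL y).isUnit this)
  have hu : IsUnit (LinearMap.toMatrix' f) := by
    rw [← Matrix.mulVec_injective_iff_isUnit]
    intro a b hab
    exact hinj (by simpa [← Matrix.toLin'_apply, Matrix.toLin'_toMatrix'] using hab)
  have hval : Matrix.toLin' (hu.unit : Matrix κ κ F) = f := by
    rw [IsUnit.unit_spec, Matrix.toLin'_toMatrix']
  have hxi : hu.unit ∈ Cfsg.isometryGroup F R := mem_isometryGroup.2 fun a => by
    have h := hfi a a
    rw [b_self hR, b_self hR] at h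
    rw [← Matrix.toLin'_apply, hval]
    exact mul_left_cancel₀ H.two h
  have hE : Ext hQ L (Matrix.toLin' (hu.unit : Matrix κ κ F)) (omGL y) :=
    ⟨hiso, fun v => by rw [hval, hf, Matrix.toLin'_apply], fun z hz => by
      obtain ⟨v, t, rfl⟩ := H.span z
      have : L v = 0 := by
        rw [show v = 0 from (b_nondeg hR).1 v fun w => ?_, map_zero]
        have := hz w
        rw [map_add, map_smul, H.perp, smul_zero, add_zero, H.emb.form, b_symm hR] at this
        exact this
      rw [this, zero_add, Matrix.mulVec_smul, hy]⟩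
  have hmem := (hE.mem_omega_iff hR H.exc H.exc' H.emb ⟨hu.unit, hxi⟩ (y : Cfsg.isometryGroup F Q)).1 y.2
  refine ⟨⟨⟨hu.unit, hxi⟩, hmem⟩, hE, ?_⟩
  rw [← orderOf_omGL, ← orderOf_omGL]
  refine ((hE.orderOf_eq H.emb).trans ?_).symm
  exact orderOf_injective ((Matrix.toLinAlgEquiv' : Matrix κ κ F ≃ₐ[F] _).toAlgHom.toMonoidHom.comp (Units.coeHom _))
    (Matrix.toLinAlgEquiv'.injective.comp Units.val_injective) hu.unit

end CfsgLib.OrthSpectrum99
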