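import Cfsg.Agent.OrthSpectrum99.Fixed
import Cfsg.Agent.OrthGeo.DecompMember

/-!
The two inclusions between the sets of element orders.
-/

set_option autoImplicit false
set_option linter.unusedSectionVars false
set_option synthInstance.maxHeartbeats 200000

namespace CfsgLib.OrthSpectrum99

open Module CfsgLib.OrthGeo Cfsg.Geo CfsgLib.LinAlg.Witt CfsgLib.Classical.Orth CfsgLib.Spec53
open scoped Matrix MatrixGroups

variable {ι : Type} [Fintype ι] [DecidableEq ι] {F : Type*} [Field F] [Fintype F] {Q : (ι → F) → F}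
variable {κ : Type} [Fintype κ] [DecidableEq κ] {R : (κ → F) → F}
variable {hQ : IsNondegenerateQuadraticForm Q} {hR : IsNondegenerateQuadraticForm R}
variable {L : (κ → F) →ₗ[F] ι → F} {e₀ : ι → F}
variable {p : ℕ} [hp : Fact p.Prime] [CharP F p]

theorem finite_omega : Finite (Cfsg.Omega F Q) := inferInstance

/-- The order splits into the part at the characteristic and the rest. -/
theorem exists_order_split (g : Cfsg.Omega F Q) : ∃ c r, orderOf g = p ^ c * r ∧ Nat.Coprime p r ∧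
    orderOf (g ^ p ^ c) = r ∧ (r : F) ≠ 0 ∧ omGL (g ^ p ^ c) ^ r = 1 := by
  obtain ⟨c, r, hr, ho⟩ := Nat.exists_eq_pow_mul_and_not_dvd (orderOf_pos g).ne' p hp.out.ne_one
  have hco : Nat.Coprime p r := hp.out.coprime_iff_not_dvd.2 hr
  have hord : orderOf (g ^ p ^ c) = r := by
    rw [orderOf_pow' g (pow_ne_zero c hp.out.ne_zero), ho, Nat.gcd_eq_right (Dvd.intro _ rfl),
      Nat.mul_div_cancel_left _ (pow_pos hp.out.pos c)]
  refine ⟨c, r, ho, hco, hord, fun h => hr ((CharP.cast_eq_zero_iff F p r).1 h), ?_⟩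
  conv_lhs => arg 2; rw [← hord, ← orderOf_omGL]
  exact pow_orderOf_eq_one _

theorem even_residual (hexc : ¬ (Nat.card F = 2 ∧ Fintype.card ι = 4)) (hQ : IsNondegenerateQuadraticForm Q)
    (g : Cfsg.Omega F Q) : Even (finrank F (residual (omGL g))) :=
  ((Classical.Orth.mem_omega_iff hQ hexc (g : Cfsg.isometryGroup F Q)).1 g.2).1

/-- A semisimple element of the odd dimensional group with a large fixed space. -/
theorem exists_mul_unipotent (hQ : IsNondegenerateQuadraticForm Q) (hp2 : p ≠ 2)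
    (hodd : Odd (Fintype.card ι)) (s : Cfsg.Omega F Q) {r c : ℕ} (hs : orderOf s = r) (hr : (r : F) ≠ 0)
    (hc : p ^ c < finrank F (fixedSpace (omGL s))) :
    ∃ z : Cfsg.Omega F Q, r * p ^ (c + 1) ∣ orderOf z := by
  classical
  have hexc : ¬ (Nat.card F = 2 ∧ Fintype.card ι = 4) := fun h => by
    rw [h.2] at hodd; exact Nat.not_odd_iff_even.2 (by decide) hodd
  have h2 : (2 : F) ≠ 0 := fun h => hp2 ((Nat.prime_dvd_prime_iff_eq hp.out Nat.prime_two).1
    ((CharP.cast_eq_zero_iff F p 2).1 (by exact_mod_cast h)))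
  set k := finrank F (fixedSpace (omGL s)) with hk
  have hko : Odd k := by
    obtain ⟨a, ha⟩ := even_residual hexc hQ s
    obtain ⟨b, hb⟩ := hodd
    have := finrank_residual_add (omGL s)
    exact ⟨b - a, by omega⟩
  have hsr : omGL s ^ r = 1 := by rw [← hs, ← orderOf_omGL]; exact pow_orderOf_eq_one _
  obtain ⟨T', L', hS, hL, hran⟩ := exists_fixed_emb hQ (s := omGL s) (s : Cfsg.isometryGroup F Q).2 hsr hr hk.symm
  obtain ⟨u, hu, hch⟩ := Jordan.UnipotentFixed.exists_of_odd_part h2 T' hS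
    ((Submodule.eq_bot_iff _).2 fun x hx => hL.left x fun y => LinearMap.congr_fun (LinearMap.mem_ker.1 hx) y)
    (μ := {k}) (fun e he => by rw [Multiset.mem_singleton.1 he]; omega)
    (fun e he => by
      rw [Multiset.count_singleton, if_neg fun (h : e = k) => Nat.not_even_iff_odd.2 hko (h ▸ he)]
      exact Even.zero)
    ⟨k, Multiset.mem_singleton_self k, hko⟩ (by simp)
  have hN : (u - 1) ^ k = 0 := Jordan.UnipotentFixed.isNilpotent_of_hasChain hch fun e he =>
    (Multiset.mem_singleton.1 he).le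
  have hne : ∀ i, i < k → (u - 1) ^ i ≠ 0 := by
    obtain ⟨κ', _, dd, b, hd, hb, hμ⟩ := hch
    obtain ⟨i, -, hi⟩ := Multiset.mem_map.1 (show k ∈ Finset.univ.val.map dd by rw [hμ]; exact Multiset.mem_singleton_self k)
    intro j hj h0
    have h := LinearMap.congr_fun h0 (b ⟨i, ⟨0, hd i⟩⟩)
    rw [hb.pow_apply, dif_pos (show (⟨0, hd i⟩ : Fin (dd i)).val + j < dd i by simp only; omega),
      LinearMap.zero_apply] at h
    exact b.ne_zero _ h
  have huk : u ^ p ^ k = 1 := by
    rw [← sub_eq_zero, ← sub_one_pow_char]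
    exact pow_eq_zero_of_le (Nat.lt_pow_self hp.out.one_lt).le hN
  obtain ⟨h, hh⟩ := exists_ext h2 hL hu
  have hhk : h ^ p ^ k = 1 := ((hh.pow hL _).eq_one_iff hL).2 huk
  let uI : Cfsg.isometryGroup F Q := ⟨h, hh.iso⟩
  have huO : uI ∈ Cfsg.Omega F Q := mem_omega_of_odd hexc hQ ((hp.out.odd_of_ne_two hp2).pow (n := k))
    (Subtype.ext (by rw [Subgroup.coe_pow]; exact hhk))
  let us : Cfsg.Omega F Q := ⟨uI, huO⟩
  have hcomm : Commute s us := Subtype.ext (Subtype.ext (hh.commute hL (s : Cfsg.isometryGroup F Q).2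
    fun v => mem_fixedSpace.1 (hran ▸ ⟨v, rfl⟩)))
  obtain ⟨j, -, hj⟩ := (Nat.dvd_prime_pow hp.out).1 (orderOf_dvd_of_pow_eq_one huk)
  have hjc : c + 1 ≤ j := by
    by_contra hn
    refine hne (p ^ c) hc ?_
    rw [sub_one_pow_char, sub_eq_zero, ← orderOf_dvd_iff_pow_eq_one, hj]
    exact pow_dvd_pow p (by omega)
  have hous : orderOf us = p ^ j := by
    rw [← orderOf_omGL, show omGL us = h from rfl, hh.orderOf_eq hL, hj]
  refine ⟨s * us, ?_⟩
  rw [hcomm.orderOf_mul_eq_mul_orderOf_of_coprime, hs, hous]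
  · exact mul_dvd_mul_left _ (pow_dvd_pow p hjc)
  · rw [hs, hous]
    exact (Nat.Coprime.pow_left j (hp.out.coprime_iff_not_dvd.2 fun hd => hr
      ((CharP.cast_eq_zero_iff F p r).2 hd))).symm

/-- The orders of the semidirect product occur in the orthogonal group of dimension nine. -/
theorem Hyper.big_of_small (H : Hyper hQ hR L e₀) (hp2 : p ≠ 2) (hodd : Odd (Fintype.card ι))
    (y : Aff (↥(Cfsg.Omega F R)) (κ → F)) : ∃ z : Cfsg.Omega F Q, orderOf y ∣ orderOf z := by
  classical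
  obtain ⟨v, x, rfl⟩ : ∃ v x, y = affMk v x := ⟨y.left.toAdd, y.right, rfl⟩
  by_cases hw : ∑ i ∈ Finset.range (orderOf x), x ^ i • v = 0
  · obtain ⟨z, -, hz, -⟩ := H.lift x
    refine ⟨z, hz ▸ orderOf_dvd_of_pow_eq_one ?_⟩
    rw [affMk_pow, affMk_eq_one]
    exact ⟨hw, pow_orderOf_eq_one x⟩
  obtain ⟨c, r, ho, hco, hs, hr, hsr⟩ := exists_order_split (p := p) x
  set T := glEnd (omGL x) with hT
  have hact : ∀ (i : ℕ) (w : κ → F), x ^ i • w = (T ^ i) w := fun i w => by
    rw [omega_smul_def, hT, ← glEnd_pow, ← omGL_pow, Matrix.toLin'_apply]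
  rw [Finset.sum_congr rfl fun i _ => hact i v, ← LinearMap.sum_apply, ho] at hw
  have hsum : ∑ i ∈ Finset.range (p ^ c * r), T ^ i =
      (T - 1) ^ (p ^ c - 1) * ∑ j ∈ Finset.range r, (T ^ p ^ c) ^ j := by
    have hpoly : (∑ i ∈ Finset.range (p ^ c * r), (Polynomial.X : Polynomial F) ^ i) =
        (Polynomial.X - 1) ^ (p ^ c - 1) * ∑ j ∈ Finset.range r, (Polynomial.X ^ p ^ c) ^ j := by
      refine mul_left_cancel₀ (Polynomial.X_sub_C_ne_zero (1 : F)) ?_
      rw [map_one, mul_geom_sum, ← mul_assoc, ← pow_succ', Nat.sub_add_cancel (Nat.one_le_pow c p hp.out.pos),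
        sub_pow_char_pow, one_pow, mul_geom_sum, pow_mul]
    have h := congrArg (Polynomial.aeval (R := F) T) hpoly
    simpa only [map_sum, map_mul, map_pow, map_sub, Polynomial.aeval_X, map_one] using h
  rw [hsum, Module.End.mul_apply] at hw
  set y0 := (∑ j ∈ Finset.range r, (T ^ p ^ c) ^ j) v
  have hN : (T - 1) ^ p ^ c = glEnd (omGL (x ^ p ^ c)) - 1 := by
    rw [sub_one_pow_char, hT, ← glEnd_pow, ← omGL_pow]
  have hy0 : ((T - 1) ^ (p ^ c - 1 + 1)) y0 = 0 := by
    rw [Nat.sub_add_cancel (Nat.one_le_pow c p hp.out.pos), sub_one_pow_char, ← Module.End.mul_apply, mul_geom_sum,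
      ← pow_mul, hT, ← glEnd_pow, ← ho, ← omGL_pow, pow_orderOf_eq_one]
    simp [omGL, glEnd_one]
  have h1 := finrank_ker_chain (T - 1) (p ^ c - 1) y0 hw hy0
  have hk0 : 0 < finrank F (LinearMap.ker (T - 1)) := Module.finrank_pos_iff.2
    ⟨⟨((T - 1) ^ (p ^ c - 1)) y0, by rw [LinearMap.mem_ker, ← Module.End.mul_apply, ← pow_succ']; exact hy0⟩, 0,
      fun e => hw (congrArg Subtype.val e)⟩
  rw [Nat.sub_add_cancel (Nat.one_le_pow c p hp.out.pos), hN, ← fixedSpace_eq_ker (omGL (x ^ p ^ c))] at h1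
  have hpos := Nat.one_le_pow c p hp.out.pos
  set s := x ^ p ^ c
  obtain ⟨s9, hE, hs9, hfix0⟩ := H.lift s
  -- the fixed space upstairs is larger
  have hk9 : finrank F (fixedSpace (omGL s)) + 1 ≤ finrank F (fixedSpace (omGL s9)) := by
    have hmem : ∀ a : fixedSpace (omGL s) × F, L a.1 + a.2 • e₀ ∈ fixedSpace (omGL s9) := fun a => by
      rw [mem_fixedSpace, Matrix.mulVec_add, Matrix.mulVec_smul, hfix0, hE.map, Matrix.toLin'_apply,
        mem_fixedSpace.1 a.1.2]
    let f : (fixedSpace (omGL s) × F) →ₗ[F] fixedSpace (omGL s9) :=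
      ((L ∘ₗ (fixedSpace (omGL s)).subtype).coprod (LinearMap.toSpanSingleton F _ e₀)).codRestrict _ hmem
    have hf : Function.Injective f := by
      refine (injective_iff_map_eq_zero f).2 fun a ha => ?_
      have h : L a.1 + a.2 • e₀ = 0 := congrArg Subtype.val ha
      have ht : a.2 = 0 := by
        have := congrArg (fun z => bform hQ z e₀) h
        simp only [map_add, LinearMap.add_apply, H.perp, map_smul, LinearMap.smul_apply, b_self hQ, map_zero,
          LinearMap.zero_apply, zero_add, smul_eq_mul, mul_eq_zero] at this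
        exact this.resolve_right fun h => h.elim H.two H.aniso
      rw [ht, zero_smul, add_zero] at h
      exact Prod.ext (Subtype.ext (H.emb.injective (h.trans (map_zero L).symm))) ht
    have := LinearMap.finrank_le_finrank_of_injective hf
    rwa [Module.finrank_prod, Module.finrank_self] at this
  obtain ⟨z, hz⟩ := exists_mul_unipotent hQ hp2 hodd s9 (hs9.trans hs) hr (c := c) (by omega)
  refine ⟨z, dvd_trans ?_ hz⟩
  rw [show r * p ^ (c + 1) = orderOf x * p by rw [ho]; ring]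
  exact orderOf_dvd_of_kills (kills_mul_of_pow (fun w => funext fun i => by
    rw [Pi.smul_apply, nsmul_eq_mul, CharP.cast_eq_zero, zero_mul, Pi.zero_apply]) (pow_orderOf_eq_one x)) v

/-- An element whose part prime to the characteristic fixes the vector. -/
theorem Hyper.inA_of_fixes (H : Hyper hQ hR L e₀) (hp2 : p ≠ 2) (g : Cfsg.Omega F Q) {c r : ℕ}
    (ho : orderOf g = p ^ c * r) (hco : Nat.Coprime p r) (hs : orderOf (g ^ p ^ c) = r)
    (he : (omGL (g ^ p ^ c) : Matrix ι ι F) *ᵥ e₀ = e₀) : InA R (orderOf g) := by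
  classical
  rcases Nat.eq_zero_or_pos c with rfl | hc
  · rw [pow_zero, pow_one] at he
    obtain ⟨x, -, hx⟩ := H.restrict g he
    exact hx ▸ inA_orderOf x
  have hr : (r : F) ≠ 0 := fun h => hp.out.coprime_iff_not_dvd.1 hco ((CharP.cast_eq_zero_iff F p r).1 h)
  set s := g ^ p ^ c with hsdef
  have hsr : omGL s ^ r = 1 := by rw [← hs, ← orderOf_omGL]; exact pow_orderOf_eq_one _
  have hiso : omGL g ∈ Cfsg.isometryGroup F Q := (g : Cfsg.isometryGroup F Q).2
  set k := finrank F (fixedSpace (omGL s)) with hk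
  obtain ⟨T', L', hS, hL, hran⟩ := exists_fixed_emb hQ (s := omGL s) (s : Cfsg.isometryGroup F Q).2 hsr hr hk.symm
  have hfixL : ∀ v, (omGL s : Matrix ι ι F) *ᵥ L' v = L' v := fun v =>
    mem_fixedSpace.1 (hran ▸ ⟨v, rfl⟩)
  have hgs : ∀ w, (omGL s : Matrix ι ι F) *ᵥ ((omGL g : Matrix ι ι F) *ᵥ w) =
      (omGL g : Matrix ι ι F) *ᵥ ((omGL s : Matrix ι ι F) *ᵥ w) := fun w => by
    rw [Matrix.mulVec_mulVec, Matrix.mulVec_mulVec, ← Units.val_mul, ← Units.val_mul, hsdef, omGL_pow, ← pow_succ,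
      ← pow_succ']
  obtain ⟨u, hu⟩ := exists_pullback hL.injective (glEnd (omGL g)) fun v => hran ▸ by
    rw [mem_fixedSpace, Matrix.toLin'_apply, hgs, hfixL]
  have hu' : ∀ v, L' (u v) = (omGL g : Matrix ι ι F) *ᵥ L' v := fun v => by rw [hu, Matrix.toLin'_apply]
  have huiso : ∀ a b, T' (u a) (u b) = T' a b := fun a b => by
    rw [← hL.form, ← hL.form, hu', hu', isometry_b hQ hiso]
  have hupow : ∀ (i : ℕ) v, L' ((u ^ i) v) = (omGL (g ^ i) : Matrix ι ι F) *ᵥ L' v := by
    intro i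
    induction i with
    | zero => intro v; simp [omGL]
    | succ i ih =>
      intro v
      rw [pow_succ', Module.End.mul_apply, hu', ih, Matrix.mulVec_mulVec, ← Units.val_mul, omGL_pow, omGL_pow,
        pow_succ']
  have hu1 : u ^ p ^ c = 1 := LinearMap.ext fun v => hL.injective (by rw [hupow, ← hsdef, hfixL]; rfl)
  have h2 : (2 : F) ≠ 0 := H.two
  obtain ⟨hU, hhU⟩ := exists_ext h2 hL huiso
  have hUc : hU ^ p ^ c = 1 := ((hhU.pow hL _).eq_one_iff hL).2 hu1
  have huO : (⟨hU, hhU.iso⟩ : Cfsg.isometryGroup F Q) ∈ Cfsg.Omega F Q :=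
    mem_omega_of_odd H.exc hQ ((hp.out.odd_of_ne_two hp2).pow (n := c))
      (Subtype.ext (by rw [Subgroup.coe_pow]; exact hUc))
  let us : Cfsg.Omega F Q := ⟨⟨hU, hhU.iso⟩, huO⟩
  by_cases hsmall : u ^ p ^ (c - 1) = 1
  · -- the element acting trivially on the fixed space
    have husc : us ^ p ^ (c - 1) = 1 := Subtype.ext (Subtype.ext (((hhU.pow hL _).eq_one_iff hL).2 hsmall))
    have hcomm : Commute g us := by
      refine Subtype.ext (Subtype.ext (gl_ext fun w => ?_))
      show ((omGL g * hU : GL ι F) : Matrix ι ι F) *ᵥ w = ((hU * omGL g : GL ι F) : Matrix ι ι F) *ᵥ w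
      rw [Units.val_mul, Units.val_mul, ← Matrix.mulVec_mulVec, ← Matrix.mulVec_mulVec]
      obtain ⟨_, ⟨a, rfl⟩, z, hz, rfl⟩ := Submodule.mem_sup.1 (hL.isCompl.sup_eq_top ▸ Submodule.mem_top :
        w ∈ LinearMap.range L' ⊔ (bform hQ).orthogonal (LinearMap.range L'))
      have hz' : ∀ v, bform hQ (L' v) z = 0 := fun v => hz _ ⟨v, rfl⟩
      have hsurj : Function.Surjective u := fun v =>
        ⟨(u ^ (p ^ c - 1)) v, by
          rw [← Module.End.mul_apply, ← pow_succ', Nat.sub_add_cancel (Nat.one_le_pow c p hp.out.pos), hu1]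
          rfl⟩
      have hgz : ∀ v, bform hQ (L' v) ((omGL g : Matrix ι ι F) *ᵥ z) = 0 := fun v => by
        obtain ⟨v', rfl⟩ := hsurj v
        rw [hu', isometry_b hQ hiso]
        exact hz' v'
      rw [Matrix.mulVec_add, hhU.map, hhU.fix z hz']
      simp only [Matrix.mulVec_add, ← hu', hhU.map, hhU.fix _ hgz]
    set h := g * us⁻¹ with hh
    have hfixU : ∀ v, (omGL h : Matrix ι ι F) *ᵥ L' v = L' v := by
      intro v
      have hsurj : ∃ v', u v' = v := ⟨(u ^ (p ^ c - 1)) v, by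
        rw [← Module.End.mul_apply, ← pow_succ', Nat.sub_add_cancel (Nat.one_le_pow c p hp.out.pos), hu1]
        rfl⟩
      obtain ⟨v', rfl⟩ := hsurj
      show ((omGL g * hU⁻¹ : GL ι F) : Matrix ι ι F) *ᵥ L' (u v') = _
      rw [Units.val_mul, ← Matrix.mulVec_mulVec, ← hhU.map, Matrix.mulVec_mulVec (M := (↑hU⁻¹ : Matrix ι ι F)),
        ← Units.val_mul, inv_mul_cancel, Units.val_one, Matrix.one_mulVec, ← hu', hhU.map]
    obtain ⟨e', he'⟩ : e₀ ∈ LinearMap.range L' := hran ▸ mem_fixedSpace.2 he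
    obtain ⟨x, -, hx⟩ := H.restrict h (he' ▸ hfixU e')
    refine (hx ▸ inA_orderOf x).mono ?_
    have hlcm : orderOf g ∣ Nat.lcm (orderOf h) (p ^ (c - 1)) := by
      refine orderOf_dvd_of_pow_eq_one ?_
      have hgh : g = h * us := by rw [hh, inv_mul_cancel_right]
      conv_lhs => rw [hgh]
      rw [Commute.mul_pow (by rw [hh]; exact hcomm.mul_left (Commute.refl us).inv_left),
        orderOf_dvd_iff_pow_eq_one.1 (Nat.dvd_lcm_left _ _), one_mul]
      exact orderOf_dvd_iff_pow_eq_one.1 ((orderOf_dvd_of_pow_eq_one husc).trans (Nat.dvd_lcm_right _ _))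
    rw [ho] at hlcm ⊢
    refine (Nat.Coprime.pow_left c hco).mul_dvd_of_dvd_of_dvd ?_ ?_
    · by_contra hn
      have h0 : orderOf h ≠ 0 := (orderOf_pos h).ne'
      obtain ⟨j, m, hm, hjm⟩ := Nat.exists_eq_pow_mul_and_not_dvd h0 p hp.out.ne_one
      have hjc : j ≤ c - 1 := by
        by_contra hj
        exact hn (hjm ▸ (pow_dvd_pow p (show c ≤ j by omega)).mul_right m)
      have h1 : p ^ c ∣ p ^ (c - 1) * m := (dvd_of_mul_right_dvd hlcm).trans
        (Nat.lcm_dvd (hjm ▸ mul_dvd_mul_right (pow_dvd_pow p hjc) m) (Dvd.intro _ rfl))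
      have h3 := (Nat.Coprime.pow_left c (hp.out.coprime_iff_not_dvd.2 hm)).dvd_of_dvd_mul_right h1
      rw [Nat.pow_dvd_pow_iff_le_right hp.out.one_lt] at h3
      omega
    · exact (Nat.Coprime.pow_right _ hco.symm).dvd_of_dvd_mul_left
        ((dvd_of_mul_left_dvd hlcm).trans (Nat.lcm_dvd_mul _ _) |>.trans (dvd_of_eq (mul_comm _ _)))
  · -- a long Jordan block on the fixed space
    have hN : (u - 1) ^ k = 0 := by
      have hnil : IsNilpotent (u - 1) := ⟨p ^ c, by rw [sub_one_pow_char, hu1, sub_self]⟩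
      have h := LinearMap.aeval_self_charpoly (u - 1)
      rwa [IsNilpotent.charpoly_eq_X_pow_finrank hnil, map_pow, Polynomial.aeval_X, Module.finrank_fin_fun] at h
    have hlt : p ^ (c - 1) < k := by
      by_contra hle
      refine hsmall (sub_eq_zero.1 ?_)
      rw [← sub_one_pow_char]
      exact pow_eq_zero_of_le (by omega) hN
    obtain ⟨s8, hE, hs8⟩ := H.restrict s he
    have hs8' : orderOf s8 = r := hs8.trans hs
    have hs8r : omGL s8 ^ r = 1 := by rw [← hs8', ← orderOf_omGL]; exact pow_orderOf_eq_one _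
    -- the fixed space downstairs
    have hk8 : k ≤ finrank F (fixedSpace (omGL s8)) + 1 := by
      let f : (fixedSpace (omGL s8) × F) →ₗ[F] ι → F :=
        (L ∘ₗ (fixedSpace (omGL s8)).subtype).coprod (LinearMap.toSpanSingleton F _ e₀)
      have hle : fixedSpace (omGL s) ≤ LinearMap.range f := fun z hz => by
        obtain ⟨v, t, rfl⟩ := H.span z
        refine ⟨(⟨v, mem_fixedSpace.2 (H.emb.injective ?_)⟩, t), rfl⟩
        have h := mem_fixedSpace.1 hz
        rw [Matrix.mulVec_add, Matrix.mulVec_smul, he, hE.map, add_left_inj, Matrix.toLin'_apply] at h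
        exact h
      have := (Submodule.finrank_mono hle).trans (LinearMap.finrank_range_le f)
      rwa [Module.finrank_prod, Module.finrank_self] at this
    obtain ⟨T8, L8, hS8, hL8, hran8⟩ := exists_fixed_emb hR (s := omGL s8) (s8 : Cfsg.isometryGroup F R).2 hs8r hr
      (k := finrank F (fixedSpace (omGL s8))) rfl
    have hfix8 : ∀ v, s8 • L8 v = L8 v := fun v => (omega_smul_def _ _).trans (mem_fixedSpace.1 (hran8.le ⟨v, rfl⟩))
    have key := inA_fixed hR hp2 H.exc' s8 (by rw [hs8']; exact hco) (e := c - 1) (by omega) hS8 hL8 hfix8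
    rw [hs8', Nat.sub_add_cancel hc, mul_comm, ← ho] at key
    exact key

/-- The orders of the orthogonal group of dimension nine occur in the semidirect product. -/
theorem Hyper.small_of_big [DecidableEq F] (H : Hyper hQ hR L e₀) (hp2 : p ≠ 2) (h9 : Fintype.card ι = 9)
    (h8 : Fintype.card κ = 8) (hD : quadraticChar F (gram (bform hR) (Pi.basisFun F κ)).det = -1)
    (g : Cfsg.Omega F Q) : InA R (orderOf g) := by
  classical
  obtain ⟨c, r, ho, hco, hs, hr, hsr⟩ := exists_order_split (p := p) g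
  set s := g ^ p ^ c with hsdef
  set T := glEnd (omGL g) with hT
  have hN : (T - 1) ^ p ^ c = glEnd (omGL s) - 1 := by
    rw [sub_one_pow_char, hT, ← glEnd_pow, ← omGL_pow]
  rcases Nat.lt_or_ge (finrank F (fixedSpace (omGL s))) 2 with hlt | hge
  · -- a simple eigenvalue one
    refine inA_of_simple_one hR h8 hD hQ hp2 h9 g ?_
    have hpos : 0 < finrank F (fixedSpace (omGL s)) := by
      obtain ⟨a, ha⟩ := even_residual H.exc hQ s
      have := finrank_residual_add (omGL s)
      omega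
    have hmax : T.maxGenEigenspace 1 = fixedSpace (omGL s) := by
      ext z
      rw [Module.End.mem_maxGenEigenspace, one_smul, mem_fixedSpace_iff_sub, ← hN]
      constructor
      · rintro ⟨j, hj⟩
        rw [LinearMap.mem_ker, hN]
        refine sub_one_eq_zero (r := r) (by rw [← glEnd_pow, hsr, glEnd_one]) hr j ?_
        rw [← hN, ← pow_mul, mul_comm, ← Nat.add_sub_cancel' (Nat.le_mul_of_pos_right j (pow_pos hp.out.pos c)),
          add_comm, pow_add, Module.End.mul_apply, hj, map_zero]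
      · intro h
        exact ⟨_, LinearMap.mem_ker.1 h⟩
    have h := LinearMap.finrank_maxGenEigenspace_eq T 1
    rw [hmax, hT, Matrix.charpoly_toLin'] at h
    show Polynomial.rootMultiplicity 1 (omGL g : Matrix ι ι F).charpoly = 1
    omega
  · -- move an anisotropic fixed vector onto the distinguished one
    have hrad : ∀ z ∈ fixedSpace (omGL s), z ∈ OrthGeo.perp hQ (fixedSpace (omGL s)) → z = 0 := fun z hz hzp =>
      fixed_nondeg hQ (s : Cfsg.isometryGroup F Q).2 hsr hr hz fun y hy => (mem_perp' hQ).1 hzp y hy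
    obtain ⟨e, hefix, hQe⟩ := exists_value_any hQ hrad hge (Q e₀)
    obtain ⟨γ, hγ, hγe⟩ := exists_isometry_map hQ H.exc hQe (by rw [hQe]; exact H.aniso)
    let φ : Cfsg.Omega F Q ≃* Cfsg.Omega F Q := MulAut.conjNormal (⟨γ, hγ⟩ : Cfsg.isometryGroup F Q)
    have key : InA R (orderOf (φ g)) := by
      refine H.inA_of_fixes hp2 (φ g) (c := c) (r := r) ?_ hco ?_ ?_
      · rw [MulEquiv.orderOf_eq, ho]
      · rw [← map_pow, MulEquiv.orderOf_eq, hs]
      · rw [← map_pow, ← hsdef]
        show ((γ * omGL s * γ⁻¹ : GL ι F) : Matrix ι ι F) *ᵥ e₀ = e₀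
        have hinv : ((γ⁻¹ : GL ι F) : Matrix ι ι F) *ᵥ e₀ = e := by
          rw [← hγe, Matrix.mulVec_mulVec, ← Units.val_mul, inv_mul_cancel, Units.val_one, Matrix.one_mulVec]
        rw [Units.val_mul, Units.val_mul, ← Matrix.mulVec_mulVec, hinv, ← Matrix.mulVec_mulVec,
          mem_fixedSpace.1 hefix, hγe]
    rwa [MulEquiv.orderOf_eq] at key

end CfsgLib.OrthSpectrum99
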