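import Cfsg.Agent.OrthSpectrum99.Spinor
import Cfsg.Agent.Jordan.UnipotentFixed

/-!
Placing isometries in orthogonal decompositions; unipotent extensions.
-/

set_option autoImplicit false
set_option linter.unusedSectionVars false

namespace CfsgLib.OrthSpectrum99

open Module CfsgLib.OrthGeo Cfsg.Geo CfsgLib.LinAlg.Witt
open scoped Matrix MatrixGroups

variable {ι : Type} [Fintype ι] [DecidableEq ι] {F : Type*} [Field F] {Q : (ι → F) → F}
variable {hQ : IsNondegenerateQuadraticForm Q}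
variable {V : Type*} [AddCommGroup V] [Module F V] {T : LinearMap.BilinForm F V} {L : V →ₗ[F] ι → F}

theorem Ext.commute (hL : Emb hQ T L) {g : Module.End F V} {h : GL ι F} (he : Ext hQ L g h) {s : GL ι F}
    (hs : s ∈ Cfsg.isometryGroup F Q) (hfix : ∀ v, (s : Matrix ι ι F) *ᵥ L v = L v) : s * h = h * s := by
  refine gl_ext fun x => ?_
  rw [Units.val_mul, Units.val_mul, ← Matrix.mulVec_mulVec, ← Matrix.mulVec_mulVec]
  obtain ⟨_, ⟨a, rfl⟩, z, hz, rfl⟩ := Submodule.mem_sup.1 (hL.isCompl.sup_eq_top ▸ Submodule.mem_top :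
    x ∈ LinearMap.range L ⊔ (bform hQ).orthogonal (LinearMap.range L))
  have hz' : ∀ v, bform hQ (L v) z = 0 := fun v => hz _ ⟨v, rfl⟩
  have hsz : ∀ v, bform hQ (L v) ((s : Matrix ι ι F) *ᵥ z) = 0 := fun v => by
    rw [← hfix v, isometry_b hQ hs]; exact hz' v
  simp only [Matrix.mulVec_add, he.map, hfix, he.fix z hz', he.fix _ hsz]

theorem Ext.pow (hL : Emb hQ T L) {g : Module.End F V} {h : GL ι F} (he : Ext hQ L g h) (n : ℕ) :
    Ext hQ L (g ^ n) (h ^ n) := by
  induction n with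
  | zero => exact ⟨one_mem _, fun v => by simp, fun z _ => by simp⟩
  | succ n ih =>
    refine ⟨pow_mem he.iso _, fun v => ?_, fun z hz => ?_⟩
    · rw [pow_succ, Units.val_mul, ← Matrix.mulVec_mulVec, he.map, ih.map, pow_succ, Module.End.mul_apply]
    · rw [pow_succ, Units.val_mul, ← Matrix.mulVec_mulVec, he.fix z hz, ih.fix z hz]

theorem Ext.eq_one_iff (hL : Emb hQ T L) {g : Module.End F V} {h : GL ι F} (he : Ext hQ L g h) :
    h = 1 ↔ g = 1 := by
  constructor
  · rintro rfl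
    exact LinearMap.ext fun v => hL.injective ((he.map v).symm.trans (by simp))
  · rintro rfl
    refine gl_ext fun x => ?_
    obtain ⟨_, ⟨a, rfl⟩, z, hz, rfl⟩ := Submodule.mem_sup.1 (hL.isCompl.sup_eq_top ▸ Submodule.mem_top :
      x ∈ LinearMap.range L ⊔ (bform hQ).orthogonal (LinearMap.range L))
    rw [Matrix.mulVec_add, he.map, he.fix z fun v => hz _ ⟨v, rfl⟩]
    simp

theorem Ext.orderOf_eq (hL : Emb hQ T L) {g : Module.End F V} {h : GL ι F} (he : Ext hQ L g h) :
    orderOf h = orderOf g := by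
  refine Nat.dvd_antisymm (orderOf_dvd_of_pow_eq_one ((he.pow hL _).eq_one_iff hL |>.2 (pow_orderOf_eq_one g)))
    (orderOf_dvd_of_pow_eq_one ((he.pow hL _).eq_one_iff hL |>.1 (pow_orderOf_eq_one h)))

variable [Fintype F]

/-- A form of any determinant class on the perpendicular of a given one. -/
theorem exists_split (h2 : (2 : F) ≠ 0) {d k : ℕ} (G : Matrix (Fin d) (Fin d) F) (hGs : G.transpose = G)
    (hG : G.det ≠ 0) (hdk : d + k = Fintype.card ι)
    (hδ : 0 < k ∨ IsSquare (G.det * (gram (bform hQ) (Pi.basisFun F ι)).det)) :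
    ∃ (T' : LinearMap.BilinForm F (Fin k → F)) (L : (Fin d → F) →ₗ[F] ι → F) (L' : (Fin k → F) →ₗ[F] ι → F),
      (∀ x y, T' x y = T' y x) ∧ Emb hQ (Matrix.toBilin' G) L ∧ Emb hQ T' L' ∧
      ∀ v w, bform hQ (L v) (L' w) = 0 := by
  classical
  set D := (gram (bform hQ) (Pi.basisFun F ι)).det
  have hkQ : LinearMap.ker (bform hQ) = ⊥ := (Submodule.eq_bot_iff _).2 fun x hx =>
    (b_nondeg hQ).1 x fun y => LinearMap.congr_fun (LinearMap.mem_ker.1 hx) y
  have hD : D ≠ 0 := gram_det_ne_zero _ _ hkQ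
  let w : Fin k → F := fun i => if (i : ℕ) = 0 then G.det * D else 1
  have hw : ∀ i, w i ≠ 0 := fun i => by simp only [w]; split_ifs; exacts [mul_ne_zero hG hD, one_ne_zero]
  let G' : Matrix (Fin k) (Fin k) F := Matrix.diagonal w
  have hG' : IsSquare (G.det * G'.det * D) := by
    rw [Matrix.det_diagonal]
    rcases Nat.eq_zero_or_pos k with rfl | hk
    · simpa using hδ.resolve_left (lt_irrefl 0)
    · rw [Finset.prod_eq_single ⟨0, hk⟩ (fun i _ hi => if_neg fun e => hi (Fin.ext e)) (by simp)]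
      simp only [w, if_true]
      exact ⟨G.det * D, by ring⟩
  let T : LinearMap.BilinForm F ((Fin d → F) × (Fin k → F)) :=
    (Matrix.toBilin' G).comp (LinearMap.fst _ _ _) (LinearMap.fst _ _ _) +
      (Matrix.toBilin' G').comp (LinearMap.snd _ _ _) (LinearMap.snd _ _ _)
  have hT : ∀ x y : (Fin d → F) × (Fin k → F),
      T x y = Matrix.toBilin' G x.1 y.1 + Matrix.toBilin' G' x.2 y.2 := fun x y => rfl
  have hsym : ∀ {n : ℕ} (A : Matrix (Fin n) (Fin n) F), A.transpose = A → ∀ x y,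
      Matrix.toBilin' A x y = Matrix.toBilin' A y x := fun A hA x y => by
    rw [Matrix.toBilin'_apply', Matrix.toBilin'_apply']
    conv_lhs => rw [dotProduct_comm, ← hA, Matrix.mulVec_transpose, ← Matrix.dotProduct_mulVec]
  have hGT := hsym G hGs
  have hG'T := hsym G' (Matrix.diagonal_transpose w)
  have hG'0 : G'.det ≠ 0 := by rw [Matrix.det_diagonal]; exact Finset.prod_ne_zero_iff.2 fun i _ => hw i
  let bb : Basis (Fin d ⊕ Fin k) F ((Fin d → F) × (Fin k → F)) := (Pi.basisFun F _).prod (Pi.basisFun F _)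
  have hgram : gram T bb = Matrix.fromBlocks G 0 0 G' := by
    ext i j
    rw [gram_apply, hT]
    rcases i with i | i <;> rcases j with j | j <;> simp [bb, Matrix.toBilin'_single]
  let e : ι ≃ Fin d ⊕ Fin k := Fintype.equivOfCardEq (by simp [hdk])
  have hTs : ∀ x y, T x y = T y x := fun x y => by rw [hT, hT, hGT, hG'T]
  have hTk : LinearMap.ker T = ⊥ := ker_eq_bot_of_gram_det_ne_zero _ bb (by
    rw [hgram, Matrix.det_fromBlocks_zero₂₁]; exact mul_ne_zero hG hG'0)
  obtain ⟨g, hg⟩ := exists_isometry_of_det h2 T (bform hQ) hTs (b_symm hQ) hTk hkQ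
    (bb.reindex e.symm) (Pi.basisFun F ι) (by
      rw [show gram T (bb.reindex e.symm) = (gram T bb).submatrix e e by ext i j; simp [gram_apply],
        Matrix.det_submatrix_equiv_self, hgram, Matrix.det_fromBlocks_zero₂₁]
      exact hG')
  refine ⟨Matrix.toBilin' G', g.toLinearMap ∘ₗ LinearMap.inl F _ _, g.toLinearMap ∘ₗ LinearMap.inr F _ _,
    hG'T, ⟨fun x y => ?_, fun x hx => ?_⟩, ⟨fun x y => ?_, fun x hx => ?_⟩, fun v w => ?_⟩
  · show bform hQ (g (x, 0)) (g (y, 0)) = _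
    rw [hg, hT]; simp
  · exact ((LinearMap.BilinForm.nondegenerate_toBilin'_iff_det_ne_zero).2 hG).1 x hx
  · show bform hQ (g (0, x)) (g (0, y)) = _
    rw [hg, hT]; simp
  · exact ((LinearMap.BilinForm.nondegenerate_toBilin'_iff_det_ne_zero).2 hG'0).1 x hx
  · show bform hQ (g (v, 0)) (g (0, w)) = 0
    rw [hg, hT]; simp

/-- A unipotent isometry with a long chain and prime power order. -/
theorem exists_unipotent {p : ℕ} [Fact p.Prime] [CharP F p] (hp2 : p ≠ 2) {k e : ℕ} (hk : p ^ e ≤ k)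
    (T' : LinearMap.BilinForm F (Fin k → F)) (hS : ∀ x y, T' x y = T' y x) (hl : ∀ x, (∀ y, T' x y = 0) → x = 0) :
    ∃ (u : Module.End F (Fin k → F)) (v : Fin k → F), (∀ x y, T' (u x) (u y) = T' x y) ∧
      u ^ p ^ e = 1 ∧ ((u - 1) ^ (p ^ e - 1)) v ≠ 0 := by
  classical
  have hp : p.Prime := Fact.out
  have h2 : (2 : F) ≠ 0 := fun h => hp2 ((Nat.prime_dvd_prime_iff_eq hp Nat.prime_two).1
    ((CharP.cast_eq_zero_iff F p 2).1 (by exact_mod_cast h)))
  have hj : 0 < p ^ e := pow_pos hp.pos e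
  have hjo : Odd (p ^ e) := (hp.odd_of_ne_two hp2).pow
  obtain ⟨u, hu, hc⟩ := Jordan.UnipotentFixed.exists_of_odd_part h2 T' hS
    ((Submodule.eq_bot_iff _).2 fun x hx => hl x fun y => LinearMap.congr_fun (LinearMap.mem_ker.1 hx) y)
    (μ := p ^ e ::ₘ Multiset.replicate (k - p ^ e) 1)
    (fun a ha => by
      rcases Multiset.mem_cons.1 ha with rfl | ha
      · exact hj
      · rw [Multiset.eq_of_mem_replicate ha]; exact one_pos)
    (fun a ha => by
      rw [Multiset.count_cons, Multiset.count_replicate, if_neg fun (h : a = p ^ e) =>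
        Nat.not_even_iff_odd.2 hjo (h ▸ ha), if_neg fun (h : 1 = a) => Nat.not_even_one (h ▸ ha)]
      exact Even.zero)
    ⟨_, Multiset.mem_cons_self _ _, hjo⟩ (by simp; omega)
  have h0 : (u - 1) ^ p ^ e = 0 := Jordan.UnipotentFixed.isNilpotent_of_hasChain hc fun a ha => by
    rcases Multiset.mem_cons.1 ha with rfl | ha
    · exact le_rfl
    · rw [Multiset.eq_of_mem_replicate ha]; exact hj
  obtain ⟨κ, _, dd, b, hd, hb, hμ⟩ := hc
  obtain ⟨i, -, hi⟩ := Multiset.mem_map.1 (show p ^ e ∈ Finset.univ.val.map dd by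
    rw [hμ]; exact Multiset.mem_cons_self _ _)
  refine ⟨u, b ⟨i, ⟨0, hd i⟩⟩, hu, ?_, ?_⟩
  · have h := congrArg (Polynomial.aeval (R := F) u)
      (sub_pow_char_pow (R := Polynomial F) (p := p) (n := e) (Polynomial.X : Polynomial F) 1)
    simp only [map_pow, map_sub, Polynomial.aeval_X, map_one, one_pow] at h
    rw [h0] at h
    exact (sub_eq_zero.1 h.symm)
  · rw [hb.pow_apply, dif_pos (show (⟨0, hd i⟩ : Fin (dd i)).val + (p ^ e - 1) < dd i by simp only; omega)]
    exact b.ne_zero _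

end CfsgLib.OrthSpectrum99
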