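import Cfsg.Agent.OrthSpectrum99.Spinor

/-!
The roots of the characteristic polynomial of an isometry of determinant one in odd dimension.
-/

set_option autoImplicit false
set_option linter.unusedSectionVars false

namespace CfsgLib.OrthSpectrum99

open Module Polynomial CfsgLib.OrthGeo Cfsg.Geo CfsgLib.LinAlg.Witt
open scoped Matrix MatrixGroups

variable {ι : Type} [Fintype ι] [DecidableEq ι] {F : Type*} [Field F]
variable {L : Type*} [Field L] [IsAlgClosed L] [Algebra F L]

variable (L) in
/-- The roots of the characteristic polynomial over the algebraically closed field `L`. -/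
noncomputable def croots (A : Matrix ι ι F) : Multiset L := (A.charpoly.map (algebraMap F L)).roots

theorem map_charpoly_eq_prod (A : Matrix ι ι F) :
    A.charpoly.map (algebraMap F L) = ((croots L A).map fun a => X - C a).prod :=
  (prod_multiset_X_sub_C_of_monic_of_roots_card_eq (A.charpoly_monic.map _)
    (splits_iff_card_roots.1 (IsAlgClosed.splits _))).symm

theorem card_croots (A : Matrix ι ι F) : Multiset.card (croots L A) = Fintype.card ι := by
  rw [croots, splits_iff_card_roots.1 (IsAlgClosed.splits _), Polynomial.natDegree_map, A.charpoly_natDegree_eq_dim]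

theorem reverse_prod_roots (S : Multiset L) (h : (0 : L) ∉ S) :
    ∃ c : L, c ≠ 0 ∧ ((S.map fun a => X - C a).prod).reverse = C c * ((S.map (·⁻¹)).map fun a => X - C a).prod := by
  induction S using Multiset.induction_on with
  | empty => exact ⟨1, one_ne_zero, by rw [Multiset.map_zero, Multiset.prod_zero, ← C_1, reverse_C]; simp⟩
  | cons a S ih =>
    obtain ⟨c, hc, e⟩ := ih fun hm => h (Multiset.mem_cons_of_mem hm)
    have ha : a ≠ 0 := fun e => h (e ▸ Multiset.mem_cons_self _ _)
    refine ⟨-a * c, mul_ne_zero (neg_ne_zero.2 ha) hc, ?_⟩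
    have hlin : (X - C a).reverse = C (-a) * (X - C a⁻¹) := by
      have h1 : (X - C a).reverse = 1 - C a * X := by
        rw [reverse, natDegree_X_sub_C, reflect_sub, show reflect 1 (X : L[X]) = 1 by
          rw [← pow_one (X : L[X]), reflect_monomial]; simp [revAt_le], reflect_C, pow_one]
      rw [h1, mul_sub, ← C_mul, neg_mul, mul_inv_cancel₀ ha, map_neg, map_neg, C_1]
      ring
    rw [Multiset.map_cons, Multiset.prod_cons, reverse_mul_of_domain, e, hlin, Multiset.map_cons, Multiset.map_cons,
      Multiset.prod_cons, map_mul]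
    ring

theorem zero_notMem_croots {A : Matrix ι ι F} (hA : A.det ≠ 0) : (0 : L) ∉ croots L A := by
  intro h
  rw [croots, mem_roots', IsRoot.def, eval_map, eval₂_at_zero] at h
  apply hA
  rw [Matrix.det_eq_sign_charpoly_coeff, (map_eq_zero (algebraMap F L)).1 h.2, mul_zero]

variable {Q : (ι → F) → F} (hQ : IsNondegenerateQuadraticForm Q)
include hQ

/-- An isometry is similar to the transpose of its inverse. -/
theorem charpoly_inv_eq {g : GL ι F} (hg : g ∈ Cfsg.isometryGroup F Q) :
    ((g⁻¹ : GL ι F) : Matrix ι ι F).charpoly = (g : Matrix ι ι F).charpoly := by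
  set G := gram (bform hQ) (Pi.basisFun F ι)
  have hG : G.det ≠ 0 := gram_det_ne_zero _ _ ((Submodule.eq_bot_iff _).2 fun x hx =>
    (b_nondeg hQ).1 x fun y => LinearMap.congr_fun (LinearMap.mem_ker.1 hx) y)
  have hGu : IsUnit G := (Matrix.isUnit_iff_isUnit_det G).2 (Ne.isUnit hG)
  have hB : LinearMap.BilinForm.toMatrix (Pi.basisFun F ι) (bform hQ) = G := by
    ext i j
    rw [LinearMap.BilinForm.toMatrix_apply]; rfl
  have key : (g : Matrix ι ι F)ᵀ * G * (g : Matrix ι ι F) = G := by
    have e := LinearMap.BilinForm.toMatrix_comp (b := Pi.basisFun F ι) (Pi.basisFun F ι) (bform hQ)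
      (Matrix.toLin' (g : Matrix ι ι F)) (Matrix.toLin' (g : Matrix ι ι F))
    rw [hB, show (bform hQ).comp (Matrix.toLin' (g : Matrix ι ι F)) (Matrix.toLin' (g : Matrix ι ι F)) = bform hQ from
      LinearMap.ext₂ fun x y => isometry_b hQ hg x y, hB] at e
    rw [LinearMap.toMatrix_eq_toMatrix', LinearMap.toMatrix'_toLin'] at e
    exact e.symm
  set Gu := hGu.unit
  have hinv : (g : Matrix ι ι F)ᵀ = (Gu : Matrix ι ι F) * ((g⁻¹ : GL ι F) : Matrix ι ι F) * (↑Gu⁻¹ : Matrix ι ι F) := by
    have h1 : (g : Matrix ι ι F)ᵀ * G = G * ((g⁻¹ : GL ι F) : Matrix ι ι F) := by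
      conv_rhs => rw [← key]
      rw [Matrix.mul_assoc _ (g : Matrix ι ι F), ← Units.val_mul, mul_inv_cancel, Units.val_one, Matrix.mul_one]
    rw [show (Gu : Matrix ι ι F) = G from hGu.unit_spec, ← h1, Matrix.mul_assoc,
      show G * (↑Gu⁻¹ : Matrix ι ι F) = 1 by rw [← hGu.unit_spec, Units.mul_inv], Matrix.mul_one]
  rw [← Matrix.charpoly_transpose (g : Matrix ι ι F), hinv, Matrix.coe_units_inv Gu, Matrix.charpoly_units_conj]

/-- The roots are closed under inversion. -/
theorem croots_inv {g : GL ι F} (hg : g ∈ Cfsg.isometryGroup F Q) :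
    (croots L (g : Matrix ι ι F)).map (·⁻¹) = croots L (g : Matrix ι ι F) := by
  set A : Matrix ι ι F := (g : Matrix ι ι F)
  have hd : A.det ≠ 0 := ((Matrix.isUnit_iff_isUnit_det A).1 g.isUnit).ne_zero
  have h1 : A.charpoly = (-1) ^ Fintype.card ι * C A.det⁻¹ * A.charpoly.reverse := by
    conv_lhs => rw [← charpoly_inv_eq hQ hg]
    rw [Matrix.reverse_charpoly, show ((g⁻¹ : GL ι F) : Matrix ι ι F) = A⁻¹ from Matrix.coe_units_inv g,
      Matrix.charpoly_inv _ g.isUnit, Ring.inverse_eq_inv']
  obtain ⟨c, hc, e⟩ := reverse_prod_roots (croots L A) (zero_notMem_croots hd)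
  have h2 : (A.charpoly.map (algebraMap F L)).reverse = A.charpoly.reverse.map (algebraMap F L) := by
    rw [reverse, reverse, Polynomial.natDegree_map, reflect_map]
  have h3 := congrArg (Polynomial.map (algebraMap F L)) h1
  rw [Polynomial.map_mul, Polynomial.map_mul, Polynomial.map_pow, Polynomial.map_neg, Polynomial.map_one,
    Polynomial.map_C, ← h2, map_charpoly_eq_prod A, e, ← mul_assoc, show ((-1 : L[X]) ^ Fintype.card ι) *
      C (algebraMap F L A.det⁻¹) * C c = C ((-1) ^ Fintype.card ι * algebraMap F L A.det⁻¹ * c) by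
        rw [map_mul, map_mul, map_pow, map_neg, map_one]] at h3
  have h4 := congrArg roots h3
  rw [roots_multiset_prod_X_sub_C, roots_C_mul, roots_multiset_prod_X_sub_C] at h4
  · exact h4.symm
  · exact mul_ne_zero (mul_ne_zero (pow_ne_zero _ (neg_ne_zero.2 one_ne_zero))
      (fun h => inv_ne_zero hd ((map_eq_zero _).1 h))) hc

omit hQ

/-- The roots are closed under the Frobenius of the ground field. -/
theorem croots_frob [Fintype F] {p : ℕ} [Fact p.Prime] [CharP L p] {f : ℕ} (hf : Fintype.card F = p ^ f)
    (A : Matrix ι ι F) : (croots L A).map (fun x => x ^ Fintype.card F) = croots L A := by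
  set φ : L →+* L := iterateFrobenius L p f
  have hφ : ∀ x, φ x = x ^ Fintype.card F := fun x => by rw [hf]; rfl
  have hfix : (A.charpoly.map (algebraMap F L)).map φ = A.charpoly.map (algebraMap F L) := by
    rw [Polynomial.map_map]
    congr 1
    refine RingHom.ext fun x => ?_
    rw [RingHom.comp_apply, hφ, ← map_pow, FiniteField.pow_card]
  have h := roots_map_of_injective_of_card_eq_natDegree (f := φ) φ.injective
    (p := A.charpoly.map (algebraMap F L)) (splits_iff_card_roots.1 (IsAlgClosed.splits _))
  rw [hfix] at h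
  rw [← show ⇑φ = fun x => x ^ Fintype.card F from funext hφ]
  exact h

theorem algebraMap_det_one_add (A : Matrix ι ι F) (hodd : Odd (Fintype.card ι)) :
    algebraMap F L ((1 + A).det) = ((croots L A).map fun a => 1 + a).prod := by
  have h1 : ((1 : Matrix ι ι F) + A).det = -(A.charpoly.eval (-1)) := by
    rw [Matrix.eval_charpoly, show Matrix.scalar ι (-1 : F) - A = -(1 + A) by
      rw [map_neg, map_one]; abel, Matrix.det_neg, hodd.neg_one_pow]
    simp
  have h2 : algebraMap F L (A.charpoly.eval (-1)) = ((croots L A).map fun a => -1 - a).prod := by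
    rw [← Polynomial.eval_map_apply, map_charpoly_eq_prod, eval_multiset_prod, Multiset.map_map, map_neg, map_one]
    simp
  rw [h1, map_neg, h2, show (fun a : L => -1 - a) = fun a => -1 * (1 + a) from funext fun a => by ring,
    Multiset.prod_map_mul, Multiset.map_const', Multiset.prod_replicate, card_croots, hodd.neg_one_pow]
  ring

end CfsgLib.OrthSpectrum99
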