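import Cfsg.Agent.OrthSpectrum99.Spinor
import Cfsg.Agent.OrthGeo.QuadOdd
import Cfsg.Agent.OrthGeo.Forms

/-!
The minus type space of dimension eight inside the orthogonal space of dimension nine.
-/

set_option autoImplicit false

namespace CfsgLib.OrthSpectrum99

open Module CfsgLib.OrthGeo Cfsg.Geo CfsgLib.LinAlg.Witt

variable {F : Type*} [Field F]

/-- Coordinates of the minus type space. -/
abbrev I8 := (Fin 3 ⊕ Fin 3) ⊕ Fin 2

/-- Coordinates of the space of dimension nine. -/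
abbrev I9 := Unit ⊕ (Fin 4 ⊕ Fin 4)

theorem polar_minus (a b : F) (u v : I8 → F) : QuadraticMap.polar (Cfsg.quadFormMinus 3 F a b) u v =
    ∑ i, (u (.inl (.inl i)) * v (.inl (.inr i)) + u (.inl (.inr i)) * v (.inl (.inl i))) +
    (2 * u (.inr 0) * v (.inr 0) + a * (u (.inr 0) * v (.inr 1) + u (.inr 1) * v (.inr 0)) +
      2 * b * u (.inr 1) * v (.inr 1)) := by
  simp only [QuadraticMap.polar, Cfsg.quadFormMinus, Pi.add_apply, add_mul, mul_add, Finset.sum_add_distrib,
    mul_comm (v (.inl (.inl _)))]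
  ring

/-- The discriminant of the minus type space. -/
theorem det_gram_minus (h2 : (2 : F) ≠ 0) (a b : F)
    (hab : ∀ z₁ z₂ : F, z₁ ^ 2 + a * z₁ * z₂ + b * z₂ ^ 2 = 0 → z₁ = 0 ∧ z₂ = 0)
    (hQ : IsNondegenerateQuadraticForm (Cfsg.quadFormMinus 3 F a b)) :
    ¬ IsSquare (gram (bform hQ) (Pi.basisFun F I8)).det := by
  have e : gram (bform hQ) (Pi.basisFun F I8) =
      Matrix.fromBlocks (Matrix.fromBlocks 0 1 1 0) 0 0 !![2, a; a, 2 * b] := by
    ext i j
    rw [gram_apply, bform_apply, Pi.basisFun_apply, Pi.basisFun_apply, polar_minus]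
    rcases i with (i | i) | i <;> rcases j with (j | j) | j
    all_goals try (fin_cases i <;> fin_cases j)
    all_goals simp [Fin.sum_univ_three]
  rw [e, Matrix.det_fromBlocks_zero₂₁, CfsgLib.LinAlg.Witt.det_antidiag, Matrix.det_fin_two_of]
  rintro ⟨r, hr⟩
  norm_num at hr
  exact one_ne_zero (hab ((r - a) / 2) 1 (by field_simp; linear_combination -hr)).2

/-- The space of dimension eight inside the space of dimension nine. -/
theorem exists_embedding [Fintype F] (h2 : (2 : F) ≠ 0) {a b : F}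
    (hQ : IsNondegenerateQuadraticForm (Cfsg.quadFormMinus 3 F a b))
    (h9 : IsNondegenerateQuadraticForm (Cfsg.quadFormOdd 4 F)) :
    ∃ (L : (I8 → F) →ₗ[F] I9 → F) (e₀ : I9 → F), Emb h9 (bform hQ) L ∧ Cfsg.quadFormOdd 4 F e₀ ≠ 0 ∧
      (∀ v, bform h9 (L v) e₀ = 0) ∧ ∀ z, ∃ v, ∃ t : F, z = L v + t • e₀ := by
  classical
  set D := (gram (bform hQ) (Pi.basisFun F I8)).det
  set D' := (gram (bform h9) (Pi.basisFun F I9)).det
  have hk8 : LinearMap.ker (bform hQ) = ⊥ := (Submodule.eq_bot_iff _).2 fun x hx =>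
    (b_nondeg hQ).1 x fun y => LinearMap.congr_fun (LinearMap.mem_ker.1 hx) y
  have hk9 : LinearMap.ker (bform h9) = ⊥ := (Submodule.eq_bot_iff _).2 fun x hx =>
    (b_nondeg h9).1 x fun y => LinearMap.congr_fun (LinearMap.mem_ker.1 hx) y
  have hD : D ≠ 0 := gram_det_ne_zero _ _ hk8
  have hD' : D' ≠ 0 := gram_det_ne_zero _ _ hk9
  set c := D * D' with hc
  let T : LinearMap.BilinForm F ((I8 → F) × F) :=
    (bform hQ).comp (LinearMap.fst _ _ _) (LinearMap.fst _ _ _) +
      LinearMap.BilinForm.comp (c • LinearMap.mul F F) (LinearMap.snd _ _ _) (LinearMap.snd _ _ _)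
  have hT : ∀ x y : (I8 → F) × F, T x y = bform hQ x.1 y.1 + c * (x.2 * y.2) := fun x y => rfl
  have hTs : ∀ x y, T x y = T y x := fun x y => by rw [hT, hT, b_symm hQ, mul_comm x.2]
  have hTk : LinearMap.ker T = ⊥ := (Submodule.eq_bot_iff _).2 fun x hx => by
    have h := fun y => LinearMap.congr_fun (LinearMap.mem_ker.1 hx) y
    refine Prod.ext ((b_nondeg hQ).1 _ fun v => ?_) ?_
    · simpa [hT] using h (v, 0)
    · have := h (0, 1)
      simpa [hT, hc, hD, hD', -bform_apply] using this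
  let eI : I9 ≃ I8 ⊕ Unit := Fintype.equivOfCardEq (by simp)
  let bb : Basis (I8 ⊕ Unit) F ((I8 → F) × F) := (Pi.basisFun F I8).prod (Basis.singleton Unit F)
  have hgram : (gram T bb).det = D * c := by
    have e : gram T bb = Matrix.fromBlocks (gram (bform hQ) (Pi.basisFun F I8)) 0 0 (c • 1) := by
      ext i j
      rw [gram_apply, hT]
      rcases i with i | i <;> rcases j with j | j <;> simp [bb, gram_apply, -bform_apply, Matrix.one_apply]
    rw [e, Matrix.det_fromBlocks_zero₂₁, Matrix.det_smul, Matrix.det_one, Fintype.card_unit, pow_one, mul_one]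
  obtain ⟨g, hg⟩ := exists_isometry_of_det h2 T (bform h9) hTs (b_symm h9) hTk hk9
    (bb.reindex eI.symm) (Pi.basisFun F I9) (by
      rw [show gram T (bb.reindex eI.symm) = (gram T bb).submatrix eI eI by ext i j; simp [gram_apply],
        Matrix.det_submatrix_equiv_self, hgram]
      exact ⟨D * D', by rw [hc]; ring⟩)
  refine ⟨g.toLinearMap ∘ₗ LinearMap.inl F _ F, g (0, 1), ⟨fun x y => ?_, fun x hx => (b_nondeg hQ).1 x hx⟩,
    fun h0 => ?_, fun v => ?_, fun z => ?_⟩
  · show bform h9 (g (x, 0)) (g (y, 0)) = _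
    rw [hg, hT]; simp
  · have h1 := b_self h9 (g (0, 1))
    rw [h0, mul_zero, hg, hT] at h1
    simp [hc, hD, hD', -bform_apply] at h1
  · show bform h9 (g (v, 0)) (g (0, 1)) = 0
    rw [hg, hT]; simp [-bform_apply]
  · refine ⟨(g.symm z).1, (g.symm z).2, ?_⟩
    show z = g ((g.symm z).1, 0) + (g.symm z).2 • g (0, 1)
    rw [← map_smul, ← map_add]
    simp

end CfsgLib.OrthSpectrum99
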