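import Cfsg.Agent.Classical.Orth.Omega
import Cfsg.Agent.LinAlg.Witt.Discr

/-!
Spinor norms of extended isometries, and of isometries without eigenvalue `-1`.
-/

set_option autoImplicit false
set_option linter.unusedSectionVars false

namespace CfsgLib.OrthSpectrum99

open Module CfsgLib.OrthGeo CfsgLib.Classical.Orth Cfsg.Geo CfsgLib.LinAlg.Witt
open scoped Matrix MatrixGroups

variable {ι : Type} [Fintype ι] [DecidableEq ι] {F : Type*} [Field F] {Q : (ι → F) → F}
variable (hQ : IsNondegenerateQuadraticForm Q)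
variable {V : Type*} [AddCommGroup V] [Module F V]

/-- An isometric embedding of a non-degenerate space. -/
structure Emb (T : LinearMap.BilinForm F V) (L : V →ₗ[F] ι → F) : Prop where
  form : ∀ x y, bform hQ (L x) (L y) = T x y
  left : ∀ x, (∀ y, T x y = 0) → x = 0

/-- `h` is `g` on the image of `L` and the identity on its perpendicular. -/
structure Ext (L : V →ₗ[F] ι → F) (g : Module.End F V) (h : GL ι F) : Prop where
  iso : h ∈ Cfsg.isometryGroup F Q
  map : ∀ v, (h : Matrix ι ι F) *ᵥ L v = L (g v)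
  fix : ∀ z, (∀ v, bform hQ (L v) z = 0) → (h : Matrix ι ι F) *ᵥ z = z

variable {hQ} {T : LinearMap.BilinForm F V} {L : V →ₗ[F] ι → F}

theorem Emb.injective (hL : Emb hQ T L) : Function.Injective L := by
  refine (injective_iff_map_eq_zero L).2 fun x hx => hL.left x fun y => ?_
  rw [← hL.form, hx, map_zero, LinearMap.zero_apply]

theorem Emb.isCompl (hL : Emb hQ T L) : IsCompl (LinearMap.range L) ((bform hQ).orthogonal (LinearMap.range L)) := by
  have hd : Disjoint (LinearMap.range L) ((bform hQ).orthogonal (LinearMap.range L)) := by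
    rw [Submodule.disjoint_def]
    rintro _ ⟨x, rfl⟩ hx
    rw [show x = 0 from hL.left x fun y => by
      rw [← hL.form, b_symm hQ]; exact hx _ ⟨y, rfl⟩, map_zero]
  refine ⟨hd, ?_⟩
  have h1 := Submodule.finrank_sup_add_finrank_inf_eq (LinearMap.range L)
    ((bform hQ).orthogonal (LinearMap.range L))
  rw [disjoint_iff.1 hd, finrank_bot, add_zero] at h1
  have h2 := finrank_perp hQ (LinearMap.range L)
  rw [perp] at h2
  have h3 := Submodule.finrank_le (LinearMap.range L)
  rw [Module.finrank_pi] at h3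
  refine codisjoint_iff.2 (Submodule.eq_top_of_finrank_eq ?_)
  rw [h1, Module.finrank_pi]
  omega

/-- Extension of an isometry by the identity. -/
theorem exists_ext (h2 : (2 : F) ≠ 0) (hL : Emb hQ T L) {g : Module.End F V}
    (hg : ∀ x y, T (g x) (g y) = T x y) : ∃ h : GL ι F, Ext hQ L g h := by
  have hc := hL.isCompl
  let e : V ≃ₗ[F] LinearMap.range L := LinearEquiv.ofInjective L hL.injective
  let f : Module.End F (ι → F) := LinearMap.ofIsCompl hc (L ∘ₗ g ∘ₗ e.symm.toLinearMap)
    ((bform hQ).orthogonal (LinearMap.range L)).subtype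
  have hf1 : ∀ v, f (L v) = L (g v) := fun v => by
    have := LinearMap.ofIsCompl_left_apply (φ := L ∘ₗ g ∘ₗ e.symm.toLinearMap)
      (ψ := ((bform hQ).orthogonal (LinearMap.range L)).subtype) hc (e v)
    rw [LinearMap.comp_apply, LinearMap.comp_apply, LinearEquiv.coe_coe, e.symm_apply_apply] at this
    exact this
  have hf2 : ∀ z, (∀ v, bform hQ (L v) z = 0) → f z = z := fun z hz => by
    have hmem : z ∈ (bform hQ).orthogonal (LinearMap.range L) := by rintro _ ⟨v, rfl⟩; exact hz v
    exact LinearMap.ofIsCompl_right_apply hc (⟨z, hmem⟩ : (bform hQ).orthogonal (LinearMap.range L))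
  have hfb : ∀ x y, bform hQ (f x) (f y) = bform hQ x y := by
    intro x y
    obtain ⟨_, ⟨a, rfl⟩, z, hz, rfl⟩ := Submodule.mem_sup.1 (hc.sup_eq_top ▸ Submodule.mem_top :
      x ∈ LinearMap.range L ⊔ (bform hQ).orthogonal (LinearMap.range L))
    obtain ⟨_, ⟨b, rfl⟩, w, hw, rfl⟩ := Submodule.mem_sup.1 (hc.sup_eq_top ▸ Submodule.mem_top :
      y ∈ LinearMap.range L ⊔ (bform hQ).orthogonal (LinearMap.range L))
    have hz' : ∀ v, bform hQ (L v) z = 0 := fun v => hz _ ⟨v, rfl⟩
    have hw' : ∀ v, bform hQ (L v) w = 0 := fun v => hw _ ⟨v, rfl⟩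
    have hz'' : ∀ v, bform hQ z (L v) = 0 := fun v => by rw [b_symm hQ]; exact hz' v
    rw [map_add f, map_add f, hf1, hf1, hf2 z hz', hf2 w hw']
    simp only [map_add, LinearMap.add_apply, hw', hz'', hL.form, hg]
  have hinj : Function.Injective f := by
    refine (injective_iff_map_eq_zero f).2 fun x hx => (b_nondeg hQ).1 x fun y => ?_
    rw [← hfb, hx, map_zero, LinearMap.zero_apply]
  have hu : IsUnit (LinearMap.toMatrix' f) := by
    rw [← Matrix.mulVec_injective_iff_isUnit]
    intro a b hab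
    exact hinj (by simpa [← Matrix.toLin'_apply, Matrix.toLin'_toMatrix'] using hab)
  have hval : ∀ x, (hu.unit : Matrix ι ι F) *ᵥ x = f x := fun x => by
    rw [IsUnit.unit_spec, ← Matrix.toLin'_apply, Matrix.toLin'_toMatrix']
  refine ⟨hu.unit, mem_isometryGroup.2 fun x => ?_, fun v => by rw [hval, hf1], fun z hz => by rw [hval, hf2 z hz]⟩
  have h := hfb x x
  rw [b_self hQ, b_self hQ] at h
  rw [hval]
  exact mul_left_cancel₀ h2 h

theorem Ext.residual_eq {g : Module.End F V} {h : GL ι F} (hL : Emb hQ T L) (he : Ext hQ L g h) :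
    residual h = (LinearMap.range (1 - g : Module.End F V)).map L := by
  ext u
  rw [Classical.Orth.mem_residual, Submodule.mem_map]
  constructor
  · rintro ⟨x, rfl⟩
    obtain ⟨_, ⟨a, rfl⟩, z, hz, rfl⟩ := Submodule.mem_sup.1 (hL.isCompl.sup_eq_top ▸ Submodule.mem_top :
      x ∈ LinearMap.range L ⊔ (bform hQ).orthogonal (LinearMap.range L))
    refine ⟨a - g a, ⟨a, rfl⟩, ?_⟩
    rw [Matrix.mulVec_add, he.map, he.fix z fun v => hz _ ⟨v, rfl⟩, map_sub]
    abel
  · rintro ⟨_, ⟨a, rfl⟩, rfl⟩
    exact ⟨L a, by rw [he.map, ← map_sub]; rfl⟩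

theorem Ext.finrank_residual {g : Module.End F V} {h : GL ι F} (hL : Emb hQ T L) (he : Ext hQ L g h) :
    finrank F (residual h) = finrank F (LinearMap.range (1 - g : Module.End F V)) := by
  rw [he.residual_eq hL]
  exact (Submodule.equivMapOfInjective L hL.injective _).finrank_eq.symm

/-- The Wall form of the extension is the Wall form downstairs. -/
theorem Ext.spinor {g : Module.End F V} {h : GL ι F} (hL : Emb hQ T L) (he : Ext hQ L g h) {k : ℕ}
    (x : Fin k → V) (hli : LinearIndependent F fun i => x i - g (x i))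
    (hsp : Submodule.span F (Set.range fun i => x i - g (x i)) = LinearMap.range (1 - g : Module.End F V)) :
    SqClassEq (Classical.Orth.spinor hQ h) (Matrix.of fun i j => T (x i - g (x i)) (x j)).det := by
  refine isWallDet_unique hQ he.iso ⟨k, fun i => L (x i), ?_, ?_, ?_⟩ (isWallDet_spinor hQ h)
  · have : (fun i => L (x i) - (h : Matrix ι ι F) *ᵥ L (x i)) = L ∘ fun i => x i - g (x i) :=
      funext fun i => by rw [he.map, Function.comp_apply, map_sub]
    rw [this]
    exact hli.map' L (LinearMap.ker_eq_bot.2 hL.injective)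
  · have : (fun i => L (x i) - (h : Matrix ι ι F) *ᵥ L (x i)) = L ∘ fun i => x i - g (x i) :=
      funext fun i => by rw [he.map, Function.comp_apply, map_sub]
    rw [this, Set.range_comp, ← Submodule.map_span, hsp, he.residual_eq hL]
  · congr 1
    ext i j
    rw [Matrix.of_apply, Matrix.of_apply, he.map, ← map_sub, hL.form]

/-- Spinor norm of the extension of a fixed point free isometry. -/
theorem Ext.spinor_free [FiniteDimensional F V] {g : Module.End F V} {h : GL ι F} (hL : Emb hQ T L)
    (he : Ext hQ L g h) (hfree : LinearMap.det (1 - g : Module.End F V) ≠ 0) {κ : Type*} [Fintype κ] [DecidableEq κ]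
    (b : Basis κ F V) :
    finrank F (residual h) = finrank F V ∧
      SqClassEq (Classical.Orth.spinor hQ h) (LinearMap.det (1 - g : Module.End F V) * (gram T b).det) := by
  classical
  have hker : LinearMap.ker (1 - g : Module.End F V) = ⊥ := by
    by_contra hne
    exact hfree (LinearMap.det_eq_zero_iff_ker_ne_bot.2 hne)
  have htop : LinearMap.range (1 - g : Module.End F V) = ⊤ :=
    LinearMap.range_eq_top.2 (LinearMap.injective_iff_surjective.1 (LinearMap.ker_eq_bot.1 hker))
  refine ⟨by rw [he.finrank_residual hL, htop, finrank_top], ?_⟩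
  let e := Fintype.equivFin κ
  set b' := b.reindex e with hb'
  have hsp : Submodule.span F (Set.range fun i => b' i - g (b' i)) = LinearMap.range (1 - g : Module.End F V) := by
    rw [show (fun i => b' i - g (b' i)) = (1 - g : Module.End F V) ∘ b' from rfl, Set.range_comp,
      ← Submodule.map_span, b'.span_eq, Submodule.map_top]
  have hli : LinearIndependent F fun i => b' i - g (b' i) :=
    b'.linearIndependent.map' (1 - g : Module.End F V) hker
  refine (he.spinor hL b' hli hsp).trans ?_
  have e1 : (Matrix.of fun i j => T (b' i - g (b' i)) (b' j)) =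
      (LinearMap.toMatrix b' b' (1 - g : Module.End F V)).transpose * gram T b' := by
    ext i j
    rw [Matrix.of_apply, Matrix.mul_apply,
      show b' i - g (b' i) = ∑ l, b'.repr ((1 - g : Module.End F V) (b' i)) l • b' l from (b'.sum_repr _).symm]
    simp only [map_sum, map_smul, LinearMap.sum_apply, LinearMap.smul_apply, smul_eq_mul, Matrix.transpose_apply, LinearMap.toMatrix_apply, gram_apply]
  have e2 : (gram T b').det = (gram T b).det := by
    rw [show gram T b' = (gram T b).submatrix e.symm e.symm by ext i j; simp [gram_apply, b'],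
      Matrix.det_submatrix_equiv_self]
  rw [e1, Matrix.det_mul, Matrix.det_transpose, LinearMap.det_toMatrix, e2]
  exact SqClassEq.refl _

variable (hQ) in
theorem emb_id : Emb hQ (bform hQ) (LinearMap.id : (ι → F) →ₗ[F] ι → F) :=
  ⟨fun _ _ => rfl, fun x hx => (b_nondeg hQ).1 x hx⟩

variable (hQ) in
theorem ext_id {h : GL ι F} (hh : h ∈ Cfsg.isometryGroup F Q) :
    Ext hQ LinearMap.id (Matrix.toLin' (h : Matrix ι ι F)) h :=
  ⟨hh, fun _ => rfl, fun z hz => by
    rw [(b_nondeg hQ).2 z hz, Matrix.mulVec_zero]⟩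

include hQ in
theorem neg_one_mem : (-1 : GL ι F) ∈ Cfsg.isometryGroup F Q :=
  mem_isometryGroup.2 fun x => by
    rw [Units.val_neg, Units.val_one, Matrix.neg_mulVec, Matrix.one_mulVec, q_neg hQ]

theorem sqClassEq_spinor_neg {h : GL ι F} (hh : h ∈ Cfsg.isometryGroup F Q)
    (hdet : ((1 : Matrix ι ι F) + (h : Matrix ι ι F)).det ≠ 0) :
    SqClassEq (spinor hQ (-h)) (((1 : Matrix ι ι F) + (h : Matrix ι ι F)).det * (gram (bform hQ) (Pi.basisFun F ι)).det) := by
  have hm : -h ∈ Cfsg.isometryGroup F Q := by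
    have := mul_mem (neg_one_mem (hQ := hQ)) hh
    rwa [neg_one_mul] at this
  have key : (1 - Matrix.toLin' ((-h : GL ι F) : Matrix ι ι F) : Module.End F (ι → F)) =
      Matrix.toLin' ((1 : Matrix ι ι F) + (h : Matrix ι ι F)) := by
    rw [Units.val_neg, map_neg, map_add, Matrix.toLin'_one, sub_neg_eq_add]
    rfl
  have h1 := ((ext_id hQ hm).spinor_free (emb_id hQ) (by rw [key, LinearMap.det_toLin']; exact hdet)
    (Pi.basisFun F ι)).2
  rwa [key, LinearMap.det_toLin'] at h1

/-- The spinor norm of an isometry without eigenvalue `-1`. -/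
theorem spinor_of_no_neg_one (h2 : (2 : F) ≠ 0) {h : GL ι F} (hh : h ∈ Cfsg.isometryGroup F Q)
    (hdet : ((1 : Matrix ι ι F) + (h : Matrix ι ι F)).det ≠ 0) :
    SqClassEq (spinor hQ h) (((1 : Matrix ι ι F) + (h : Matrix ι ι F)).det * (2 : F) ^ Fintype.card ι) := by
  have hexc : ¬ (Nat.card F = 2 ∧ Fintype.card ι = 4) := by
    rintro ⟨hc, -⟩
    haveI : Finite F := Nat.finite_of_card_ne_zero (by omega)
    exact h2 (by have := Fintype.ofFinite F; rw [Nat.card_eq_fintype_card] at hc; exact_mod_cast (hc ▸ Nat.cast_card_eq_zero F))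
  have hone : ((1 : Matrix ι ι F) + ((1 : GL ι F) : Matrix ι ι F)).det = (2 : F) ^ Fintype.card ι := by
    rw [Units.val_one, ← two_smul F (1 : Matrix ι ι F), Matrix.det_smul, Matrix.det_one, mul_one]
  have hm : -h ∈ Cfsg.isometryGroup F Q := by
    have := mul_mem (neg_one_mem (hQ := hQ)) hh
    rwa [neg_one_mul] at this
  have h1 := sqClassEq_spinor_neg (hQ := hQ) (one_mem _) (by rw [hone]; exact pow_ne_zero _ h2)
  have h3 := sqClassEq_spinor_neg (hQ := hQ) hh hdet
  have h4 := (invariants_mul hQ hexc (neg_one_mem (hQ := hQ)) hm).2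
  rw [show (-1 : GL ι F) * -h = h by simp] at h4
  refine h4.trans ((h1.mul h3).trans ?_)
  rw [hone]
  have hg : (gram (bform hQ) (Pi.basisFun F ι)).det ≠ 0 :=
    gram_det_ne_zero _ _ ((Submodule.eq_bot_iff _).2 fun x hx => (b_nondeg hQ).1 x fun y =>
      LinearMap.congr_fun (LinearMap.mem_ker.1 hx) y)
  exact ⟨_, hg, by ring⟩

/-- Elements of odd order lie in `Omega`. -/
theorem mem_omega_of_odd [Finite F] (hexc : ¬ (Nat.card F = 2 ∧ Fintype.card ι = 4))
    (hQ : IsNondegenerateQuadraticForm Q) {g : Cfsg.isometryGroup F Q} {N : ℕ} (hN : Odd N) (hg : g ^ N = 1) :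
    g ∈ Cfsg.Omega F Q := by
  obtain ⟨k, rfl⟩ := hN
  have hsq : g = (g⁻¹ ^ k) * (g⁻¹ ^ k) := by
    rw [← pow_add, ← two_mul, inv_pow, eq_inv_iff_mul_eq_one, ← pow_succ']
    exact hg
  rw [hsq, mem_omega_iff hQ hexc]
  set y : Cfsg.isometryGroup F Q := g⁻¹ ^ k
  obtain ⟨hp, hs⟩ := invariants_mul hQ hexc y.2 y.2
  exact ⟨(by simpa using hp), hs.isSquare_iff.2 ⟨_, rfl⟩⟩

/-- An extension is in `Omega` exactly when the downstairs isometry is. -/
theorem Ext.mem_omega_iff [Finite F] {κ : Type} [Fintype κ] [DecidableEq κ] {R : (κ → F) → F}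
    (hR : IsNondegenerateQuadraticForm R) (hexc : ¬ (Nat.card F = 2 ∧ Fintype.card ι = 4))
    (hexc' : ¬ (Nat.card F = 2 ∧ Fintype.card κ = 4))
    {L : (κ → F) →ₗ[F] ι → F} (hL : Emb hQ (bform hR) L) (g : Cfsg.isometryGroup F R)
    (h : Cfsg.isometryGroup F Q) (he : Ext hQ L (Matrix.toLin' ((g : GL κ F) : Matrix κ κ F)) (h : GL ι F)) :
    h ∈ Cfsg.Omega F Q ↔ g ∈ Cfsg.Omega F R := by
  rw [Classical.Orth.mem_omega_iff hQ hexc, Classical.Orth.mem_omega_iff hR hexc']
  have hres : residual (g : GL κ F) = LinearMap.range (1 - Matrix.toLin' ((g : GL κ F) : Matrix κ κ F) : Module.End F (κ → F)) := by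
    rw [Classical.Orth.residual]
    congr 1
    exact LinearMap.ext fun v => by simp [Matrix.sub_mulVec]
  rw [he.finrank_residual hL, ← hres]
  refine and_congr_right' ?_
  obtain ⟨k, x, hli, hsp, hd⟩ := isWallDet_spinor hR (g : GL κ F)
  have hs := he.spinor hL x (by simpa [Matrix.toLin'_apply] using hli)
    (by rw [← hres, ← hsp]; simp [Matrix.toLin'_apply])
  refine hs.isSquare_iff.trans (iff_of_eq (congrArg IsSquare ?_))
  rw [← hd]
  simp [Matrix.toLin'_apply]

end CfsgLib.OrthSpectrum99
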