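import Cfsg.Agent.OrthSpectrum99.Affine

/-!
The maximal element orders coming from fixed lines, as orders in `V ⋊ Omega⁻₈`.
-/

set_option autoImplicit false

namespace CfsgLib.OrthSpectrum99

open Module CfsgLib.OrthGeo Cfsg.Geo CfsgLib.LinAlg.Witt

/-- The list of orders needed for elements fixing a single line. -/
def Tgt (p q N : ℕ) : Prop :=
  N = (q ^ 4 + 1) / 2 ∨ N = (q ^ 4 - 1) / 2 ∨ N = (q ^ 3 + 1) * (q - 1) / 2 ∨ N = (q ^ 3 - 1) * (q + 1) / 2 ∨
    N = (q ^ 2 + 1) * (q + 1) / 2 * p ∨ N = (q ^ 2 + 1) * (q - 1) / 2 * p ∨ N = (q ^ 2 - 1) * p ∨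
    (p = 3 ∧ (N = (q - 1) * 9 ∨ N = (q + 1) * 9)) ∨ (p = 5 ∧ N = 50)

theorem lcm_half {a b : ℕ} (ha : 2 ∣ a) (hb : 2 ∣ b) (h : Nat.gcd a b ∣ 2) : Nat.lcm a b = a * b / 2 := by
  rw [Nat.lcm, Nat.dvd_antisymm h (Nat.dvd_gcd ha hb)]

theorem gcd_dvd_two {a b c : ℕ} (h : a = b * c + 2 ∨ a + 2 = b * c) : Nat.gcd a b ∣ 2 := by
  have h1 := Nat.gcd_dvd_left a b
  have h2 : Nat.gcd a b ∣ b * c := (Nat.gcd_dvd_right a b).mul_right c
  rcases h with h | h
  · exact (Nat.dvd_add_right h2).1 (h ▸ h1)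
  · exact (Nat.dvd_add_right h1).1 (h ▸ h2)

variable {F : Type*} [Field F] [Fintype F] [DecidableEq F] {p : ℕ} [hp : Fact p.Prime] [hpc : CharP F p]

include hp hpc

theorem exists_plus_gen (hodd : Odd (Fintype.card F)) {r : ℕ} (hr : 0 < r) :
    Piece F (r + r) (Fintype.card F ^ r - 1) ((-1 : ℤ) ^ (r * (Fintype.card F / 2))) (-1) := by
  haveI : NeZero r := ⟨hr.ne'⟩
  set K := FiniteField.Extension F p r
  letI : Fintype K := Fintype.ofFinite K
  have hcK : Fintype.card K = Fintype.card F ^ r := by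
    rw [← Nat.card_eq_fintype_card, FiniteField.natCard_extension, Nat.card_eq_fintype_card]
  obtain ⟨g, hg⟩ := IsCyclic.exists_ofOrder_eq_natCard (α := Kˣ)
  rw [Nat.card_units, Nat.card_eq_fintype_card] at hg
  obtain ⟨n, hn⟩ : Odd (Fintype.card K) := hcK ▸ hodd.pow
  have hq : 1 < Fintype.card K := Fintype.one_lt_card
  have hz1 : (g : K) ≠ 1 := fun e => by
    rw [Units.val_eq_one.1 e, orderOf_one] at hg; omega
  have hh : (g : K) ^ ((Fintype.card K - 1) / 2) = ((-1 : ℤ) : K) := by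
    have h2 : ((g : K) ^ ((Fintype.card K - 1) / 2)) ^ 2 = 1 := by
      rw [← pow_mul, show (Fintype.card K - 1) / 2 * 2 = Fintype.card K - 1 by omega, ← hg,
        ← Units.val_pow_eq_pow_val, pow_orderOf_eq_one, Units.val_one]
    rw [Int.cast_neg, Int.cast_one]
    refine (sq_eq_one_iff.1 h2).resolve_left fun h3 => ?_
    have h4 : g ^ ((Fintype.card K - 1) / 2) = 1 := Units.ext (by simpa using h3)
    have := Nat.le_of_dvd (by omega) (hg ▸ orderOf_dvd_of_pow_eq_one h4)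
    omega
  have h := piece_plus hodd (FiniteField.finrank_extension F p r) (Units.ne_zero g) hz1 (Or.inr rfl) hh
  rwa [orderOf_units, hg, hcK] at h

theorem exists_minus (hodd : Odd (Fintype.card F)) {r : ℕ} (hr : 0 < r) :
    Piece F (r + r) (Fintype.card F ^ r + 1) ((-1 : ℤ) ^ ((Fintype.card F ^ r + 1) / 2)) (-1) ∧
    Piece F (r + r) ((Fintype.card F ^ r + 1) / 2) ((-1 : ℤ) ^ ((Fintype.card F ^ r + 1) / 2)) 1 := by
  haveI : NeZero (r + r) := ⟨by omega⟩
  set K := FiniteField.Extension F p (r + r)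
  letI : Fintype K := Fintype.ofFinite K
  set Q := Fintype.card F ^ r with hQ
  have hcK : Fintype.card K = Q * Q := by
    rw [← Nat.card_eq_fintype_card, FiniteField.natCard_extension, Nat.card_eq_fintype_card, pow_add]
  obtain ⟨g, hg⟩ := IsCyclic.exists_ofOrder_eq_natCard (α := Kˣ)
  rw [Nat.card_units, Nat.card_eq_fintype_card, hcK] at hg
  obtain ⟨n, hn⟩ : Odd Q := hodd.pow
  have hQ3 : 3 ≤ Q := by
    have := Fintype.one_lt_card (α := F)
    have := Nat.le_self_pow hr.ne' (Fintype.card F)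
    omega
  have hfac : Q * Q - 1 = (Q - 1) * (Q + 1) := by
    rw [hn, Nat.add_sub_cancel, show (2 * n + 1) * (2 * n + 1) = 2 * n * (2 * n + 1 + 1) + 1 by ring,
      Nat.add_sub_cancel]
  have hz : orderOf (g ^ (Q - 1)) = Q + 1 := by
    rw [orderOf_pow' g (by omega), hg, hfac, Nat.gcd_mul_right_left, Nat.mul_div_cancel_left _ (by omega)]
  set z : K := ((g ^ (Q - 1) : Kˣ) : K)
  have hzo : orderOf z = Q + 1 := by rw [orderOf_units, hz]
  have hz1 : z ^ (Q + 1) = 1 := hzo ▸ pow_orderOf_eq_one z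
  have hzne : z ≠ 1 := fun e => by rw [e, orderOf_one] at hzo; omega
  have hh : z ^ ((Q + 1) / 2) = ((-1 : ℤ) : K) := by
    have h2 : (z ^ ((Q + 1) / 2)) ^ 2 = 1 := by
      rw [← pow_mul, show (Q + 1) / 2 * 2 = Q + 1 by omega, hz1]
    rw [Int.cast_neg, Int.cast_one]
    refine (sq_eq_one_iff.1 h2).resolve_left fun h3 => ?_
    have := Nat.le_of_dvd (by omega) (hzo ▸ orderOf_dvd_of_pow_eq_one h3)
    omega
  have hfr := FiniteField.finrank_extension F p (r + r)
  refine ⟨hzo ▸ piece_minus hodd hfr hz1 hzne (Or.inr rfl) hh, ?_⟩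
  have hw1 : z ^ 2 ≠ 1 := fun e => by
    have := Nat.le_of_dvd two_pos (hzo ▸ orderOf_dvd_of_pow_eq_one e)
    omega
  have h := piece_minus hodd hfr (z := z ^ 2) (by rw [← pow_mul, mul_comm, pow_mul, hz1, one_pow]) hw1 (Or.inl rfl)
    (by rw [← pow_mul, mul_comm, show (Q + 1) / 2 * 2 = Q + 1 by omega, hz1, Int.cast_one])
  rwa [orderOf_pow' z two_ne_zero, hzo, Nat.gcd_eq_right (show 2 ∣ Q + 1 by omega)] at h

theorem exists_neg_one (hodd : Odd (Fintype.card F)) (h4 : Even (Fintype.card F / 2)) :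
    Piece F 2 2 1 1 := by
  classical
  set K := FiniteField.Extension F p 1
  letI : Fintype K := Fintype.ofFinite K
  have hcK : Fintype.card K = Fintype.card F := by
    rw [← Nat.card_eq_fintype_card, FiniteField.natCard_extension, Nat.card_eq_fintype_card, pow_one]
  have hK : ringChar K ≠ 2 := ringChar_ne_two (hcK ▸ hodd)
  have hne : (-1 : K) ≠ 1 := Ring.neg_one_ne_one_of_char_ne_two hK
  have h := piece_plus hodd (FiniteField.finrank_extension F p 1) (neg_ne_zero.2 one_ne_zero) hne (Or.inl rfl)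
    (by
      obtain ⟨k, hk⟩ := hodd
      obtain ⟨j, hj⟩ := h4
      rw [hcK, show (Fintype.card F - 1) / 2 = 2 * j by omega, pow_mul, neg_one_sq, one_pow, Int.cast_one])
  rw [orderOf_neg_one, if_neg hK, one_mul, h4.neg_one_pow] at h
  exact h

variable {ι : Type} [Fintype ι] [DecidableEq ι] {Q : (ι → F) → F}

/-- All listed orders occur in `V ⋊ Omega(Q)` for a space of minus type of dimension eight. -/
theorem inA_of_tgt (hQ : IsNondegenerateQuadraticForm Q) (hp2 : p ≠ 2) (h8 : Fintype.card ι = 8)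
    (hD : quadraticChar F (gram (bform hQ) (Pi.basisFun F ι)).det = -1) {N : ℕ}
    (hN : Tgt p (Fintype.card F) N) : InA Q N := by
  have hexc : ¬ (Nat.card F = 2 ∧ Fintype.card ι = 4) := fun h => by omega
  obtain ⟨f, -, hf⟩ := FiniteField.card F p
  set q := Fintype.card F with hq
  have hodd : Odd q := hf ▸ (hp.out.odd_of_ne_two hp2).pow
  have hpq : p ∣ q := hf ▸ dvd_pow_self p f.ne_zero
  have hq3 : 3 ≤ q := by
    have := Fintype.one_lt_card (α := F); obtain ⟨k, hk⟩ := hodd; omega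
  obtain ⟨k, hk⟩ := hodd
  have hodd : Odd q := ⟨k, hk⟩
  have hk2 : q / 2 = k := by omega
  have cop : ∀ (r N : ℕ), 0 < r → (N ∣ q ^ r + 1 ∨ N ∣ q ^ r - 1) → Nat.Coprime p N := by
    intro r N hr h
    refine hp.out.coprime_iff_not_dvd.2 fun hd => hp.out.not_dvd_one ?_
    have hpr : p ∣ q ^ r := hpq.trans (dvd_pow_self q hr.ne')
    rcases h with h | h
    · exact (Nat.dvd_add_right hpr).1 (hd.trans h)
    · have := Nat.dvd_sub hpr (hd.trans h)
      rwa [Nat.sub_sub_self (Nat.one_le_pow _ _ (by omega))] at this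
  have cl : ∀ {a b : ℕ}, Nat.Coprime p a → Nat.Coprime p b → Nat.Coprime p (Nat.lcm a b) := fun ha hb =>
    (ha.mul_right hb).coprime_dvd_right (Nat.lcm_dvd_mul _ _)
  have h4 : ∀ r, Even r → (-1 : ℤ) ^ ((q ^ r + 1) / 2) = -1 := by
    rintro r ⟨j, rfl⟩
    obtain ⟨m, hm⟩ : Odd (q ^ j) := hodd.pow
    rw [pow_add, hm, show ((2 * m + 1) * (2 * m + 1) + 1) / 2 = 2 * (m * m + m) + 1 by
      rw [show (2 * m + 1) * (2 * m + 1) + 1 = 2 * (2 * (m * m + m) + 1) by ring, Nat.mul_div_cancel_left _ two_pos],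
      pow_succ, pow_mul, neg_one_sq, one_pow, one_mul]
  have two : ∀ r, 2 ∣ q ^ r + 1 ∧ 2 ∣ q ^ r - 1 := fun r => by
    obtain ⟨m, hm⟩ : Odd (q ^ r) := hodd.pow
    rw [hm]; omega
  rcases hN with rfl | rfl | rfl | rfl | rfl | rfl | rfl | ⟨rfl, rfl | rfl⟩ | ⟨rfl, rfl⟩
  · exact (inA_of_piece hQ hp2 hexc (k := 0) (exists_minus (p := p) hodd (r := 4) (by norm_num)).2 (by decide)
      (by omega) (Or.inr (by rw [hD, h4 4 ⟨2, rfl⟩]))).1
  · have h := (exists_minus (p := p) hodd (r := 2) two_pos).1.prod (exists_plus_gen (p := p) hodd (r := 2) two_pos)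
    rw [h4 2 ⟨1, rfl⟩, pow_mul, neg_one_sq, one_pow, mul_one, show (-1 : ℤ) * -1 = 1 by norm_num] at h
    refine (inA_of_piece hQ hp2 hexc (k := 0) h (by decide) (by omega) (Or.inr hD)).1.mono ?_
    rw [lcm_half (two 2).1 (two 2).2 (gcd_dvd_two (c := 1) (Or.inl (by have := Nat.one_le_pow 2 q (by omega); omega))),
      show (q ^ 2 + 1) * (q ^ 2 - 1) = q ^ 4 - 1 by
        obtain ⟨m, hm⟩ : ∃ m, q ^ 2 = m + 1 := ⟨q ^ 2 - 1, by have := Nat.one_le_pow 2 q (by omega); omega⟩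
        rw [show q ^ 4 = q ^ 2 * q ^ 2 by ring, hm, show (m + 1) * (m + 1) = (m + 1 + 1) * m + 1 by ring]
        simp]
  · have h := (exists_minus (p := p) hodd (r := 3) (by norm_num)).1.prod (exists_plus_gen (p := p) hodd (r := 1) one_pos)
    rw [pow_one, one_mul, hk2, ← pow_add, show (-1 : ℤ) * -1 = 1 by norm_num] at h
    refine (inA_of_piece hQ hp2 hexc (k := 0) h (by decide) (by omega) (Or.inr ?_)).1.mono ?_
    · simp only [← hq]
      rw [hD, hk, show ((2 * k + 1) ^ 3 + 1) / 2 + k = 2 * (2 * k ^ 3 + 3 * k ^ 2 + 2 * k) + 1 by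
        rw [show (2 * k + 1) ^ 3 + 1 = 2 * (4 * k ^ 3 + 6 * k ^ 2 + 3 * k + 1) by ring,
          Nat.mul_div_cancel_left _ two_pos]; ring,
        pow_succ, pow_mul, neg_one_sq, one_pow, one_mul]
    · rw [lcm_half (two 3).1 (by simpa using (two 1).2) (gcd_dvd_two (c := q ^ 2 + q + 1) (Or.inl (by
        simp only [← hq]; rw [hk, Nat.add_sub_cancel]; ring)))]
  · have h := (exists_plus_gen (p := p) hodd (r := 3) (by norm_num)).prod (exists_minus (p := p) hodd (r := 1) one_pos).1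
    rw [pow_one, hk2, ← pow_add, show (-1 : ℤ) * -1 = 1 by norm_num] at h
    refine (inA_of_piece hQ hp2 hexc (k := 0) h (by decide) (by omega) (Or.inr ?_)).1.mono ?_
    · simp only [← hq]
      rw [hD, hk, show 3 * k + (2 * k + 1 + 1) / 2 = 2 * (2 * k) + 1 by omega,
        pow_succ, pow_mul, neg_one_sq, one_pow, one_mul]
    · obtain ⟨j, hj⟩ : ∃ j, q ^ 3 = j + 1 := ⟨q ^ 3 - 1, by have := Nat.one_le_pow 3 q (by omega); omega⟩
      rw [lcm_half (two 3).2 (by simpa using (two 1).1) (gcd_dvd_two (c := 4 * k ^ 2 + 2 * k + 1) (Or.inr (by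
        simp only [← hq]
        have e : (q + 1) * (4 * k ^ 2 + 2 * k + 1) = q ^ 3 + 1 := by rw [hk]; ring
        omega)))]
  · have h := (exists_minus (p := p) hodd (r := 2) two_pos).1.prod (exists_minus (p := p) hodd (r := 1) one_pos).1
    rw [show (-1 : ℤ) * -1 = 1 by norm_num, pow_one] at h
    have h2' := (inA_of_piece hQ hp2 hexc (k := 2) h (by decide) (by omega) (Or.inl two_pos)).2 0
      (cl (cop 2 _ two_pos (Or.inl dvd_rfl)) (cop 1 _ one_pos (Or.inl (by rw [pow_one])))) (by norm_num)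
    rwa [lcm_half (two 2).1 (by simpa using (two 1).1) (gcd_dvd_two (c := q - 1) (Or.inl (by
      simp only [← hq]; rw [hk, Nat.add_sub_cancel]; ring))), zero_add, pow_one] at h2'
  · have h := (exists_minus (p := p) hodd (r := 2) two_pos).1.prod (exists_plus_gen (p := p) hodd (r := 1) one_pos)
    rw [show (-1 : ℤ) * -1 = 1 by norm_num, pow_one] at h
    have h2' := (inA_of_piece hQ hp2 hexc (k := 2) h (by decide) (by omega) (Or.inl two_pos)).2 0
      (cl (cop 2 _ two_pos (Or.inl dvd_rfl)) (cop 1 _ one_pos (Or.inr (by rw [pow_one])))) (by norm_num)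
    rwa [lcm_half (two 2).1 (by simpa using (two 1).2) (gcd_dvd_two (c := q + 1) (Or.inl (by
      simp only [← hq]; rw [hk, Nat.add_sub_cancel]; ring))), zero_add, pow_one] at h2'
  · have h := (exists_plus_gen (p := p) hodd (r := 2) two_pos).prod (exists_minus (p := p) hodd (r := 1) one_pos).1
    rw [show (-1 : ℤ) * -1 = 1 by norm_num, pow_one] at h
    have hl : Nat.lcm (q ^ 2 - 1) (q + 1) = q ^ 2 - 1 := Nat.lcm_eq_left ⟨q - 1, by
      rw [hk, Nat.add_sub_cancel, show (2 * k + 1) ^ 2 = (2 * k + 1 + 1) * (2 * k) + 1 by ring, Nat.add_sub_cancel]⟩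
    rw [hl] at h
    have h2' := (inA_of_piece hQ hp2 hexc (k := 2) h (by decide) (by omega) (Or.inl two_pos)).2 0
      (cop 2 _ two_pos (Or.inr dvd_rfl)) (by norm_num)
    rwa [zero_add, pow_one] at h2'
  · have h := (exists_plus_gen (p := 3) hodd (r := 1) one_pos).prod (exists_plus_gen (p := 3) hodd (r := 1) one_pos)
    rw [show (-1 : ℤ) * -1 = 1 by norm_num, Nat.lcm_self, pow_one] at h
    exact (inA_of_piece hQ hp2 hexc (k := 4) h (by decide) (by omega) (Or.inl (by norm_num))).2 1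
      (cop 1 _ one_pos (Or.inr (by rw [pow_one]))) (by norm_num)
  · have h := (exists_minus (p := 3) hodd (r := 1) one_pos).1.prod (exists_minus (p := 3) hodd (r := 1) one_pos).1
    rw [show (-1 : ℤ) * -1 = 1 by norm_num, Nat.lcm_self, pow_one] at h
    exact (inA_of_piece hQ hp2 hexc (k := 4) h (by decide) (by omega) (Or.inl (by norm_num))).2 1
      (cop 1 _ one_pos (Or.inl (by rw [pow_one]))) (by norm_num)
  · have hev : Even (q / 2) := by
      have : q % 4 = 1 := by rw [hf, Nat.pow_mod]; norm_num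
      exact ⟨q / 4, by omega⟩
    exact (inA_of_piece hQ hp2 hexc (k := 6) (exists_neg_one (p := 5) hodd hev) (by decide) (by omega)
      (Or.inl (by norm_num))).2 1 (by norm_num) (by norm_num)

end CfsgLib.OrthSpectrum99
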